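import Cfsg.Agent.Recog.CT.Sp.Relations

/-!
Groups generated by elements with the relations of type C: Bruhat decomposition, and injectivity of a
matrix representation.
-/

set_option autoImplicit false
set_option linter.unusedSectionVars false
set_option linter.unusedSimpArgs false

namespace Cfsg.Agent.Recog.CT.Sp

open Matrix
open scoped commutatorElement

variable {F : Type*} [Field F] {G : Type*} [Group G] {n : ℕ}

/-- the weight of a signed axis -/
def wt {n : ℕ} (a : Ax n) : ℤ := if a.2 then 2 * ((n : ℤ) - a.1) - 1 else -(2 * ((n : ℤ) - a.1) - 1)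

/-- height of a root -/
def ht {n : ℕ} (a b : Ax n) : ℤ := wt a + wt b

theorem wt_du (a : Ax n) : wt (du a) = -wt a := by
  obtain ⟨i, s⟩ := a
  cases s <;> simp [wt, du]

theorem wt_odd (a : Ax n) : wt a % 2 = 1 := by
  obtain ⟨i, s⟩ := a
  cases s <;> simp [wt] <;> omega

theorem wt_injective : Function.Injective (wt (n := n)) := by
  rintro ⟨i, s⟩ ⟨j, r⟩ h
  have := i.isLt
  have := j.isLt
  cases s <;> cases r <;> simp [wt] at h ⊢
  all_goals first
    | exact Fin.ext (by omega)
    | omega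

theorem ht_ne {a b : Ax n} (h : b ≠ du a) : ht a b ≠ 0 := fun e =>
  h (wt_injective (by rw [wt_du]; unfold ht at e; omega))

/-- the same root -/
def Same (r s : Ax n × Ax n) : Prop := r = s ∨ r = (s.2, s.1)

theorem same_comm_left {a b : Ax n} {s : Ax n × Ax n} : Same (b, a) s ↔ Same (a, b) s := by
  obtain ⟨c, d⟩ := s
  simp only [Same, Prod.mk.injEq]; tauto

theorem same_comm_right {r : Ax n × Ax n} {c d : Ax n} : Same r (d, c) ↔ Same r (c, d) := by
  simp only [Same]; tauto

theorem ht_same {a b c d : Ax n} (h : Same (a, b) (c, d)) : ht a b = ht c d := by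
  rcases h with h | h <;> simp only [Prod.mk.injEq] at h <;> simp [ht, h.1, h.2, add_comm]

namespace CRels

variable (R : CRels G n F)

theorem x_zero {a b : Ax n} (h : b ≠ du a) : R.x a b 0 = 1 := by
  have e := R.add a b h 0 0
  rw [add_zero] at e
  exact mul_eq_left.1 e

theorem x_inv {a b : Ax n} (h : b ≠ du a) (t : F) : (R.x a b t)⁻¹ = R.x a b (-t) :=
  inv_eq_of_mul_eq_one_right (by rw [R.add a b h, add_neg_cancel, R.x_zero h])

theorem root_symm {a b : Ax n} (h : b ≠ du a) : a ≠ du b := fun e => h (by rw [e, du_du])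

theorem root_du {a b : Ax n} (h : b ≠ du a) : du b ≠ du (du a) := fun e => h (by
  have := congrArg du e
  rwa [du_du, du_du] at this)

theorem root_of_axis {a b : Ax n} (h : a.1 ≠ b.1) : b ≠ du a := fun e => h (by rw [e]; rfl)

theorem ne_of_axis {a b : Ax n} (h : a.1 ≠ b.1) : a ≠ b := fun e => h (by rw [e])

theorem eq_of_axis {a b : Ax n} (h : a.1 = b.1) (h' : b ≠ du a) : b = a :=
  Prod.ext h.symm (by
    by_contra hs
    refine h' (Prod.ext h.symm ?_)
    show b.2 = !a.2
    revert hs
    cases a.2 <;> cases b.2 <;> simp)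

/-- the roots' subgroup -/
def U (S : Set (Ax n × Ax n)) : Subgroup G :=
  Subgroup.closure {g | ∃ a b t, (a, b) ∈ S ∧ b ≠ du a ∧ g = R.x a b t}

theorem mem_U {S : Set (Ax n × Ax n)} {a b : Ax n} (hS : (a, b) ∈ S) (h : b ≠ du a) (t : F) :
    R.x a b t ∈ R.U S := Subgroup.subset_closure ⟨a, b, t, hS, h, rfl⟩

theorem U_le {S : Set (Ax n × Ax n)} {H : Subgroup G}
    (h : ∀ a b t, (a, b) ∈ S → b ≠ du a → R.x a b t ∈ H) : R.U S ≤ H := by
  rw [U, Subgroup.closure_le]
  rintro _ ⟨a, b, t, hS, hr, rfl⟩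
  exact h a b t hS hr

theorem U_induction {S : Set (Ax n × Ax n)} {p : G → Prop} (one : p 1)
    (mul : ∀ a b t g, (a, b) ∈ S → b ≠ du a → g ∈ R.U S → p g → p (R.x a b t * g)) {g : G}
    (hg : g ∈ R.U S) : p g := by
  unfold U at hg
  induction hg using Subgroup.closure_induction_left with
  | one => exact one
  | mul_left x hx y hy ih =>
    obtain ⟨a, b, t, hS, hr, rfl⟩ := hx
    exact mul a b t y hS hr hy ih
  | inv_mul_cancel x hx y hy ih =>
    obtain ⟨a, b, t, hS, hr, rfl⟩ := hx
    rw [R.x_inv hr]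
    exact mul a b (-t) y hS hr hy ih

theorem conj_mem {S : Set (Ax n × Ax n)} {y : G}
    (h : ∀ a b t, (a, b) ∈ S → b ≠ du a → y * R.x a b t * y⁻¹ ∈ R.U S) {g : G} (hg : g ∈ R.U S) :
    y * g * y⁻¹ ∈ R.U S := (R.U_le (H := (R.U S).comap (MulAut.conj y).toMonoidHom) h) hg

/-- the heights allowed for the extra factors of a conjugate -/
def Ext (c d a b e f : Ax n) : Prop :=
  f ≠ du e ∧ ¬ Same (e, f) (du c, du d) ∧
    (ht e f = ht c d + ht a b ∨ ht e f = ht c d + 2 * ht a b ∨
      (ht e f = 2 * ht c d + ht a b ∧ (ht a b = 2 → ht c d ≠ -2)))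

/-- conjugate of one root element by another -/
theorem conj_root {c d a b : Ax n} (hcd : d ≠ du c) (hab : b ≠ du a) (hne : ¬ Same (a, b) (du c, du d))
    (u t : F) {S : Set (Ax n × Ax n)} (hS : ∀ e f, Ext c d a b e f → (e, f) ∈ S) :
    ∃ z ∈ R.U S, R.x c d u * R.x a b t * (R.x c d u)⁻¹ = z * R.x a b t := by
  let P : Ax n → Ax n → Ax n → Ax n → Prop := fun c d a b =>
    (∀ e f, Ext c d a b e f → (e, f) ∈ S) →
      ∃ z ∈ R.U S, R.x c d u * R.x a b t * (R.x c d u)⁻¹ = z * R.x a b t
  have symL : ∀ c d a b, P c d a b → P d c a b := by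
    intro c d a b h hS
    obtain ⟨z, hz, e⟩ := h (fun e f he => hS e f ⟨he.1, by rw [same_comm_right]; exact he.2.1, by
      rw [show ht d c = ht c d from add_comm _ _]; exact he.2.2⟩)
    exact ⟨z, hz, by rw [R.symm d c]; exact e⟩
  have symR : ∀ c d a b, P c d a b → P c d b a := by
    intro c d a b h hS
    obtain ⟨z, hz, e⟩ := h (fun e f he => hS e f ⟨he.1, he.2.1, by
      rw [show ht b a = ht a b from add_comm _ _]; exact he.2.2⟩)
    exact ⟨z, hz, by rw [R.symm b a]; exact e⟩
  have K1 : ∀ c b : Ax n, c.1 ≠ b.1 → P c c (du c) b := by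
    intro c b hax hS
    have h1 : b ≠ du c := root_of_axis hax
    have h2 : b ≠ du b := fun e => du_ne b e.symm
    have e := R.long_short c b hax u t
    rw [MulAut.conj_apply] at e
    have hb1 : du c ≠ du b := ne_of_axis (a := du c) (b := du b) hax
    have hb2 : c ≠ du b := ne_of_axis (a := c) (b := du b) hax
    have hb3 : b ≠ c := ne_of_axis (Ne.symm hax)
    have s2 := R.short2 b (du c) (Ne.symm hax) t (eps c.2 * u * t)
    rw [du_du, R.symm b (du c), R.symm b c] at s2
    have cB : Commute (R.x (du c) b t) (R.x b b (u * t ^ 2)) :=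
      R.comm _ _ _ _ (by rw [du_du]; exact hb3) h2 hb1 hb1 h2 h2 _ _
    have hlong := R.mem_U (hS b b ⟨h2, (by
      rintro (h | h) <;> simp only [Prod.mk.injEq] at h <;> exact h1 h.1),
      Or.inr (Or.inl (by simp [ht, wt_du]; ring))⟩) h2
    refine ⟨⁅R.x (du c) b t, R.x c b (eps c.2 * u * t)⁆ * R.x c b (eps c.2 * u * t) * R.x b b (u * t ^ 2),
      mul_mem (mul_mem (by rw [s2]; exact hlong _)
        (R.mem_U (hS _ _ ⟨h1, (by
          rintro (h | h) <;> simp only [Prod.mk.injEq] at h <;> exact du_ne c h.1.symm),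
          Or.inl (by simp [ht, wt_du])⟩) h1 _)) (hlong _), ?_⟩
    rw [e, commutatorElement_def]
    calc R.x (du c) b t * R.x c b (eps c.2 * u * t) * R.x b b (u * t ^ 2)
        = R.x (du c) b t * R.x c b (eps c.2 * u * t) * (R.x (du c) b t)⁻¹ *
            (R.x (du c) b t * R.x b b (u * t ^ 2)) := by group
      _ = R.x (du c) b t * R.x c b (eps c.2 * u * t) * (R.x (du c) b t)⁻¹ *
            (R.x b b (u * t ^ 2) * R.x (du c) b t) := by rw [cB.eq]
      _ = _ := by group
  have K2 : ∀ a d : Ax n, a.1 ≠ d.1 → P (du a) d a a := by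
    intro a d hax hS
    have h1 : d ≠ du (du a) := by rw [du_du]; exact fun e => hax (by rw [e])
    have h2 : d ≠ du a := root_of_axis hax
    have h3 : d ≠ du d := fun e => du_ne d e.symm
    have h4 : a ≠ du a := fun e => du_ne a e.symm
    have m1 : (a, d) ∈ S := hS _ _ ⟨h2, by
      rintro (h | h) <;> simp only [Prod.mk.injEq, du_du] at h
      · exact h3 h.2
      · exact hax (by rw [h.2]), Or.inl (by simp [ht, wt_du]; ring)⟩
    have m2 : (d, d) ∈ S := hS _ _ ⟨h3, by
      rintro (h | h) <;> simp only [Prod.mk.injEq, du_du] at h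
      · exact hax (by rw [h.1])
      · exact hax (by rw [h.2]), Or.inr (Or.inr ⟨by simp [ht, wt_du]; ring, fun g2 g3 => by
        simp only [ht, wt_du] at g2 g3
        exact h2 (wt_injective (by rw [wt_du]; omega))⟩)⟩
    refine ⟨R.x a d (eps a.2 * t * -u) * R.x d d (t * (-u) ^ 2), mul_mem (R.mem_U m1 h2 _) (R.mem_U m2 h3 _), ?_⟩
    have e := R.long_short a d hax t (-u)
    rw [MulAut.conj_apply] at e
    calc R.x (du a) d u * R.x a a t * (R.x (du a) d u)⁻¹
        = R.x (du a) d u * (R.x a a t * R.x (du a) d (-u) * (R.x a a t)⁻¹) * R.x a a t := by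
          rw [R.x_inv h1]; group
      _ = _ := by
          rw [e, ← mul_assoc (R.x (du a) d u), ← mul_assoc (R.x (du a) d u), R.add _ _ h1, add_neg_cancel,
            R.x_zero h1, one_mul]
  have K3 : ∀ A B C : Ax n, A.1 ≠ B.1 → B.1 ≠ C.1 → A.1 ≠ C.1 → P A B (du B) C := by
    intro A B C hab hbc hac hS
    have h1 : C ≠ du A := root_of_axis hac
    refine ⟨R.x A C (eps B.2 * u * t), R.mem_U (hS _ _ ⟨h1, ?_, Or.inl (by simp [ht, wt_du])⟩) h1 _, ?_⟩
    · rintro (h | h) <;> simp only [Prod.mk.injEq] at h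
      · exact du_ne A h.1.symm
      · exact ne_of_axis (a := A) (b := du B) hab h.1
    · rw [← R.short3 A B C hab hbc hac u t, commutatorElement_def]; group
  have K4 : ∀ A B : Ax n, A.1 ≠ B.1 → P A B A (du B) := by
    intro A B hab hS
    have h1 : A ≠ du A := fun e => du_ne A e.symm
    refine ⟨R.x A A (2 * eps B.2 * u * t), R.mem_U (hS _ _ ⟨h1, ?_, Or.inl (by simp [ht, wt_du]; ring)⟩) h1 _, ?_⟩
    · rintro (h | h) <;> simp only [Prod.mk.injEq] at h
      · exact h1 h.1
      · exact h1 h.2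
    · rw [← R.short2 A B hab u t, commutatorElement_def]; group
  have main : ∀ c d b : Ax n, d ≠ du c → b ≠ c → b ≠ du d → P c d (du c) b := by
    intro c d b hcd hbc hbd
    by_cases hc : c.1 = d.1
    · obtain rfl := eq_of_axis hc hcd
      exact K1 d b fun e => hbc (eq_of_axis e hbd)
    by_cases hb : b.1 = c.1
    · obtain rfl : b = du c := eq_of_axis (a := du c) hb.symm (by rw [du_du]; exact hbc)
      have h := K2 (du c) d hc
      rwa [du_du] at h
    by_cases hbd1 : b.1 = d.1
    · obtain rfl := eq_of_axis hbd1.symm hbd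
      exact symR _ _ _ _ (symL _ _ _ _ (K4 _ c hb))
    exact symL _ _ _ _ (K3 d c b (Ne.symm hc) (Ne.symm hb) (Ne.symm hbd1))
  have inj : ∀ {x y : Ax n}, du x = du y → x = y := fun {x y} e => by
    have := congrArg du e; rwa [du_du, du_du] at this
  by_cases h1 : a = du c
  · subst h1
    refine main c d b hcd (fun e => hab (by rw [e, du_du])) (fun e => hne (Or.inl (by rw [e]))) hS
  by_cases h2 : a = du d
  · subst h2
    exact symL _ _ _ _ (main d c b (root_symm hcd) (fun e => hab (by rw [e, du_du]))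
      (fun e => hne (Or.inr (by rw [e])))) hS
  by_cases h3 : b = du c
  · subst h3
    exact symR _ _ _ _ (main c d a hcd (fun e => hab (by rw [e])) h2) hS
  by_cases h4 : b = du d
  · subst h4
    exact symR _ _ _ _ (symL _ _ _ _ (main d c a (root_symm hcd) (fun e => hab (by rw [e])) h1)) hS
  refine ⟨1, one_mem _, ?_⟩
  rw [one_mul, (R.comm c d a b hcd hab (fun e => h1 (by rw [e, du_du])) (fun e => h3 (by rw [e, du_du]))
    (fun e => h2 (by rw [e, du_du])) (fun e => h4 (by rw [e, du_du])) u t).eq, mul_inv_cancel_right]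

/-- all positive roots -/
def Pos (n : ℕ) : Set (Ax n × Ax n) := {r | 0 < ht r.1 r.2}

/-- positive roots other than a given one -/
def Rest (c d : Ax n) : Set (Ax n × Ax n) :=
  {r | 0 < ht r.1 r.2 ∧ ¬ Same r (c, d) ∧ ¬ Same r (du c, du d)}

theorem rest_comm (c d : Ax n) : Rest (du c) (du d) = Rest c d := by
  ext r; simp only [Rest, du_du, Set.mem_ofPred_eq]; tauto

theorem ht_even (a b : Ax n) : ht a b % 2 = 0 := by
  have := wt_odd a
  have := wt_odd b
  unfold ht
  omega

theorem rest_conj {c d : Ax n} (hcd : d ≠ du c) (hgap : ht c d = 2 ∨ ht c d = -2) (u : F) :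
    ∀ a b t, (a, b) ∈ Rest c d → b ≠ du a → R.x c d u * R.x a b t * (R.x c d u)⁻¹ ∈ R.U (Rest c d) := by
  intro a b t hmem hab
  obtain ⟨hp, h1, h2⟩ := hmem
  change 0 < ht a b at hp
  obtain ⟨z, hz, e⟩ := R.conj_root hcd hab h2 u t (S := Rest c d) (fun e f ⟨hef, hne, hg⟩ => by
    have h0 := ht_ne hef
    have := ht_even a b
    have := ht_even e f
    refine ⟨show 0 < ht e f from ?_, fun hc => ?_, hne⟩
    · rcases hg with hg | hg | ⟨hg, hx⟩ <;> omega
    · have h' := ht_same hc
      rcases hg with hg | hg | ⟨hg, hx⟩ <;> omega)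
  rw [e]
  exact mul_mem hz (R.mem_U (show (a, b) ∈ Rest c d from ⟨hp, h1, h2⟩) hab t)

/-- the Weyl element -/
def W (p q : Ax n) (v : F) : G :=
  R.x p q v * R.x (du p) (du q) (eps p.2 * eps q.2 * v⁻¹) * R.x p q v

theorem rest_W {c d : Ax n} (hcd : d ≠ du c) (hgap : ht c d = 2 ∨ ht c d = -2) (v : F) {g : G}
    (hg : g ∈ R.U (Rest c d)) : R.W c d v * g * (R.W c d v)⁻¹ ∈ R.U (Rest c d) := by
  have h1 : ∀ u {g}, g ∈ R.U (Rest c d) → R.x c d u * g * (R.x c d u)⁻¹ ∈ R.U (Rest c d) := fun u _ hg =>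
    R.conj_mem (R.rest_conj hcd hgap u) hg
  have h2 : ∀ u {g}, g ∈ R.U (Rest c d) →
      R.x (du c) (du d) u * g * (R.x (du c) (du d) u)⁻¹ ∈ R.U (Rest c d) := fun u _ hg => by
    rw [← rest_comm]
    rw [← rest_comm] at hg
    exact R.conj_mem (R.rest_conj (root_du hcd) (by simp only [ht, wt_du] at hgap ⊢; omega) u) hg
  rw [show R.W c d v * g * (R.W c d v)⁻¹ = R.x c d v * (R.x (du c) (du d) (eps c.2 * eps d.2 * v⁻¹) *
    (R.x c d v * g * (R.x c d v)⁻¹) * (R.x (du c) (du d) (eps c.2 * eps d.2 * v⁻¹))⁻¹) * (R.x c d v)⁻¹ by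
      simp only [W]; group]
  exact h1 v (h2 _ (h1 v hg))

theorem x_eq_W {p q : Ax n} (h : q ≠ du p) {w : F} (_hw : w ≠ 0) :
    R.x (du p) (du q) w = R.x p q (-(eps p.2 * eps q.2 / w)) * R.W p q (eps p.2 * eps q.2 / w) *
      R.x p q (-(eps p.2 * eps q.2 / w)) := by
  have he : eps (F := F) p.2 * eps q.2 * (eps p.2 * eps q.2 / w)⁻¹ = w := by
    cases p.2 <;> cases q.2 <;> simp [inv_neg, inv_div, div_neg]
  simp only [W, he, ← mul_assoc, R.add p q h, neg_add_cancel, R.x_zero h, one_mul]
  rw [mul_assoc, R.add p q h, add_neg_cancel, R.x_zero h, mul_one]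

theorem split {S : Set (Ax n × Ax n)} {p q : Ax n} (h : q ≠ du p)
    (hn : ∀ u a b t, (a, b) ∈ S → b ≠ du a → R.x p q u * R.x a b t * (R.x p q u)⁻¹ ∈ R.U S)
    {S' : Set (Ax n × Ax n)} (hS : ∀ r ∈ S', r ∈ S ∨ Same r (p, q)) {g : G} (hg : g ∈ R.U S') :
    ∃ t, ∃ g' ∈ R.U S, g = R.x p q t * g' := by
  refine R.U_induction (p := fun g => ∃ t, ∃ g' ∈ R.U S, g = R.x p q t * g')
    ⟨0, 1, one_mem _, by rw [R.x_zero h, one_mul]⟩ (fun a b s g hab hr _ ⟨t, g', hg', e⟩ => ?_) hg
  subst e
  rcases hS _ hab with hS' | hc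
  · refine ⟨t, R.x p q (-t) * R.x a b s * (R.x p q (-t))⁻¹ * g', mul_mem (hn _ a b s hS' hr) hg', ?_⟩
    rw [← R.x_inv h]; group
  · refine ⟨s + t, g', hg', ?_⟩
    have e : R.x a b s = R.x p q s := by
      rcases hc with hc | hc <;> simp only [Prod.mk.injEq] at hc <;> rw [hc.1, hc.2]
      exact R.symm q p s
    rw [e, ← mul_assoc, R.add p q h]

/-- what is needed of the group of Weyl elements -/
structure NData (N0 : Subgroup G) : Prop where
  mem : ∀ p q, q ≠ du p → ht p q = 2 → ∀ v : F, v ≠ 0 → R.W p q v ∈ N0 ∧ R.W (du p) (du q) v ∈ N0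
  flip : ∀ p q, q ≠ du p → ht p q = 2 → ∀ v : F, v ≠ 0 → ∀ s, ∃ c : F,
    R.W p q v * R.x (du p) (du q) s * (R.W p q v)⁻¹ = R.x p q c
  moves : ∀ g ∈ N0, ∀ a b, b ≠ du a → ∃ e f : Ax n, f ≠ du e ∧ ∀ t, ∃ c c' : F,
    g * R.x a b t * g⁻¹ = R.x e f c ∧ g * R.x (du a) (du b) t * g⁻¹ = R.x (du e) (du f) c'

/-- Bruhat decomposition -/
theorem bruhat {N0 : Subgroup G} (hN : R.NData N0)
    (hgen : Subgroup.closure {g | ∃ a b t, b ≠ du a ∧ (ht a b = 2 ∨ ht a b = -2) ∧ g = R.x a b t} = ⊤)
    (g : G) : ∃ u ∈ R.U (Pos n), ∃ k ∈ N0, ∃ u' ∈ R.U (Pos n), g = u * k * u' := by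
  let M : G → Prop := fun g => ∃ u ∈ R.U (Pos n), ∃ k ∈ N0, ∃ u' ∈ R.U (Pos n), g = u * k * u'
  have step : ∀ a b t y, b ≠ du a → (ht a b = 2 ∨ ht a b = -2) → M y → M (R.x a b t * y) := by
    rintro p' q' w _ hr' hgap ⟨u, hu, k, hk, u', hu', rfl⟩
    rcases hgap with h1 | h1
    · exact ⟨_, mul_mem (R.mem_U (show (p', q') ∈ Pos n by show 0 < ht p' q'; omega) hr' w) hu, k, hk, u', hu',
        by group⟩
    by_cases hw : w = 0
    · subst hw; rw [R.x_zero hr', one_mul]; exact ⟨u, hu, k, hk, u', hu', rfl⟩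
    obtain ⟨p, rfl⟩ : ∃ p, du p = p' := ⟨du p', du_du p'⟩
    obtain ⟨q, rfl⟩ : ∃ q, du q = q' := ⟨du q', du_du q'⟩
    have hpq : q ≠ du p := fun e => hr' (by rw [e])
    have g2 : ht p q = 2 := by simp only [ht, wt_du] at h1 ⊢; omega
    have hgap : ht p q = 2 ∨ ht p q = -2 := Or.inl g2
    obtain ⟨t, r, hr, rfl⟩ := R.split hpq (S := Rest p q) (fun u a b t hS hr => R.rest_conj hpq hgap u a b t hS hr)
      (S' := Pos n) (fun r hr => by
        by_cases hc : Same r (p, q)
        · exact Or.inr hc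
        refine Or.inl ⟨hr, hc, fun hc' => ?_⟩
        have := ht_same (a := r.1) (b := r.2) hc'
        change 0 < ht r.1 r.2 at hr
        omega) hu
    have restPos : ∀ {z}, z ∈ R.U (Rest p q) → z ∈ R.U (Pos n) := fun hz =>
      (R.U_le fun a b t hS hr => R.mem_U (show (a, b) ∈ Pos n from hS.1) hr t) hz
    set ε := eps (F := F) p.2 * eps q.2 with hε
    have hε0 : ε ≠ 0 := by rw [hε]; cases p.2 <;> cases q.2 <;> simp
    set v := ε / w with hvdef
    have hv : v ≠ 0 := div_ne_zero hε0 hw
    have ez : R.x (du p) (du q) w * R.x p q t = R.x p q (-v) * R.W p q v * R.x p q (-v + t) := by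
      rw [R.x_eq_W hpq hw, mul_assoc, R.add p q hpq]
    obtain ⟨e, f, hef, hmv⟩ := hN.moves k⁻¹ (inv_mem hk) p q hpq
    have hfin : ∀ (a : F) (m y : G), m ∈ N0 → (∀ {z}, z ∈ R.U (Rest p q) → m * z * m⁻¹ ∈ R.U (Rest p q)) →
        (∀ {z}, z ∈ R.U (Rest p q) → y * z * y⁻¹ ∈ R.U (Rest p q)) → k⁻¹ * y * k ∈ R.U (Pos n) →
        R.x (du p) (du q) w * R.x p q t = R.x p q a * m * y →
        M (R.x (du p) (du q) w * (R.x p q t * r * k * u')) := by
      intro a m y hm hmn hyn hy e
      refine ⟨R.x p q a * (m * (y * r * y⁻¹) * m⁻¹), mul_mem (R.mem_U (show 0 < ht p q by omega) hpq a)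
        (restPos (hmn (hyn hr))), m * k, mul_mem hm hk, k⁻¹ * y * k * u', mul_mem hy hu', ?_⟩
      rw [show R.x (du p) (du q) w * (R.x p q t * r * k * u') =
        R.x (du p) (du q) w * R.x p q t * r * k * u' by group, e]
      group
    have hW : ∀ (v : F) {z}, z ∈ R.U (Rest p q) → R.W p q v * z * (R.W p q v)⁻¹ ∈ R.U (Rest p q) :=
      fun v _ hz => R.rest_W hpq hgap v hz
    rcases lt_or_gt_of_ne (ht_ne hef) with hneg | hpos
    · have hyq : ∀ s, k⁻¹ * R.x (du p) (du q) s * k ∈ R.U (Pos n) := fun s => by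
        obtain ⟨c, c', -, e'⟩ := hmv s
        rw [inv_inv] at e'
        rw [e']
        exact R.mem_U (show 0 < ht (du e) (du f) by simp only [ht, wt_du] at hneg ⊢; omega) (root_du hef) _
      by_cases hs : -v + t = 0
      · rw [hs, R.x_zero hpq] at ez
        exact hfin _ _ 1 (hN.mem p q hpq g2 v hv).1 (hW v) (fun hz => by simpa using hz) (by simp) ez
      · set s := -v + t with hsdef
        have hd := root_du hpq
        have es := R.x_eq_W hd hs
        rw [du_du, du_du] at es
        set v' := eps (F := F) (du p).2 * eps (du q).2 / s with hv'def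
        have hv' : v' ≠ 0 := div_ne_zero (by simp only [du]; cases p.2 <;> cases q.2 <;> simp) hs
        obtain ⟨c, ec⟩ := hN.flip p q hpq g2 v hv (-v')
        refine hfin (-v + c) (R.W p q v * R.W (du p) (du q) v') (R.x (du p) (du q) (-v'))
          (mul_mem (hN.mem p q hpq g2 v hv).1 (hN.mem p q hpq g2 v' hv').2) (fun {z} hz => ?_)
          (fun hz => ?_) (hyq _) ?_
        · rw [show R.W p q v * R.W (du p) (du q) v' * z * (R.W p q v * R.W (du p) (du q) v')⁻¹ =
            R.W p q v * (R.W (du p) (du q) v' * z * (R.W (du p) (du q) v')⁻¹) * (R.W p q v)⁻¹ by group]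
          refine hW v ?_
          rw [← rest_comm] at hz ⊢
          exact R.rest_W hd (Or.inr h1) _ hz
        · rw [← rest_comm] at hz ⊢
          exact R.conj_mem (R.rest_conj hd (Or.inr h1) _) hz
        · rw [ez, es, show R.x p q (-v) * R.W p q v *
              (R.x (du p) (du q) (-v') * R.W (du p) (du q) v' * R.x (du p) (du q) (-v')) =
            R.x p q (-v) * (R.W p q v * R.x (du p) (du q) (-v') * (R.W p q v)⁻¹) *
              (R.W p q v * R.W (du p) (du q) v') * R.x (du p) (du q) (-v') by group, ec, R.add p q hpq]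
    · refine hfin _ _ _ (hN.mem p q hpq g2 v hv).1 (hW v)
        (fun hz => R.conj_mem (R.rest_conj hpq hgap _) hz) ?_ ez
      obtain ⟨c, c', e', -⟩ := hmv (-v + t)
      rw [inv_inv] at e'
      rw [e']
      exact R.mem_U hpos hef _
  have hg : g ∈ Subgroup.closure {g | ∃ a b t, b ≠ du a ∧ (ht a b = 2 ∨ ht a b = -2) ∧ g = R.x a b t} := by
    rw [hgen]; trivial
  show M g
  induction hg using Subgroup.closure_induction_left with
  | one => exact ⟨1, one_mem _, 1, one_mem _, 1, one_mem _, by simp⟩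
  | mul_left x hx y _ ih =>
    obtain ⟨a, b, t, h, hh, rfl⟩ := hx
    exact step a b t y h hh ih
  | inv_mul_cancel x hx y _ ih =>
    obtain ⟨a, b, t, h, hh, rfl⟩ := hx
    rw [R.x_inv h]
    exact step a b (-t) y h hh ih

section Matrices

/-- the model of a root element -/
def T (a b : Ax n) (t : F) : Matrix (Ax n) (Ax n) F :=
  if a = b then 1 + Matrix.single a (du a) (eps a.2 * t)
  else 1 + Matrix.single a (du b) (eps b.2 * t) + Matrix.single b (du a) (eps a.2 * t)

/-- height of a matrix position -/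
def pgap (r c : Ax n) : ℤ := wt r - wt c

theorem T_off (a b r c : Ax n) (t : F) (h1 : ¬ Same (r, du c) (a, b)) :
    T a b t r c = if r = c then 1 else 0 := by
  simp only [Same, Prod.mk.injEq, not_or] at h1
  have e1 : ¬ (a = r ∧ du b = c) := fun h => h1.1 ⟨h.1.symm, by rw [← h.2, du_du]⟩
  have e2 : ¬ (b = r ∧ du a = c) := fun h => h1.2 ⟨h.1.symm, by rw [← h.2, du_du]⟩
  unfold T
  by_cases hab : a = b
  · subst hab
    simp [Matrix.one_apply, Matrix.single_apply, e1]
  · simp [hab, Matrix.one_apply, Matrix.single_apply, e1, e2]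

theorem T_self {a b : Ax n} (h : b ≠ du a) (t : F) : T a b t a (du b) = eps b.2 * t := by
  have h1 : a ≠ du b := root_symm h
  unfold T
  split_ifs with hab
  · subst hab; simp [Matrix.one_apply, h1]
  · simp [Matrix.one_apply, h1, Matrix.single_apply, Ne.symm hab]

variable (φ : G →* Matrix (Ax n) (Ax n) F) (hφ : ∀ a b, b ≠ du a → ∀ t, φ (R.x a b t) = T a b t)

/-- entries below height `k` are those of the identity -/
def Band (k : ℤ) (M : Matrix (Ax n) (Ax n) F) : Prop :=
  ∀ r c, pgap r c < k → M r c = if r = c then 1 else 0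

theorem band_mul {k : ℤ} (_hk : 1 ≤ k) {M M' : Matrix (Ax n) (Ax n) F} (hM : Band k M) (hM' : Band k M') :
    Band k (M * M') ∧ ∀ r c, pgap r c < 2 * k → r ≠ c → (M * M') r c = M r c + M' r c := by
  have key : ∀ r c, pgap r c < 2 * k → (M * M') r c = M r c + M' r c - if r = c then 1 else 0 := by
    intro r c hrc
    rw [Matrix.mul_apply]
    have : ∀ s, M r s * M' s c = (if r = s then M' s c else 0) + (if s = c then M r s else 0) -
        (if r = s then (if s = c then 1 else 0) else 0) := by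
      intro s
      by_cases hs : pgap r s < k
      · rw [hM r s hs]
        by_cases hrs : r = s
        · subst hrs
          simp only [if_pos rfl, one_mul]
          by_cases hrc' : r = c
          · subst hrc'
            simp [hM r r (by simp [pgap]; omega)]
          · simp [hrc']
        · simp [hrs]
      · have hrs : r ≠ s := fun e => hs (by subst e; simp [pgap]; omega)
        rw [hM' s c (by unfold pgap at hs hrc ⊢; omega)]
        simp [hrs]
    rw [Finset.sum_congr rfl (fun s _ => this s), Finset.sum_sub_distrib, Finset.sum_add_distrib]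
    simp [Finset.sum_ite_eq, Finset.sum_ite_eq', add_comm]
  refine ⟨fun r c hrc => ?_, fun r c hrc hne => by rw [key r c hrc, if_neg hne, sub_zero]⟩
  rw [key r c (by omega), hM r c hrc, hM' r c hrc]; ring

theorem band_T {k : ℤ} {a b : Ax n} (h : k ≤ ht a b) (t : F) : Band k (T (F := F) a b t) := by
  intro r c hrc
  refine T_off a b r c t fun hc => ?_
  have := ht_same hc
  simp only [ht, pgap, wt_du] at this h hrc
  omega

include hφ in
theorem U_band {k : ℤ} (hk : 1 ≤ k) {S : Set (Ax n × Ax n)}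
    (hS : ∀ a b, (a, b) ∈ S → k ≤ ht a b) {g : G} (hg : g ∈ R.U S) :
    Band k (φ g) ∧ ∀ r c, pgap r c = k → (∀ a b, (a, b) ∈ S → ¬ Same (r, du c) (a, b)) → φ g r c = 0 := by
  refine R.U_induction (p := fun g => Band k (φ g) ∧
    ∀ r c, pgap r c = k → (∀ a b, (a, b) ∈ S → ¬ Same (r, du c) (a, b)) → φ g r c = 0) ?_ ?_ hg
  · rw [map_one]
    refine ⟨fun r c _ => Matrix.one_apply, fun r c hrc _ => Matrix.one_apply_ne fun e => ?_⟩
    subst e; simp [pgap] at hrc; omega
  · rintro a b t g hab hr _ ⟨h1, h2⟩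
    rw [map_mul, hφ a b hr]
    have hb := band_T (F := F) (hS a b hab) t
    refine ⟨(band_mul hk hb h1).1, fun r c hrc hout => ?_⟩
    have hne : r ≠ c := fun e => by subst e; simp [pgap] at hrc; omega
    rw [(band_mul hk hb h1).2 r c (by omega) hne, h2 r c hrc hout, T_off a b r c t (hout a b hab), if_neg hne, add_zero]

include hφ in
theorem U_injective : ∀ g ∈ R.U (Pos n), φ g = 1 → g = 1 := by
  classical
  have hB : ∀ a b : Ax n, ht a b < 4 * (n : ℤ) + 1 := by
    rintro ⟨i, s⟩ ⟨j, r⟩
    have := i.isLt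
    have := j.isLt
    cases s <;> cases r <;> simp [ht, wt] <;> omega
  have main : ∀ d : ℕ, ∀ k : ℤ, 1 ≤ k → 4 * (n : ℤ) + 1 ≤ k + d →
      ∀ g ∈ R.U {r | k ≤ ht r.1 r.2}, φ g = 1 → g = 1 := by
    intro d
    induction d with
    | zero =>
      exact fun k _ hk g hg _ => R.U_induction (p := fun g => g = 1) rfl (fun a b t g hab _ _ _ => by
        have := hB a b
        change k ≤ ht a b at hab
        omega) hg
    | succ d ih =>
      intro k hk hB' g hg h1
      have IH := ih (k + 1) (by omega) (by push_cast at hB'; omega)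
      let S : Finset (Ax n × Ax n) → Set (Ax n × Ax n) := fun A =>
        {r | k + 1 ≤ ht r.1 r.2 ∨ (ht r.1 r.2 = k ∧ ∃ r' ∈ A, Same r r')}
      have inner : ∀ A, ∀ g ∈ R.U (S A), φ g = 1 → g = 1 := by
        intro A
        induction A using Finset.induction_on with
        | empty =>
          refine fun g hg => IH g ((R.U_le fun a b t hS hr => R.mem_U ?_ hr t) hg)
          rcases hS with hS | ⟨-, r', hr', -⟩
          exacts [hS, absurd hr' (Finset.notMem_empty _)]
        | @insert r A _ ihA =>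
          intro g hg hg1
          obtain ⟨p, q⟩ := r
          by_cases hdeg : q ≠ du p ∧ ht p q = k ∧ ∀ r' ∈ A, ¬ Same (p, q) r'
          swap
          · refine ihA g ((R.U_le fun a b t hS hr => R.mem_U ?_ hr t) hg) hg1
            rcases hS with hS | ⟨hgk, r', hr', hc⟩
            · exact Or.inl hS
            rcases Finset.mem_insert.1 hr' with rfl | hr'
            · refine Or.inr ⟨hgk, ?_⟩
              have hpq : q ≠ du p := by
                rcases hc with e | e <;> simp only [Prod.mk.injEq] at e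
                · rw [← e.1, ← e.2]; exact hr
                · rw [← e.1, ← e.2]; exact root_symm hr
              push Not at hdeg
              obtain ⟨r'', hr'', hc''⟩ := hdeg hpq ((ht_same hc).symm.trans hgk)
              refine ⟨r'', hr'', ?_⟩
              obtain ⟨x, y⟩ := r''
              rcases hc with e | e <;> rcases hc'' with e' | e' <;> simp only [Prod.mk.injEq] at e e' <;>
                simp [Same, e.1, e.2, e'.1, e'.2]
            · exact Or.inr ⟨hgk, r', hr', hc⟩
          obtain ⟨hpq, hgk, hout⟩ := hdeg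
          have memS : ∀ a b, (a, b) ∈ S A → k ≤ ht a b := fun a b h => by
            rcases h with h | h
            · exact le_trans (by omega) h
            · exact h.1.ge
          have notcls : ∀ a b, (a, b) ∈ S A → ¬ Same (p, du (du q)) (a, b) := by
            rw [du_du]
            rintro a b (h | ⟨-, ⟨x, y⟩, hr', hc⟩) hc'
            · have := ht_same hc'; simp only at h; omega
            · refine hout _ hr' ?_
              rcases hc with e | e <;> rcases hc' with e' | e' <;> simp only [Prod.mk.injEq] at e e' <;>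
                simp [Same, e.1, e.2, e'.1, e'.2]
          obtain ⟨t, g', hg', rfl⟩ := R.split hpq (S := S A) (fun u a b t hS hr => by
            have hgab := memS a b hS
            obtain ⟨z, hz, e⟩ := R.conj_root hpq hr
              (fun hc => by have := ht_same hc; simp only [ht, wt_du] at this hgk hgab; omega) u t (S := S A)
              (fun e f ⟨_, _, hg⟩ => Or.inl (by
                show k + 1 ≤ ht e f
                rcases hg with hg | hg | ⟨hg, -⟩ <;> omega))
            rw [e]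
            exact mul_mem hz (R.mem_U hS hr t))
            (S' := S (insert (p, q) A)) (fun r hr => by
              rcases hr with h | ⟨hgk', r', hr', hc⟩
              · exact Or.inl (Or.inl h)
              rcases Finset.mem_insert.1 hr' with rfl | hr'
              exacts [Or.inr hc, Or.inl (Or.inr ⟨hgk', r', hr', hc⟩)]) hg
          have hU := R.U_band φ hφ hk memS hg'
          have hpg : pgap p (du q) = k := by rw [← hgk]; simp [pgap, ht, wt_du]
          have hne : p ≠ du q := root_symm hpq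
          rw [map_mul, hφ p q hpq] at hg1
          have e1 := congrFun (congrFun hg1 p) (du q)
          rw [(band_mul hk (band_T (F := F) hgk.ge t) hU.1).2 p (du q) (by omega) hne, T_self hpq,
            hU.2 p (du q) hpg notcls, add_zero, Matrix.one_apply_ne hne] at e1
          obtain rfl : t = 0 := by cases hq : q.2 <;> simp [hq] at e1 <;> exact e1
          rw [R.x_zero hpq, one_mul]
          refine ihA g' hg' ?_
          rw [← hφ p q hpq, R.x_zero hpq, map_one, one_mul] at hg1
          exact hg1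
      refine inner Finset.univ g ((R.U_le fun a b t hS hr => R.mem_U ?_ hr t) hg) h1
      change k ≤ ht a b at hS
      rcases lt_or_eq_of_le hS with h | h
      · exact Or.inl (by show k + 1 ≤ ht a b; omega)
      · exact Or.inr ⟨h.symm, (a, b), Finset.mem_univ _, Or.inl rfl⟩
  intro g hg h1
  refine main (4 * n) 1 le_rfl (by push_cast; omega) g ((R.U_le fun a b t hS hr => R.mem_U ?_ hr t) hg) h1
  change 0 < ht a b at hS
  show 1 ≤ ht a b
  omega

include hφ in
/-- The representation is injective. -/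
theorem rep_injective {N0 : Subgroup G} (hN : R.NData N0)
    (hNU : ∀ k ∈ N0, Band 1 (φ k) → k ∈ R.U (Pos n))
    (hgen : Subgroup.closure {g | ∃ a b t, b ≠ du a ∧ (ht a b = 2 ∨ ht a b = -2) ∧ g = R.x a b t} = ⊤)
    {g : G} (hg : φ g = 1) : g = 1 := by
  obtain ⟨u, hu, k, hk, u', hu', rfl⟩ := R.bruhat hN hgen g
  have en : φ k = φ (u⁻¹ * u'⁻¹) := by
    have : φ (u⁻¹ * (u * k * u') * u'⁻¹) = φ (u⁻¹ * u'⁻¹) := by
      rw [map_mul, map_mul, hg, mul_one, map_mul]
    rwa [show u⁻¹ * (u * k * u') * u'⁻¹ = k by group] at this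
  have hb := (R.U_band φ hφ le_rfl (S := Pos n) (fun a b h => by change 0 < ht a b at h; omega)
    (mul_mem (inv_mem hu) (inv_mem hu'))).1
  rw [← en] at hb
  exact R.U_injective φ hφ _ (mul_mem (mul_mem hu (hNU k hk hb)) hu') hg

end Matrices

end CRels

end Cfsg.Agent.Recog.CT.Sp
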