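import Cfsg.Agent.Recog.CT.Sl2

/-!
Two commuting copies of SL(2, F) joined by a short root group: relations of type C of rank two.
-/

set_option autoImplicit false

namespace Cfsg.Agent.Recog.CT.Sp

open scoped commutatorElement

variable {F : Type*} [Field F] {G : Type*} [Group G]

local notation "SL2" => Matrix.SpecialLinearGroup (Fin 2) F

/-- the Weyl element of SL(2, F) -/
def sw : SL2 := uu 1 * ll (-1) * uu 1

/-- the torus of SL(2, F) -/
def dg (c : Fˣ) : SL2 := ⟨!![(c : F), 0; 0, ((c⁻¹ : Fˣ) : F)], by simp [Matrix.det_fin_two]⟩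

theorem dg_coe (c : Fˣ) : ((dg c : SL2) : Matrix (Fin 2) (Fin 2) F) = !![(c : F), 0; 0, ((c⁻¹ : Fˣ) : F)] := rfl

theorem sw_coe : ((sw : SL2) : Matrix (Fin 2) (Fin 2) F) = !![0, 1; -1, 0] := by
  ext i j; fin_cases i <;> fin_cases j <;> simp [sw, Matrix.mul_apply, Fin.sum_univ_two]

theorem sw_sq : (sw : SL2) * sw = dg (-1) := by
  ext i j; fin_cases i <;> fin_cases j <;> simp [sw_coe, dg_coe, Matrix.mul_apply, Fin.sum_univ_two, inv_neg]

theorem dg_mul (c d : Fˣ) : dg c * dg d = dg (c * d) := by
  ext i j; fin_cases i <;> fin_cases j <;> simp [dg_coe, Matrix.mul_apply, Fin.sum_univ_two, mul_comm]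

theorem dg_one : dg (1 : Fˣ) = 1 := by
  ext i j; fin_cases i <;> fin_cases j <;> simp [dg_coe]

theorem sw_uu (t : F) : (sw : SL2) * uu t = ll (-t) * sw := by
  ext i j; fin_cases i <;> fin_cases j <;> simp [sw_coe, Matrix.mul_apply, Fin.sum_univ_two]

theorem sw_ll (t : F) : (sw : SL2) * ll (-t) = uu t * sw := by
  ext i j; fin_cases i <;> fin_cases j <;> simp [sw_coe, Matrix.mul_apply, Fin.sum_univ_two]

theorem dg_uu (c : Fˣ) (t : F) : dg c * uu t = uu ((c : F) ^ 2 * t) * dg c := by
  ext i j; fin_cases i <;> fin_cases j <;> simp [dg_coe, Matrix.mul_apply, Fin.sum_univ_two] <;> field_simp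

theorem dg_ll (c : Fˣ) (t : F) : dg c * ll t = ll (((c⁻¹ : Fˣ) : F) ^ 2 * t) * dg c := by
  ext i j; fin_cases i <;> fin_cases j <;> simp [dg_coe, Matrix.mul_apply, Fin.sum_univ_two] <;> field_simp

/-- the sign of a letter -/
def eps : Bool → F := fun s => if s then 1 else -1

@[simp] theorem eps_true : eps (F := F) true = 1 := rfl
@[simp] theorem eps_false : eps (F := F) false = -1 := rfl

theorem eps_not (s : Bool) : eps (F := F) (!s) = -eps s := by cases s <;> simp

theorem eps_mul_self (s : Bool) : eps (F := F) s * eps s = 1 := by cases s <;> simp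

/-- the long root element of a copy -/
def lr (A : SL2 →* G) (s : Bool) (t : F) : G := if s then A (uu t) else A (ll (-t))

theorem lr_add (A : SL2 →* G) (s : Bool) (t u : F) : lr A s t * lr A s u = lr A s (t + u) := by
  cases s <;> simp [lr, ← map_mul, uu_add, ll_add, add_comm]

theorem lr_inv (A : SL2 →* G) (s : Bool) (t : F) : (lr A s t)⁻¹ = lr A s (-t) := by
  cases s <;> simp [lr, ← map_inv, uu_inv, ll_inv]

theorem sw_lr (A : SL2 →* G) (s : Bool) (t : F) : MulAut.conj (A sw) (lr A s t) = lr A (!s) t := by
  rw [MulAut.conj_apply]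
  cases s <;> simp only [lr, Bool.not_true, Bool.not_false, Bool.false_eq_true, if_false, if_true]
  · rw [← map_mul, sw_ll, map_mul, mul_inv_cancel_right]
  · rw [← map_mul, sw_uu, map_mul, mul_inv_cancel_right]

/-- the relations at one end -/
structure Side (A B : SL2 →* G) (m : F → G) : Prop where
  ml : ∀ t u, Commute (A (uu t)) (m u)
  formula : ∀ s u, A (ll (-s)) * m u * (A (ll (-s)))⁻¹ =
    m u * MulAut.conj (A sw) (m (s * u)) * B (uu (s * u ^ 2))
  selfc : ∀ t u, ⁅m t, MulAut.conj (A sw) (m (-u))⁆ = B (uu (2 * t * u))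
  tor : ∀ (c : Fˣ) u, MulAut.conj (A (dg c)) (m u) = m ((c : F) * u)

/-- two copies joined by short root elements -/
structure Edge (A B : SL2 →* G) (m : F → G) : Prop where
  add : ∀ t u, m t * m u = m (t + u)
  comm : ∀ x y, Commute (A x) (B y)
  sa : Side A B m
  sb : Side B A m

namespace Edge

variable {A B : Matrix.SpecialLinearGroup (Fin 2) F →* G} {m : F → G}

/-- the short root elements -/
def x (_E : Edge A B m) (s r : Bool) (t : F) : G :=
  MulAut.conj ((if s then 1 else A sw) * (if r then 1 else B sw)) (m (eps s * eps r * t))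

variable (E : Edge A B m)

include E

theorem symm : Edge B A m := ⟨E.add, fun x y => (E.comm y x).symm, E.sb, E.sa⟩

theorem x_symm (s r : Bool) (t : F) : E.symm.x r s t = E.x s r t := by
  have : (if r then 1 else B sw) * (if s then 1 else A sw) = (if s then 1 else A sw) * (if r then 1 else B sw) := by
    cases s <;> cases r <;> simp [(E.comm sw sw).eq]
  rw [x, x, this, mul_comm (eps r) (eps s)]

theorem x_tt (t : F) : E.x true true t = m t := by simp [x]

theorem x_add (s r : Bool) (t u : F) : E.x s r t * E.x s r u = E.x s r (t + u) := by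
  simp only [x, ← map_mul, E.add, mul_add]

theorem x_zero (s r : Bool) : E.x s r 0 = 1 := by
  have e := E.x_add s r 0 0
  rw [add_zero] at e
  exact mul_eq_left.1 e

theorem x_inv (s r : Bool) (t : F) : (E.x s r t)⁻¹ = E.x s r (-t) :=
  inv_eq_of_mul_eq_one_right (by rw [E.x_add, add_neg_cancel, E.x_zero])

theorem wA_x (s r : Bool) (t : F) : MulAut.conj (A sw) (E.x s r t) = E.x (!s) r (-(eps s) * t) := by
  cases s
  · simp only [x, Bool.not_false, Bool.false_eq_true, if_false, if_true, eps_false, eps_true]
    rw [← MulAut.mul_apply, ← map_mul, ← mul_assoc, ← map_mul, sw_sq, one_mul,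
      show A (dg (-1)) * (if r then 1 else B sw) = (if r then 1 else B sw) * A (dg (-1)) by
        cases r <;> simp [(E.comm (dg (-1)) sw).eq],
      map_mul, MulAut.mul_apply, E.sa.tor]
    congr 2
    simp
  · simp only [x, Bool.not_true, Bool.false_eq_true, if_false, if_true, eps_false, eps_true]
    rw [← MulAut.mul_apply, ← map_mul, one_mul]
    congr 2
    ring

theorem wB_x (s r : Bool) (t : F) : MulAut.conj (B sw) (E.x s r t) = E.x s (!r) (-(eps r) * t) := by
  rw [← E.x_symm, E.symm.wA_x, E.x_symm]

theorem wA_lr_B (r : Bool) (t : F) : MulAut.conj (A sw) (lr B r t) = lr B r t := by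
  rw [MulAut.conj_apply]
  cases r <;> simp only [lr, Bool.false_eq_true, if_false, if_true] <;> rw [(E.comm sw _).eq, mul_inv_cancel_right]

theorem wB_lr_A (s : Bool) (t : F) : MulAut.conj (B sw) (lr A s t) = lr A s t := E.symm.wA_lr_B s t

theorem commute_AB (s r : Bool) (t u : F) : Commute (lr A s t) (lr B r u) := by
  cases s <;> cases r <;> simp [lr, E.comm _ _]

/-- a long element and a short one at the same letter -/
theorem ml' (s r : Bool) (t u : F) : Commute (lr A s t) (E.x s r u) := by
  have h0 : ∀ t u, Commute (lr A true t) (E.x true true u) := fun t u => by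
    rw [E.x_tt]; exact E.sa.ml t u
  have h1 : ∀ r t u, Commute (lr A true t) (E.x true r u) := by
    intro r t u
    cases r
    · have h := (h0 t (-u)).map (MulAut.conj (B sw)).toMonoidHom
      simp only [MulEquiv.coe_toMonoidHom, E.wB_x, E.wB_lr_A] at h
      simpa using h
    · exact h0 t u
  cases s
  · have h := (h1 r t (-u)).map (MulAut.conj (A sw)).toMonoidHom
    simp only [MulEquiv.coe_toMonoidHom, E.wA_x, sw_lr] at h
    simpa using h
  · exact h1 r t u

/-- a long element and a short one at the opposite letter -/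
theorem formula' (s r : Bool) (v u : F) :
    MulAut.conj (lr A (!s) v) (E.x s r u) =
      E.x s r u * E.x (!s) r (-(eps s) * v * u) * lr B r (v * u ^ 2) := by
  have h0 : ∀ v u, MulAut.conj (lr A false v) (E.x true true u) =
      E.x true true u * E.x false true (-v * u) * lr B true (v * u ^ 2) := fun v u => by
    rw [E.x_tt, MulAut.conj_apply]
    refine (E.sa.formula v u).trans ?_
    simp [x, lr]
  have h1 : ∀ r v u, MulAut.conj (lr A false v) (E.x true r u) =
      E.x true r u * E.x false r (-v * u) * lr B r (v * u ^ 2) := by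
    intro r v u
    cases r
    · have h := congrArg (MulAut.conj (B sw)) (h0 v (-u))
      simp only [map_mul, E.wB_x, sw_lr, MulAut.conj_apply (A sw)] at h
      rw [MulAut.conj_apply (lr A false v), map_mul, map_mul, map_inv, E.wB_x, E.wB_lr_A] at h
      rw [MulAut.conj_apply]
      simpa using h
    · exact h0 v u
  cases s
  · have h := congrArg (MulAut.conj (A sw)) (h1 r v (-u))
    rw [MulAut.conj_apply (lr A false v), map_mul, map_mul, map_inv, map_mul, map_mul, E.wA_x, E.wA_x, sw_lr,
      E.wA_lr_B] at h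
    rw [MulAut.conj_apply]
    simpa using h
  · simpa using h1 r v u

/-- two short elements differing in one letter -/
theorem selfc' (s r : Bool) (t u : F) : ⁅E.x s r t, E.x (!s) r u⁆ = lr B r (2 * eps s * t * u) := by
  have h0 : ∀ t u, ⁅E.x true true t, E.x false true u⁆ = lr B true (2 * t * u) := fun t u => by
    rw [E.x_tt]
    refine (congrArg (⁅m t, ·⁆) ?_).trans (E.sa.selfc t u)
    simp [x]
  have h1 : ∀ r t u, ⁅E.x true r t, E.x false r u⁆ = lr B r (2 * t * u) := by
    intro r t u
    cases r
    · have h := congrArg (MulAut.conj (B sw)) (h0 (-t) (-u))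
      rw [map_commutatorElement, E.wB_x, E.wB_x, sw_lr] at h
      simpa using h
    · exact h0 t u
  cases s
  · have h := congrArg (MulAut.conj (A sw)) (h1 r (-t) u)
    rw [map_commutatorElement, E.wA_x, E.wA_x, E.wA_lr_B] at h
    simpa using h
  · simpa using h1 r t u

theorem tor_x (c : Fˣ) (s r : Bool) (t : F) :
    MulAut.conj (A (dg c)) (E.x s r t) = E.x s r ((if s then (c : F) else ((c⁻¹ : Fˣ) : F)) * t) := by
  have h0 : ∀ (c : Fˣ) t, MulAut.conj (A (dg c)) (E.x true r t) = E.x true r ((c : F) * t) := by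
    intro c t
    cases r
    · simp only [x, Bool.false_eq_true, if_false, if_true, one_mul, eps_false, eps_true]
      rw [← MulAut.mul_apply, ← map_mul, (E.comm (dg c) sw).eq, map_mul, MulAut.mul_apply, E.sa.tor]
      congr 2; ring
    · simp only [x, if_true, one_mul, eps_true, map_one, MulAut.one_apply]
      exact E.sa.tor c _
  cases s
  · have e : A (dg c) * A sw = A sw * A (dg c⁻¹) := by
      rw [← map_mul, ← map_mul]
      congr 1
      ext i j; fin_cases i <;> fin_cases j <;> simp [sw_coe, dg_coe, Matrix.mul_apply, Fin.sum_univ_two]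
    rw [show E.x false r t = MulAut.conj (A sw) (E.x true r (-t)) by rw [E.wA_x]; simp, ← MulAut.mul_apply, ← map_mul,
      e, map_mul, MulAut.mul_apply, h0, E.wA_x]
    simp
  · simpa using h0 c t

/-- a product in the abelian group of three roots -/
def U (s r : Bool) (p q z : F) : G := lr A s p * E.x s r q * lr B r z

/-- one shear -/
theorem shearB (s r : Bool) (v p q z : F) :
    MulAut.conj (E.x s (!r) v) (E.U s r p q z) =
      E.U s r (p - 2 * eps r * q * v + z * v ^ 2) (q - eps r * z * v) z := by
  have hA : MulAut.conj (E.x s (!r) v) (lr A s p) = lr A s p := by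
    rw [MulAut.conj_apply, (E.ml' s (!r) p v).symm.eq, mul_inv_cancel_right]
  have hX : MulAut.conj (E.x s (!r) v) (E.x s r q) = lr A s (-(2 * eps r * q * v)) * E.x s r q := by
    have h := E.symm.selfc' r s q v
    rw [E.x_symm, E.x_symm] at h
    rw [MulAut.conj_apply, ← lr_inv, ← h, commutatorElement_inv, commutatorElement_def]
    group
  have hB : MulAut.conj (E.x s (!r) v) (lr B r z) = lr A s (z * v ^ 2) * E.x s r (-(eps r * z * v)) * lr B r z := by
    have h := E.symm.formula' (!r) s z (-v)
    rw [Bool.not_not, E.x_symm, E.x_symm, eps_not, neg_sq, MulAut.conj_apply] at h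
    rw [MulAut.conj_apply, E.x_inv]
    calc E.x s (!r) v * lr B r z * E.x s (!r) (-v)
        = E.x s (!r) v * (lr B r z * E.x s (!r) (-v) * (lr B r z)⁻¹) * lr B r z := by group
      _ = E.x s r (-(eps r * z * v)) * lr A s (z * v ^ 2) * lr B r z := by
        rw [h, ← mul_assoc (E.x s (!r) v), ← mul_assoc (E.x s (!r) v), E.x_add, add_neg_cancel, E.x_zero, one_mul]
        congr 3
        ring
      _ = _ := by rw [(E.ml' s r _ _).symm.eq]
  rw [U, map_mul, map_mul, hA, hX, hB]
  have key : ∀ a b a' b' : F, ∀ c : G, lr A s p * (lr A s a * E.x s r b) * (lr A s a' * E.x s r b' * c) =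
      lr A s (p + a + a') * E.x s r (b + b') * c := by
    intro a b a' b' c
    have hc := (E.ml' s r a' b).symm.eq
    calc lr A s p * (lr A s a * E.x s r b) * (lr A s a' * E.x s r b' * c)
        = lr A s p * lr A s a * (E.x s r b * lr A s a') * E.x s r b' * c := by group
      _ = lr A s p * lr A s a * lr A s a' * (E.x s r b * E.x s r b') * c := by rw [hc]; group
      _ = _ := by rw [lr_add, lr_add, E.x_add]
  rw [key, U]
  congr 3 <;> ring

/-- the other shear -/
theorem shearA (s r : Bool) (v p q z : F) :
    MulAut.conj (E.x (!s) r v) (E.U s r p q z) =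
      E.U s r p (q - eps s * p * v) (z - 2 * eps s * q * v + p * v ^ 2) := by
  have hU : ∀ p q z, E.symm.U r s z q p = E.U s r p q z := by
    intro p q z
    simp only [U, E.x_symm]
    have h1 : Commute (lr B r z) (E.x s r q) := by
      have h := E.symm.ml' r s z q
      rwa [E.x_symm] at h
    rw [h1.eq, mul_assoc, (E.commute_AB s r p z).symm.eq, ← mul_assoc, (E.ml' s r p q).symm.eq]
  have h := E.symm.shearB r s v z q p
  rwa [E.x_symm, hU, hU] at h

/-- the element exchanging the two copies -/
def q (_E : Edge A B m) : G :=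
  B (dg (-1)) * (_E.x true false (-1) * _E.x false true 1 * _E.x true false (-1))

theorem q_U (s : Bool) (p q z : F) : MulAut.conj E.q (E.U s s p q z) = E.U s s z q p := by
  have e1 : ∀ p q z, MulAut.conj (B (dg (-1))) (E.U s s p q z) = E.U s s p (-q) z := by
    intro p q z
    have h1 : MulAut.conj (B (dg (-1))) (lr A s p) = lr A s p := by
      rw [MulAut.conj_apply]
      cases s <;> simp only [lr, Bool.false_eq_true, if_false, if_true] <;>
        rw [((E.comm _ _).symm).eq, mul_inv_cancel_right]
    have h2 : MulAut.conj (B (dg (-1))) (E.x s s q) = E.x s s (-q) := by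
      rw [← E.x_symm, E.symm.tor_x, E.x_symm]
      congr 1
      cases s <;> simp [inv_neg]
    have h3 : MulAut.conj (B (dg (-1))) (lr B s z) = lr B s z := by
      rw [MulAut.conj_apply]
      cases s <;> simp only [lr, Bool.false_eq_true, if_false, if_true]
      · rw [← map_mul, dg_ll, map_mul, mul_inv_cancel_right]; simp [inv_neg]
      · rw [← map_mul, dg_uu, map_mul, mul_inv_cancel_right]; simp
    rw [U, map_mul, map_mul, h1, h2, h3]; rfl
  rw [Edge.q, map_mul, map_mul, map_mul, MulAut.mul_apply, MulAut.mul_apply, MulAut.mul_apply]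
  cases s
  · have a := fun v p q z => E.shearA false false v p q z
    have b := fun v p q z => E.shearB false false v p q z
    simp only [Bool.not_false] at a b
    rw [a, b, a, e1]
    congr 1 <;> simp <;> ring
  · have a := fun v p q z => E.shearA true true v p q z
    have b := fun v p q z => E.shearB true true v p q z
    simp only [Bool.not_true] at a b
    rw [b, a, b, e1]
    congr 1 <;> simp <;> ring

theorem U_lrA (s r : Bool) (t : F) : E.U s r t 0 0 = lr A s t := by
  simp [U, E.x_zero, lr, uu_zero, ll_zero]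

theorem U_lrB (s r : Bool) (t : F) : E.U s r 0 0 t = lr B r t := by
  simp [U, E.x_zero, lr, uu_zero, ll_zero]

theorem U_x (s r : Bool) (t : F) : E.U s r 0 t 0 = E.x s r t := by
  simp [U, lr, uu_zero, ll_zero]

theorem q_lrA (s : Bool) (t : F) : MulAut.conj E.q (lr A s t) = lr B s t := by
  rw [← E.U_lrA s s, E.q_U, E.U_lrB]

theorem q_lrB (s : Bool) (t : F) : MulAut.conj E.q (lr B s t) = lr A s t := by
  rw [← E.U_lrB s s, E.q_U, E.U_lrA]

theorem q_A (g : SL2) : MulAut.conj E.q (A g) = B g := by
  refine DFunLike.congr_fun (hom_ext_uu (f := (MulAut.conj E.q).toMonoidHom.comp A) (g := B) (fun t => ?_)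
    (fun t => ?_)) g
  · exact E.q_lrA true t
  · simpa [lr] using E.q_lrA false (-t)

theorem q_B (g : SL2) : MulAut.conj E.q (B g) = A g := by
  refine DFunLike.congr_fun (hom_ext_uu (f := (MulAut.conj E.q).toMonoidHom.comp B) (g := A) (fun t => ?_)
    (fun t => ?_)) g
  · exact E.q_lrB true t
  · simpa [lr] using E.q_lrB false (-t)

theorem q_sq : E.q * E.q = 1 := by
  set P := E.x true false (-1) * E.x false true 1 * E.x true false (-1) with hP
  set a := A (dg (-1))
  set b := B (dg (-1))
  have e1 : (-1 : Fˣ) * -1 = 1 := by simp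
  have ha : a * a = 1 := by rw [← map_mul, dg_mul, e1, dg_one, map_one]
  have hb : b * b = 1 := by rw [← map_mul, dg_mul, e1, dg_one, map_one]
  have hab : b * a = a * b := (E.comm _ _).symm.eq
  have h1 : a * P * a⁻¹ = P⁻¹ := by
    rw [← MulAut.conj_apply, hP, map_mul, map_mul, E.tor_x, E.tor_x]
    simp [E.x_inv, _root_.mul_inv_rev, inv_neg, mul_assoc]
  have hP2 : b * P * a * (b * P)⁻¹ = b := by rw [← MulAut.conj_apply]; exact E.q_A _
  have hP3 : b * P * b * (b * P)⁻¹ = a := by rw [← MulAut.conj_apply]; exact E.q_B _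
  have hPa : P * a * P⁻¹ = b := by
    calc P * a * P⁻¹ = b⁻¹ * (b * P * a * (b * P)⁻¹) * b := by group
      _ = b := by rw [hP2]; group
  have hPb : P * b * P⁻¹ = a := by
    calc P * b * P⁻¹ = b⁻¹ * (b * P * b * (b * P)⁻¹) * b := by group
      _ = b⁻¹ * a * b := by rw [hP3]
      _ = b⁻¹ * (b * a) := by rw [mul_assoc, hab]
      _ = a := by group
  have ia : a⁻¹ = a := inv_eq_of_mul_eq_one_right ha
  have h3 : P * P = b * a := by
    have : b * P * P * a = 1 := by
      calc b * P * P * a = (P * a * P⁻¹) * P * P * a := by rw [hPa]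
        _ = P * (a * P * a⁻¹) := by rw [ia]; group
        _ = 1 := by rw [h1, mul_inv_cancel]
    calc P * P = b⁻¹ * (b * P * P * a) * a⁻¹ := by group
      _ = b * a := by rw [this, mul_one, inv_eq_of_mul_eq_one_right hb, ia]
  show b * P * (b * P) = 1
  calc b * P * (b * P) = b * (P * b * P⁻¹) * (P * P) := by group
    _ = b * a * (b * a) := by rw [hPb, h3]
    _ = (b * b) * (a * a) := by rw [show b * a * (b * a) = b * (a * b) * a by group, ← hab]; group
    _ = 1 := by rw [hb, ha, mul_one]

theorem q_x_same (s : Bool) (t : F) : MulAut.conj E.q (E.x s s t) = E.x s s t := by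
  rw [← E.U_x, E.q_U]

theorem q_x (s r : Bool) (t : F) : MulAut.conj E.q (E.x s r t) = E.x r s t := by
  have main : ∀ t, MulAut.conj E.q (E.x true false t) = E.x false true t := by
    intro t
    have h := E.symm.formula' true true (-1) t
    simp only [E.x_symm, eps_true, Bool.not_true] at h
    have h' := E.formula' true true (-1) t
    simp only [eps_true, Bool.not_true] at h'
    have hA : E.x true false t = (E.x true true t)⁻¹ * MulAut.conj (lr B false (-1)) (E.x true true t) *
        (lr A true (-(t ^ 2)))⁻¹ := by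
      rw [h]; simp only [neg_one_mul, neg_neg, one_mul]; group
    have hB : E.x false true t = (E.x true true t)⁻¹ * MulAut.conj (lr A false (-1)) (E.x true true t) *
        (lr B true (-(t ^ 2)))⁻¹ := by
      rw [h']; simp only [neg_one_mul, neg_neg, one_mul]; group
    rw [hA, hB]
    simp only [map_mul, map_inv, MulAut.conj_apply (lr B false (-1)), MulAut.conj_apply (lr A false (-1)), E.q_x_same,
      E.q_lrA, E.q_lrB]
  cases s <;> cases r
  · exact E.q_x_same false t
  · rw [← main, ← MulAut.mul_apply, ← map_mul, E.q_sq, map_one, MulAut.one_apply]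
  · exact main t
  · exact E.q_x_same true t

end Edge

end Cfsg.Agent.Recog.CT.Sp
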