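import Cfsg.Agent.Recog.CT.Sp.Transport

/-!
Root elements for all roots of type C and their relations.
-/

set_option autoImplicit false
set_option linter.unusedSectionVars false

namespace Cfsg.Agent.Recog.CT.Sp

open scoped commutatorElement

variable {F : Type*} [Field F] {G : Type*} [Group G]

local notation "SL2" => Matrix.SpecialLinearGroup (Fin 2) F

/-- a signed axis -/
abbrev Ax (n : ℕ) : Type := Fin n × Bool

/-- the opposite signed axis -/
def du {n : ℕ} (a : Ax n) : Ax n := (a.1, !a.2)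

theorem du_du {n : ℕ} (a : Ax n) : du (du a) = a := by simp [du]

theorem du_ne {n : ℕ} (a : Ax n) : du a ≠ a := fun h => by
  have := congrArg Prod.snd h
  simp [du] at this

/-- elements with the relations of type C -/
structure CRels (G : Type*) [Group G] (n : ℕ) (F : Type*) [Field F] where
  /-- the root elements -/
  x : Ax n → Ax n → F → G
  symm : ∀ a b t, x a b t = x b a t
  add : ∀ a b, b ≠ du a → ∀ t u, x a b t * x a b u = x a b (t + u)
  comm : ∀ a b c d, b ≠ du a → d ≠ du c → a ≠ du c → a ≠ du d → b ≠ du c → b ≠ du d →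
    ∀ t u, Commute (x a b t) (x c d u)
  long_short : ∀ a b : Ax n, a.1 ≠ b.1 → ∀ t u, MulAut.conj (x a a t) (x (du a) b u) =
    x (du a) b u * x a b (eps a.2 * t * u) * x b b (t * u ^ 2)
  short3 : ∀ a b c : Ax n, a.1 ≠ b.1 → b.1 ≠ c.1 → a.1 ≠ c.1 → ∀ t u,
    ⁅x a b t, x (du b) c u⁆ = x a c (eps b.2 * t * u)
  short2 : ∀ a b : Ax n, a.1 ≠ b.1 → ∀ t u, ⁅x a b t, x a (du b) u⁆ = x a a (2 * eps b.2 * t * u)

variable {N : ℕ} {S : ℕ → Matrix.SpecialLinearGroup (Fin 2) F →* G} {m : ℕ → F → G}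

/-- `g` moves the axes by `π` -/
def Moves (S : ℕ → Matrix.SpecialLinearGroup (Fin 2) F →* G) (m : ℕ → F → G) (g : G)
    (π : Equiv.Perm (Fin (N + 1))) : Prop :=
  (∀ (i : Fin (N + 1)) (y : Matrix.SpecialLinearGroup (Fin 2) F), MulAut.conj g (S i y) = S (π i) y) ∧
    ∀ i j : Fin (N + 1), i ≠ j → ∀ t, MulAut.conj g (pP S m i j t) = pP S m (π i) (π j) t

theorem Moves.mul {g h : G} {π ρ : Equiv.Perm (Fin (N + 1))} (hg : Moves S m g π) (hh : Moves S m h ρ) :
    Moves S m (g * h) (π * ρ) := by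
  refine ⟨fun i y => ?_, fun i j hij t => ?_⟩
  · rw [← conj_conj, hh.1, hg.1]; rfl
  · rw [← conj_conj, hh.2 i j hij, hg.2 _ _ (ρ.injective.ne hij)]; rfl

theorem Moves.inv {g : G} {π : Equiv.Perm (Fin (N + 1))} (hg : Moves S m g π) : Moves S m g⁻¹ π⁻¹ := by
  refine ⟨fun i y => ?_, fun i j hij t => ?_⟩
  · have h := hg.1 (π.symm i) y
    rw [Equiv.apply_symm_apply] at h
    rw [← h, conj_conj, inv_mul_cancel, map_one, MulAut.one_apply]
    rfl
  · have h := hg.2 (π.symm i) (π.symm j) (π.symm.injective.ne hij) t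
    rw [Equiv.apply_symm_apply, Equiv.apply_symm_apply] at h
    rw [← h, conj_conj, inv_mul_cancel, map_one, MulAut.one_apply]
    rfl

theorem moves_one : Moves S m (1 : G) (1 : Equiv.Perm (Fin (N + 1))) :=
  ⟨fun i y => by simp, fun i j _ t => by simp⟩

/-- a permutation with prescribed values at four places -/
theorem exists_perm {n : ℕ} {a b c d a' b' c' d' : Fin n} (h : [a, b, c, d].Nodup) (h' : [a', b', c', d'].Nodup) :
    ∃ π : Equiv.Perm (Fin n), π a = a' ∧ π b = b' ∧ π c = c' ∧ π d = d' := by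
  simp only [List.nodup_cons, List.mem_cons, List.not_mem_nil, or_false, not_or, List.nodup_nil, and_true,
    not_false_eq_true] at h h'
  obtain ⟨⟨ab, ac, ad⟩, ⟨bc, bd⟩, cd⟩ := h
  obtain ⟨⟨ab', ac', ad'⟩, ⟨bc', bd'⟩, cd'⟩ := h'
  let p1 : Equiv.Perm (Fin n) := Equiv.swap a a'
  let p2 : Equiv.Perm (Fin n) := Equiv.swap (p1 b) b' * p1
  let p3 : Equiv.Perm (Fin n) := Equiv.swap (p2 c) c' * p2
  have a1 : p1 a = a' := Equiv.swap_apply_left a a'
  have a2 : p2 a = a' := by
    simp only [p2, Equiv.Perm.mul_apply, a1]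
    exact Equiv.swap_apply_of_ne_of_ne (fun e => ab (p1.injective (a1.trans e))) ab'
  have b2 : p2 b = b' := Equiv.swap_apply_left _ _
  have a3 : p3 a = a' := by
    simp only [p3, Equiv.Perm.mul_apply, a2]
    exact Equiv.swap_apply_of_ne_of_ne (fun e => ac (p2.injective (a2.trans e))) ac'
  have b3 : p3 b = b' := by
    simp only [p3, Equiv.Perm.mul_apply, b2]
    exact Equiv.swap_apply_of_ne_of_ne (fun e => bc (p2.injective (b2.trans e))) bc'
  have c3 : p3 c = c' := Equiv.swap_apply_left _ _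
  refine ⟨Equiv.swap (p3 d) d' * p3, ?_, ?_, ?_, ?_⟩
  · simp only [Equiv.Perm.mul_apply, a3]
    exact Equiv.swap_apply_of_ne_of_ne (fun e => ad (p3.injective (a3.trans e))) ad'
  · simp only [Equiv.Perm.mul_apply, b3]
    exact Equiv.swap_apply_of_ne_of_ne (fun e => bd (p3.injective (b3.trans e))) bd'
  · simp only [Equiv.Perm.mul_apply, c3]
    exact Equiv.swap_apply_of_ne_of_ne (fun e => cd (p3.injective (c3.trans e))) cd'
  · exact Equiv.swap_apply_left _ _

theorem exists_perm2 {n : ℕ} {a b a' b' : Fin n} (h : a ≠ b) (h' : a' ≠ b') :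
    ∃ π : Equiv.Perm (Fin n), π a = a' ∧ π b = b' := by
  refine ⟨Equiv.swap (Equiv.swap a a' b) b' * Equiv.swap a a', ?_, ?_⟩
  · rw [Equiv.Perm.mul_apply, Equiv.swap_apply_left]
    exact Equiv.swap_apply_of_ne_of_ne
      (fun e => h ((Equiv.swap a a').injective ((Equiv.swap_apply_left a a').trans e))) h'
  · rw [Equiv.Perm.mul_apply]; exact Equiv.swap_apply_left _ _

theorem exists_perm3 {n : ℕ} {a b c a' b' c' : Fin n} (h : [a, b, c].Nodup) (h' : [a', b', c'].Nodup) :
    ∃ π : Equiv.Perm (Fin n), π a = a' ∧ π b = b' ∧ π c = c' := by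
  simp only [List.nodup_cons, List.mem_cons, List.not_mem_nil, or_false, not_or, List.nodup_nil, and_true,
    not_false_eq_true] at h h'
  obtain ⟨⟨ab, ac⟩, bc⟩ := h
  obtain ⟨⟨ab', ac'⟩, bc'⟩ := h'
  obtain ⟨π, pa, pb⟩ := exists_perm2 ab ab'
  refine ⟨Equiv.swap (π c) c' * π, ?_, ?_, Equiv.swap_apply_left _ _⟩
  · simp only [Equiv.Perm.mul_apply, pa]
    exact Equiv.swap_apply_of_ne_of_ne (fun e => ac (π.injective (pa.trans e))) ac'
  · simp only [Equiv.Perm.mul_apply, pb]
    exact Equiv.swap_apply_of_ne_of_ne (fun e => bc (π.injective (pb.trans e))) bc'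

namespace Amalg

variable (M : Amalg (N + 1) S m)
include M

theorem moves_q (k : Fin N) : Moves S m (qN S m k) (Equiv.swap k.castSucc k.succ) := by
  have hv : ∀ i : Fin (N + 1), ((Equiv.swap k.castSucc k.succ i : Fin (N + 1)) : ℕ) =
      Equiv.swap (k : ℕ) (k + 1) i := by
    intro i
    exact (Fin.val_injective.swap_apply k.castSucc k.succ i).symm
  refine ⟨fun i y => ?_, fun i j hij t => ?_⟩
  · rw [hv]; exact M.q_S (k := k) (by omega) i.isLt y
  · rw [hv, hv]; exact M.q_pP (k := k) (by omega) i.isLt j.isLt (fun h => hij (Fin.ext h)) t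

theorem exists_moves (π : Equiv.Perm (Fin (N + 1))) : ∃ g, Moves S m g π := by
  have h : π ∈ Submonoid.closure (Set.range fun i : Fin N => Equiv.swap i.castSucc i.succ) := by
    rw [Equiv.Perm.mclosure_swap_castSucc_succ]; trivial
  induction h using Submonoid.closure_induction with
  | mem x hx => obtain ⟨k, rfl⟩ := hx; exact ⟨_, M.moves_q k⟩
  | one => exact ⟨1, moves_one⟩
  | mul x y _ _ hx hy =>
    obtain ⟨g, hg⟩ := hx
    obtain ⟨h, hh⟩ := hy
    exact ⟨g * h, hg.mul hh⟩

theorem edge_all (i j : Fin (N + 1)) (hij : i ≠ j) : Edge (S i) (S j) (pP S m i j) := by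
  have hN : 0 + 1 < N + 1 := by
    have := i.isLt; have := j.isLt
    have : (i : ℕ) ≠ j := fun h => hij (Fin.ext h)
    omega
  obtain ⟨π, p0, p1⟩ := exists_perm2 (a := (⟨0, by omega⟩ : Fin (N + 1))) (b := ⟨1, by omega⟩) (by simp [Fin.ext_iff]) hij
  obtain ⟨g, hg⟩ := M.exists_moves π
  refine ((M.edge 0 hN).map (MulAut.conj g).toMonoidHom).congr (MonoidHom.ext fun y => ?_) (MonoidHom.ext fun y => ?_)
    (funext fun t => ?_)
  · show MulAut.conj g (S 0 y) = S i y
    rw [← p0]; exact hg.1 ⟨0, by omega⟩ y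
  · show MulAut.conj g (S 1 y) = S j y
    rw [← p1]; exact hg.1 ⟨1, by omega⟩ y
  · show MulAut.conj g (m 0 t) = pP S m i j t
    rw [← p0, ← p1, ← pP_succ S m 0]
    exact hg.2 ⟨0, by omega⟩ ⟨1, by omega⟩ (by simp [Fin.ext_iff]) t

theorem far_all (i j k : Fin (N + 1)) (hij : i ≠ j) (hki : k ≠ i) (hkj : k ≠ j) (y : SL2) (t : F) :
    Commute (S k y) (pP S m i j t) := by
  have hN : 2 < N + 1 := by
    have := i.isLt; have := j.isLt; have := k.isLt
    have : (i : ℕ) ≠ j := fun h => hij (Fin.ext h)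
    have : (k : ℕ) ≠ i := fun h => hki (Fin.ext h)
    have : (k : ℕ) ≠ j := fun h => hkj (Fin.ext h)
    omega
  obtain ⟨π, p0, p1, p2⟩ := exists_perm3 (a := (⟨0, by omega⟩ : Fin (N + 1))) (b := ⟨1, by omega⟩) (c := ⟨2, hN⟩)
    (a' := i) (b' := j) (c' := k) (by simp [Fin.ext_iff]) (by simp [hij, Ne.symm hki, Ne.symm hkj])
  obtain ⟨g, hg⟩ := M.exists_moves π
  have h := (M.far 0 2 (by omega) hN (by omega) (by omega) y t).map (MulAut.conj g).toMonoidHom
  rw [← pP_succ S m 0] at h
  simp only [MulEquiv.coe_toMonoidHom] at h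
  rw [show MulAut.conj g (S 2 y) = S k y by rw [← p2]; exact hg.1 ⟨2, hN⟩ y,
    show MulAut.conj g (pP S m 0 (0 + 1) t) = pP S m i j t by
      rw [← p0, ← p1]; exact hg.2 ⟨0, by omega⟩ ⟨1, by omega⟩ (by simp [Fin.ext_iff]) t] at h
  exact h

theorem mm_all (i j k l : Fin (N + 1)) (h : [i, j, k, l].Nodup) (t u : F) :
    Commute (pP S m i j t) (pP S m k l u) := by
  have h' := h
  simp only [List.nodup_cons, List.mem_cons, List.not_mem_nil, or_false, not_or, List.nodup_nil, and_true,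
    not_false_eq_true, Fin.ext_iff] at h'
  have hN : 3 < N + 1 := by
    have := i.isLt; have := j.isLt; have := k.isLt; have := l.isLt
    omega
  obtain ⟨π, p0, p1, p2, p3⟩ := exists_perm (a := (⟨0, by omega⟩ : Fin (N + 1))) (b := ⟨1, by omega⟩)
    (c := ⟨2, by omega⟩) (d := ⟨3, hN⟩) (by simp [Fin.ext_iff]) h
  obtain ⟨g, hg⟩ := M.exists_moves π
  have e := (M.mm 0 2 (by omega) (by omega) t u).map (MulAut.conj g).toMonoidHom
  rw [← pP_succ S m 0, ← pP_succ S m 2] at e
  simp only [MulEquiv.coe_toMonoidHom] at e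
  rw [show MulAut.conj g (pP S m 0 (0 + 1) t) = pP S m i j t by
      rw [← p0, ← p1]; exact hg.2 ⟨0, by omega⟩ ⟨1, by omega⟩ (by simp [Fin.ext_iff]) t,
    show MulAut.conj g (pP S m 2 (2 + 1) u) = pP S m k l u by
      rw [← p2, ← p3]; exact hg.2 ⟨2, by omega⟩ ⟨3, hN⟩ (by simp [Fin.ext_iff]) u] at e
  exact e

theorem chain_all (i j k : Fin (N + 1)) (hij : i ≠ j) (hjk : j ≠ k) (hik : i ≠ k) :
    Chain3 (S i) (S j) (S k) (pP S m i j) (pP S m j k) := by
  have v1 : (i : ℕ) ≠ j := fun h => hij (Fin.ext h)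
  have v2 : (j : ℕ) ≠ k := fun h => hjk (Fin.ext h)
  have v3 : (i : ℕ) ≠ k := fun h => hik (Fin.ext h)
  have hN : 2 < N + 1 := by
    have := i.isLt; have := j.isLt; have := k.isLt
    omega
  refine ⟨M.edge_all i j hij, M.edge_all j k hjk, fun x y => M.comm i k i.isLt k.isLt v3 x y,
    fun y t => M.far_all j k i hjk hij hik y t,
    fun y t => M.far_all i j k hij (Ne.symm hik) (Ne.symm hjk) y t, fun t u => ?_, M.room⟩
  obtain ⟨π, p0, p1, p2⟩ := exists_perm3 (a := (⟨0, by omega⟩ : Fin (N + 1))) (b := ⟨1, by omega⟩) (c := ⟨2, hN⟩)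
    (a' := i) (b' := j) (c' := k) (by simp [Fin.ext_iff]) (by simp [hij, hik, hjk])
  obtain ⟨g, hg⟩ := M.exists_moves π
  have e := (M.mm 0 1 (by omega) (by omega) t u).map (MulAut.conj g).toMonoidHom
  rw [← pP_succ S m 0, ← pP_succ S m 1] at e
  simp only [MulEquiv.coe_toMonoidHom] at e
  rw [show MulAut.conj g (pP S m 0 (0 + 1) t) = pP S m i j t by
      rw [← p0, ← p1]; exact hg.2 ⟨0, by omega⟩ ⟨1, by omega⟩ (by simp [Fin.ext_iff]) t,
    show MulAut.conj g (pP S m 1 (1 + 1) u) = pP S m j k u by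
      rw [← p1, ← p2]; exact hg.2 ⟨1, by omega⟩ ⟨2, hN⟩ (by simp [Fin.ext_iff]) u] at e
  exact e

theorem edge_q_moves (i j : Fin (N + 1)) (hij : i ≠ j) :
    Moves S m (M.edge_all i j hij).q (Equiv.swap i j) := by
  have hN : 0 + 1 < N + 1 := by
    have := i.isLt; have := j.isLt
    have : (i : ℕ) ≠ j := fun h => hij (Fin.ext h)
    omega
  obtain ⟨π, p0, p1⟩ := exists_perm2 (a := (⟨0, by omega⟩ : Fin (N + 1))) (b := ⟨1, by omega⟩) (by simp [Fin.ext_iff]) hij
  obtain ⟨g, hg⟩ := M.exists_moves π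
  have e : (M.edge_all i j hij).q = MulAut.conj g (qN S m 0) := by
    rw [M.qN_eq hN, ← MulEquiv.coe_toMonoidHom, Edge.map_q]
    refine (Edge.q_congr _ _ (MonoidHom.ext fun y => ?_) (MonoidHom.ext fun y => ?_) (funext fun t => ?_)).symm
    · show MulAut.conj g (S 0 y) = S i y
      rw [← p0]; exact hg.1 ⟨0, by omega⟩ y
    · show MulAut.conj g (S 1 y) = S j y
      rw [← p1]; exact hg.1 ⟨1, by omega⟩ y
    · show MulAut.conj g (m 0 t) = pP S m i j t
      rw [← p0, ← p1, ← pP_succ S m 0]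
      exact hg.2 ⟨0, by omega⟩ ⟨1, by omega⟩ (by simp [Fin.ext_iff]) t
  have h := (hg.mul (M.moves_q ⟨0, by omega⟩)).mul hg.inv
  rw [show π * Equiv.swap (Fin.castSucc (⟨0, by omega⟩ : Fin N)) (Fin.succ ⟨0, by omega⟩) * π⁻¹ = Equiv.swap i j by
    rw [← p0, ← p1, ← Equiv.swap_apply_apply]; rfl] at h
  rw [e]
  exact h

theorem z_eq (i j k : Fin (N + 1)) (hij : i ≠ j) (hjk : j ≠ k) (hik : i ≠ k) (s q : Bool) (p : F) :
    (M.chain_all i j k hij hjk hik).z s q p = (M.edge_all i k hik).x s q p := by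
  set T := M.chain_all i j k hij hjk hik
  set E := M.edge_all i k hik
  have h0 : ∀ p, T.z true true p = E.x true true p := by
    intro p
    rw [← T.q_m, E.x_tt, show T.e2.q = (M.edge_all j k hjk).q from rfl, (M.edge_q_moves j k hjk).2 i j hij,
      Equiv.swap_apply_of_ne_of_ne hij hik, Equiv.swap_apply_left]
  have hA : ∀ s q p, MulAut.conj (S i sw) (T.z s q p) = T.z (!s) q (-(eps s) * p) := by
    intro s q p
    rw [Chain3.z, map_commutatorElement, T.e1.wA_x, T.wA_y]
    rfl
  have hC : ∀ s q p, MulAut.conj (S k sw) (T.z s q p) = T.z s (!q) (-(eps q) * p) := by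
    intro s q p
    rw [Chain3.z, map_commutatorElement, T.wC_x, T.e2.wB_x, T.z_scale]
    congr 1; ring
  have h1 : ∀ q p, T.z true q p = E.x true q p := by
    intro q p
    cases q
    · have h := congrArg (MulAut.conj (S k sw)) (h0 (-p))
      rw [hC, E.wB_x] at h
      simpa using h
    · exact h0 p
  cases s
  · have h := congrArg (MulAut.conj (S i sw)) (h1 q (-p))
    rw [hA, E.wA_x] at h
    simpa using h
  · exact h1 q p

open Classical in
/-- the root elements at all pairs -/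
noncomputable def root (a b : Ax (N + 1)) (t : F) : G :=
  if h : a.1 = b.1 then lr (S a.1) a.2 (if a.2 = b.2 then t else 0) else (M.edge_all a.1 b.1 h).x a.2 b.2 t

theorem root_long (a : Ax (N + 1)) (t : F) : M.root a a t = lr (S a.1) a.2 t := by simp [root]

theorem root_short {a b : Ax (N + 1)} (h : a.1 ≠ b.1) (t : F) :
    M.root a b t = (M.edge_all a.1 b.1 h).x a.2 b.2 t := by simp [root, h]

theorem eq_of_axis {a b : Ax (N + 1)} (h : a.1 = b.1) (h' : b ≠ du a) : a = b :=
  Prod.ext h (by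
    by_contra hs
    refine h' (Prod.ext h.symm ?_)
    show b.2 = !a.2
    revert hs
    cases a.2 <;> cases b.2 <;> simp)

/-- The relations. -/
theorem exists_cRels : ∃ R : CRels G (N + 1) F, ∀ (a : Ax (N + 1)) t, R.x a a t = lr (S a.1) a.2 t ∧
    ∀ b : Ax (N + 1), ∀ h : a.1 ≠ b.1, R.x a b t = (M.edge_all a.1 b.1 h).x a.2 b.2 t := by
  have rsymm : ∀ a b t, M.root a b t = M.root b a t := by
    intro a b t
    by_cases h : a.1 = b.1
    · by_cases hs : a.2 = b.2
      · rw [Prod.ext h hs]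
      · simp [root, h, hs, Ne.symm hs, lr, uu_zero, ll_zero]
    · rw [M.root_short h, M.root_short (Ne.symm h), ← (M.edge_all b.1 a.1 (Ne.symm h)).x_symm]
      exact Edge.x_congr _ _ rfl rfl (funext fun u => by rw [pP_symm]) _ _ _
  have long_any : ∀ a c d, d ≠ du c → a ≠ du c → a ≠ du d → ∀ t u,
      Commute (M.root a a t) (M.root c d u) := by
    intro a c d hcd h1 h2 t u
    rw [M.root_long]
    by_cases hc : c.1 = d.1
    · obtain rfl := M.eq_of_axis hc hcd
      rw [M.root_long]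
      by_cases hac : a.1 = c.1
      · obtain rfl := M.eq_of_axis hac (fun e => h1 (by rw [e, du_du]))
        show _ * _ = _ * _
        rw [lr_add, lr_add, add_comm t u]
      · have := fun x y => M.comm a.1 c.1 a.1.isLt c.1.isLt (fun e => hac (Fin.ext e)) x y
        cases a.2 <;> cases c.2 <;> simp [lr, this _ _]
    · rw [M.root_short hc]
      by_cases hac : a.1 = c.1
      · obtain rfl := M.eq_of_axis hac (fun e => h1 (by rw [e, du_du]))
        exact (M.edge_all _ _ hc).ml' _ _ t u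
      by_cases had : a.1 = d.1
      · obtain rfl := M.eq_of_axis had (fun e => h2 (by rw [e, du_du]))
        rw [← (M.edge_all _ _ hc).x_symm]
        exact (M.edge_all _ _ hc).symm.ml' _ _ t u
      · refine (M.edge_all _ _ hc).commute_x (g := lr (S a.1) a.2 t) ?_ ?_ ?_ _ _ _
        · intro y
          have := fun x => M.comm a.1 c.1 a.1.isLt c.1.isLt (fun e => hac (Fin.ext e)) x y
          cases a.2 <;> simp [lr, this _]
        · intro y
          have := fun x => M.comm a.1 d.1 a.1.isLt d.1.isLt (fun e => had (Fin.ext e)) x y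
          cases a.2 <;> simp [lr, this _]
        · intro w
          cases a.2 <;> exact M.far_all c.1 d.1 a.1 hc hac had _ w
  refine ⟨{ x := M.root, symm := rsymm, add := ?_, comm := ?_, long_short := ?_, short3 := ?_, short2 := ?_ },
    fun a t => ⟨M.root_long a t, fun b h => M.root_short h t⟩⟩
  · intro a b hab t u
    by_cases h : a.1 = b.1
    · obtain rfl := M.eq_of_axis h hab
      simp only [M.root_long, lr_add]
    · simp only [M.root_short h, (M.edge_all _ _ h).x_add]
  · intro a b c d hab hcd h1 h2 h3 h4 t u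
    by_cases hab' : a.1 = b.1
    · obtain rfl := M.eq_of_axis hab' hab
      exact long_any a c d hcd h1 h2 t u
    by_cases hcd' : c.1 = d.1
    · obtain rfl := M.eq_of_axis hcd' hcd
      exact (long_any c a b hab (fun e => h1 (by rw [e, du_du])) (fun e => h3 (by rw [e, du_du])) u t).symm
    have share : ∀ a b d : Ax (N + 1), a.1 ≠ b.1 → b.1 ≠ d.1 → (a.1 = d.1 → a = d) → ∀ t u,
        Commute (M.root a b t) (M.root b d u) := by
      intro a b d hab hbd had t u
      by_cases h : a.1 = d.1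
      · obtain rfl := had h
        rw [rsymm b a]
        show _ * _ = _ * _
        simp only [M.root_short hab, (M.edge_all _ _ hab).x_add, add_comm]
      · rw [M.root_short hab, M.root_short hbd]
        exact (M.chain_all a.1 b.1 d.1 hab hbd h).par _ _ _ t u
    by_cases hbc : b.1 = c.1
    · obtain rfl := M.eq_of_axis hbc (fun e => h3 (by rw [e, du_du]))
      exact share a b d hab' hcd' (fun e => M.eq_of_axis e (fun e' => h2 (by rw [e', du_du]))) t u
    by_cases hbd : b.1 = d.1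
    · obtain rfl := M.eq_of_axis hbd (fun e => h4 (by rw [e, du_du]))
      rw [rsymm c b]
      exact share a b c hab' (Ne.symm hcd') (fun e => M.eq_of_axis e (fun e' => h1 (by rw [e', du_du]))) t u
    by_cases hac : a.1 = c.1
    · obtain rfl := M.eq_of_axis hac (fun e => h1 (by rw [e, du_du]))
      rw [rsymm a b]
      exact share b a d (Ne.symm hab') hcd' (fun e => absurd e hbd) t u
    by_cases had : a.1 = d.1
    · obtain rfl := M.eq_of_axis had (fun e => h2 (by rw [e, du_du]))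
      rw [rsymm a b, rsymm c a]
      exact share b a c (Ne.symm hab') (Ne.symm hcd') (fun e => absurd e hbc) t u
    rw [M.root_short hab', M.root_short hcd']
    refine (M.edge_all _ _ hcd').commute_x (g := (M.edge_all _ _ hab').x a.2 b.2 t) ?_ ?_ ?_ _ _ _
    · exact fun y => ((M.edge_all _ _ hab').commute_x (g := S c.1 y)
        (fun z => M.comm c.1 a.1 c.1.isLt a.1.isLt (fun e => hac (Fin.ext e.symm)) y z)
        (fun z => M.comm c.1 b.1 c.1.isLt b.1.isLt (fun e => hbc (Fin.ext e.symm)) y z)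
        (fun w => M.far_all a.1 b.1 c.1 hab' (Ne.symm hac) (Ne.symm hbc) y w) _ _ _).symm
    · exact fun y => ((M.edge_all _ _ hab').commute_x (g := S d.1 y)
        (fun z => M.comm d.1 a.1 d.1.isLt a.1.isLt (fun e => had (Fin.ext e.symm)) y z)
        (fun z => M.comm d.1 b.1 d.1.isLt b.1.isLt (fun e => hbd (Fin.ext e.symm)) y z)
        (fun w => M.far_all a.1 b.1 d.1 hab' (Ne.symm had) (Ne.symm hbd) y w) _ _ _).symm
    · exact fun w => ((M.edge_all _ _ hab').commute_x (g := pP S m c.1 d.1 w)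
        (fun z => (M.far_all c.1 d.1 a.1 hcd' hac had z w).symm)
        (fun z => (M.far_all c.1 d.1 b.1 hcd' hbc hbd z w).symm)
        (fun v => (M.mm_all a.1 b.1 c.1 d.1 (by simp [hab', hcd', hac, had, hbc, hbd]) v w).symm) _ _ _).symm
  · intro a b hab t u
    have hE : (du a).1 ≠ b.1 := hab
    rw [M.root_long, M.root_long, M.root_short hE, M.root_short hab]
    have h := (M.edge_all a.1 b.1 hab).formula' (!a.2) b.2 t u
    rw [Bool.not_not, eps_not, neg_neg] at h
    exact h
  · intro a b c hab hbc hac t u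
    have hE : (du b).1 ≠ c.1 := hbc
    rw [M.root_short hab, M.root_short hE, M.root_short hac, ← M.z_eq a.1 b.1 c.1 hab hbc hac]
    show ⁅(M.chain_all a.1 b.1 c.1 hab hbc hac).e1.x a.2 b.2 t,
      (M.chain_all a.1 b.1 c.1 hab hbc hac).e2.x (!b.2) c.2 u⁆ = _
    cases b.2
    · simpa using (M.chain_all a.1 b.1 c.1 hab hbc hac).z_swap a.2 c.2 t u
    · simpa using (M.chain_all a.1 b.1 c.1 hab hbc hac).z_scale a.2 c.2 t u
  · intro a b hab t u
    have hE : a.1 ≠ (du b).1 := hab
    rw [M.root_short hab, M.root_short hE, M.root_long]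
    have E := M.edge_all a.1 b.1 hab
    have h := E.symm.selfc' b.2 a.2 t u
    rw [E.x_symm a.2 b.2 t, E.x_symm a.2 (!b.2) u] at h
    exact h

end Amalg

end Cfsg.Agent.Recog.CT.Sp
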