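import Cfsg.Agent.Recog.CT.Sp.SpModel
import Cfsg.Agent.Forms.SympMatrix
import Cfsg.Agent.KnownB.Proj.Symp.Transv

/-!
The subgroups of the symplectic group that make up the amalgam, and the relations among their elements.
-/

set_option autoImplicit false
set_option linter.unusedSectionVars false
set_option linter.unusedSimpArgs false

namespace Cfsg.Agent.Recog.CT.Sp

open Matrix
open scoped commutatorElement
open CRels (T T_off T_self)

variable {F : Type*} [Field F] {n : ℕ}

local notation "SL2" => Matrix.SpecialLinearGroup (Fin 2) F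
local notation "Spn" => (Matrix.symplecticGroup (Fin n) F)

/-- block diagonal along the planes -/
def blk (y : Fin n → SL2) : Matrix (Fin n ⊕ Fin n) (Fin n ⊕ Fin n) F :=
  Matrix.fromBlocks (Matrix.diagonal fun i => (y i).1 0 0) (Matrix.diagonal fun i => (y i).1 0 1)
    (Matrix.diagonal fun i => (y i).1 1 0) (Matrix.diagonal fun i => (y i).1 1 1)

theorem blk_mem (y : Fin n → SL2) : blk y ∈ Matrix.symplecticGroup (Fin n) F := by
  have hd : ∀ i, (y i).1 0 0 * (y i).1 1 1 - (y i).1 0 1 * (y i).1 1 0 = 1 := fun i => by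
    rw [← Matrix.det_fin_two]; exact (y i).2
  rw [SymplecticGroup.mem_iff, Matrix.J, blk, Matrix.fromBlocks_transpose, Matrix.fromBlocks_multiply,
    Matrix.fromBlocks_multiply]
  simp only [Matrix.diagonal_transpose, Matrix.mul_zero, Matrix.zero_mul, zero_add, add_zero, Matrix.mul_one,
    Matrix.one_mul, Matrix.mul_neg, Matrix.neg_mul, Matrix.diagonal_mul_diagonal]
  rw [← Matrix.diagonal_one, ← Matrix.diagonal_zero]
  simp only [Matrix.diagonal_add, Matrix.diagonal_neg]
  congr 1 <;> congr 1 <;> funext i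
  · ring
  · linear_combination -(hd i)
  · linear_combination hd i
  · ring

/-- the product of the planes -/
def dB : (Fin n → SL2) →* Spn where
  toFun y := ⟨blk y, blk_mem y⟩
  map_one' := Subtype.ext <| by simp [blk, ← Matrix.fromBlocks_one]
  map_mul' y z := Subtype.ext <| by
    show blk (y * z) = blk y * blk z
    simp [blk, Matrix.fromBlocks_multiply, Matrix.mul_apply, Fin.sum_univ_two]

/-- one plane -/
def sa (j : Fin n) : SL2 →* Spn := dB.comp (MonoidHom.mulSingle (fun _ : Fin n => SL2) j)

theorem sa_apply (j : Fin n) (y : SL2) : sa j y = dB (Pi.mulSingle j y) := rfl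

theorem sa_comm {i j : Fin n} (h : i ≠ j) (x y : SL2) : Commute (sa i x) (sa j y) := by
  show sa i x * sa j y = sa j y * sa i x
  have e : (Pi.mulSingle i x : Fin n → SL2) * Pi.mulSingle j y = Pi.mulSingle j y * Pi.mulSingle i x := by
    funext k
    by_cases hk : k = i
    · subst hk; simp [h]
    · simp [hk]
  rw [sa_apply, sa_apply, ← map_mul, ← map_mul, e]

/-- upper unipotent -/
def upB (B : Matrix (Fin n) (Fin n) F) (h : Bᵀ = B) : Spn :=
  ⟨Matrix.fromBlocks 1 B 0 1, by
    rw [SymplecticGroup.mem_iff, Matrix.J, Matrix.fromBlocks_transpose, Matrix.fromBlocks_multiply,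
      Matrix.fromBlocks_multiply]
    simp [h]⟩

theorem upB_mul {B C : Matrix (Fin n) (Fin n) F} (hB : Bᵀ = B) (hC : Cᵀ = C) :
    upB B hB * upB C hC = upB (B + C) (by rw [Matrix.transpose_add, hB, hC]) := Subtype.ext <| by
  show Matrix.fromBlocks 1 B 0 1 * Matrix.fromBlocks 1 C 0 1 = Matrix.fromBlocks 1 (B + C) 0 1
  simp [Matrix.fromBlocks_multiply, add_comm]

theorem upB_congr {B C : Matrix (Fin n) (Fin n) F} (hB : Bᵀ = B) (hC : Cᵀ = C) (h : B = C) :
    upB B hB = upB C hC := Subtype.ext (by rw [upB, upB]; simp [h])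

/-- short root elements -/
def mx (i j : Fin n) (t : F) : Spn :=
  upB (Matrix.single i j t + Matrix.single j i t) (by simp [Matrix.transpose_add, add_comm])

theorem mx_symm (i j : Fin n) (t : F) : mx i j t = mx j i t := upB_congr _ _ (add_comm _ _)

theorem mx_add (i j : Fin n) (t u : F) : mx i j t * mx i j u = mx i j (t + u) := by
  rw [mx, mx, upB_mul]
  exact upB_congr _ _ (by rw [Matrix.single_add, Matrix.single_add]; abel)

theorem mx_comm (i j k l : Fin n) (t u : F) : Commute (mx i j t) (mx k l u) := by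
  show mx i j t * mx k l u = mx k l u * mx i j t
  rw [mx, mx, upB_mul, upB_mul]
  exact upB_congr _ _ (add_comm _ _)

/-- axes as columns -/
def eAx : Ax n ≃ Fin n ⊕ Fin n where
  toFun a := if a.2 then Sum.inl a.1 else Sum.inr a.1
  invFun := Sum.elim (fun i => (i, true)) (fun i => (i, false))
  left_inv a := by obtain ⟨i, s⟩ := a; cases s <;> rfl
  right_inv x := by cases x <;> rfl

@[simp] theorem eAx_true (i : Fin n) : eAx ((i, true) : Ax n) = Sum.inl i := rfl
@[simp] theorem eAx_false (i : Fin n) : eAx ((i, false) : Ax n) = Sum.inr i := rfl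

/-- the natural representation -/
def toAx : Spn →* Matrix (Ax n) (Ax n) F where
  toFun g := (g.1).submatrix eAx eAx
  map_one' := Matrix.submatrix_one_equiv eAx
  map_mul' g h := (Matrix.submatrix_mul_equiv g.1 h.1 eAx eAx eAx).symm

theorem toAx_injective : Function.Injective (toAx (F := F) (n := n)) := by
  intro g h e
  apply Subtype.ext
  ext r c
  have := congrFun (congrFun e (eAx.symm r)) (eAx.symm c)
  simpa [toAx] using this

theorem toAx_sa (j : Fin n) (y : SL2) : toAx (sa j y) = emb j y := by
  ext ⟨r, s⟩ ⟨c, u⟩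
  show blk (Pi.mulSingle j y) (eAx (r, s)) (eAx (c, u)) = _
  by_cases hr : r = j
  · subst hr
    by_cases hc : c = r
    · subst hc; cases s <;> cases u <;> simp [blk, emb]
    · cases s <;> cases u <;> simp [blk, emb, hc, Ne.symm hc]
  · by_cases hc : r = c
    · subst hc; cases s <;> cases u <;> simp [blk, emb, hr]
    · cases s <;> cases u <;> simp [blk, emb, hr, hc]

theorem toAx_mx {i j : Fin n} (h : i ≠ j) (t : F) : toAx (mx i j t) = T (i, true) (j, true) t := by
  ext ⟨r, s⟩ ⟨c, u⟩
  have hne : ((i, true) : Ax n) ≠ (j, true) := by simp [h]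
  show Matrix.fromBlocks 1 (Matrix.single i j t + Matrix.single j i t) 0 1 (eAx (r, s)) (eAx (c, u)) = _
  cases s <;> cases u <;> simp [T, hne, du, Matrix.one_apply, Matrix.single_apply]

theorem toAx_conj {g y : Spn} {M : Matrix (Ax n) (Ax n) F} (h : toAx g * toAx y = M * toAx g) :
    toAx (MulAut.conj g y) = M := by
  rw [MulAut.conj_apply, map_mul, map_mul, h, mul_assoc, ← map_mul, mul_inv_cancel, map_one, mul_one]

theorem toAx_conj_sw {a b : Fin n} (h : a ≠ b) (t : F) :
    toAx (MulAut.conj (sa a sw) (mx a b t)) = T (a, false) (b, true) (-t) := by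
  refine toAx_conj ?_
  rw [toAx_sa, toAx_mx h, emb_sw, mono_T]
  · simp [Equiv.swap_apply_def, Ne.symm h]
  · rintro ⟨k, u⟩
    by_cases hk : k = a
    · subst hk; cases u <;> simp [du, Equiv.swap_apply_def]
    · simp [du, hk, Equiv.swap_apply_def]
  · rintro ⟨k, u⟩
    by_cases hk : k = a
    · subst hk; cases u <;> simp [du, Equiv.swap_apply_def]
    · simp [du, hk, Equiv.swap_apply_def]

theorem emb_mulVec (j : Fin n) (y : SL2) (v : Ax n → F) (x : Ax n) :
    (emb j y *ᵥ v) x =
      if x.1 = j then y.1 (fz x.2) 0 * v (j, true) + y.1 (fz x.2) 1 * v (j, false) else v x := by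
  obtain ⟨r, s⟩ := x
  by_cases hr : r = j
  · subst hr
    simp only [Matrix.mulVec, dotProduct, if_true]
    rw [Fintype.sum_prod_type, Finset.sum_eq_single r]
    · simp [emb]
    · intro x _ hx; simp [emb, hx, Ne.symm hx]
    · intro hx; exact absurd (Finset.mem_univ _) hx
  · simp only [Matrix.mulVec, dotProduct, if_neg hr]
    rw [Finset.sum_eq_single (r, s)]
    · simp [emb, hr]
    · intro x _ hx; simp [emb, hr, Ne.symm hx]
    · intro hx; exact absurd (Finset.mem_univ _) hx

theorem sa_mx_comm {i j k : Fin n} (hij : i ≠ j) (hi : k ≠ i) (hj : k ≠ j) (y : SL2) (t : F) :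
    Commute (sa k y) (mx i j t) := by
  apply toAx_injective
  rw [map_mul, map_mul, toAx_sa, toAx_mx hij]
  refine Matrix.ext_of_mulVec_single fun a => ?_
  generalize (Pi.single a 1 : Ax n → F) = v
  rw [← Matrix.mulVec_mulVec, ← Matrix.mulVec_mulVec]
  funext ⟨r, s⟩
  simp only [emb_mulVec, T_mulVec, Prod.mk.injEq, hij, false_and, if_false, Pi.add_apply, Pi.single_apply, du,
    Bool.not_true]
  by_cases hr : r = k
  · subst hr; simp [hi, hj]
  · cases s <;> simp [hr, Ne.symm hi, Ne.symm hj]

theorem side {a b : Fin n} (h : a ≠ b) : Side (sa a) (sa b) (mx a b : F → Spn) := by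
  have h' := Ne.symm h
  refine ⟨fun t u => ?_, fun s u => ?_, fun t u => ?_, fun c u => ?_⟩
  · apply toAx_injective
    rw [map_mul, map_mul, toAx_sa, toAx_mx h]
    refine Matrix.ext_of_mulVec_single fun x => ?_
    generalize (Pi.single x 1 : Ax n → F) = v
    rw [← Matrix.mulVec_mulVec, ← Matrix.mulVec_mulVec]
    funext ⟨r, w⟩
    simp only [emb_mulVec, T_mulVec, Prod.mk.injEq, h, false_and, if_false, Pi.add_apply, Pi.single_apply, du,
      Bool.not_true, eps_true]
    by_cases hr : r = a
    · subst hr; cases w <;> simp [h, h'] <;> ring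
    by_cases hr' : r = b
    · subst hr'; cases w <;> simp [h, h']
    simp [hr, hr']
  · rw [mul_inv_eq_iff_eq_mul]
    apply toAx_injective
    rw [map_mul, map_mul, map_mul, map_mul, toAx_conj_sw h, toAx_sa, toAx_sa, toAx_mx h]
    refine Matrix.ext_of_mulVec_single fun x => ?_
    generalize (Pi.single x 1 : Ax n → F) = v
    simp only [← Matrix.mulVec_mulVec]
    funext ⟨r, w⟩
    simp only [emb_mulVec, T_mulVec, Prod.mk.injEq, h, h', false_and, if_false, Pi.add_apply, Pi.single_apply, du,
      Bool.not_true, Bool.not_false, eps_true, eps_false]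
    by_cases hr : r = a
    · subst hr; cases w <;> simp [h, h'] <;> ring
    by_cases hr' : r = b
    · subst hr'; cases w <;> simp [h, h'] <;> ring
    simp [hr, hr']
  · rw [commutatorElement_def, mul_inv_eq_iff_eq_mul, mul_inv_eq_iff_eq_mul]
    apply toAx_injective
    rw [map_mul, map_mul, map_mul, toAx_conj_sw h, toAx_sa, toAx_mx h]
    refine Matrix.ext_of_mulVec_single fun x => ?_
    generalize (Pi.single x 1 : Ax n → F) = v
    simp only [← Matrix.mulVec_mulVec]
    funext ⟨r, w⟩
    simp only [emb_mulVec, T_mulVec, Prod.mk.injEq, h, h', false_and, if_false, Pi.add_apply, Pi.single_apply, du,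
      Bool.not_true, Bool.not_false, eps_true, eps_false]
    by_cases hr : r = a
    · subst hr; cases w <;> simp [h, h'] <;> ring
    by_cases hr' : r = b
    · subst hr'; cases w <;> simp [h, h'] <;> ring
    simp [hr, hr']
  · apply toAx_injective
    refine (toAx_conj ?_).trans (toAx_mx h _).symm
    rw [toAx_sa, toAx_mx h, emb_dg, mono_T]
    · simp [h']
    · intro x; rfl
    · rintro ⟨k, s⟩
      by_cases hk : k = a
      · subst hk; cases s <;> simp [du]
      · simp [du, hk]

theorem edgeSp {i j : Fin n} (h : i ≠ j) : Edge (sa i) (sa j) (mx i j : F → Spn) :=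
  ⟨mx_add i j, fun x y => sa_comm h x y, side h, by
    rw [show (mx i j : F → Spn) = mx j i from funext (mx_symm i j)]; exact side (Ne.symm h)⟩

end Cfsg.Agent.Recog.CT.Sp
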