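import Cfsg.Agent.Recog.CT.Sp.SpModel
import Mathlib.GroupTheory.NoncommPiCoprod

/-!
An amalgam of type C with the natural representation: the representation is injective.
-/

set_option autoImplicit false
set_option linter.unusedSectionVars false
set_option linter.unusedSimpArgs false

namespace Cfsg.Agent.Recog.CT.Sp

open Matrix
open scoped commutatorElement
open CRels (T T_off T_self Band band_mul Pos)

variable {F : Type*} [Field F] {G : Type*} [Group G]

local notation "SL2" => Matrix.SpecialLinearGroup (Fin 2) F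

theorem sw_inv : (sw : SL2)⁻¹ = sw * dg (-1) := by
  refine inv_eq_of_mul_eq_one_right ?_
  rw [← mul_assoc, sw_sq, dg_mul]
  simp [dg_one]

theorem dg_inv (c : Fˣ) : (dg c : SL2)⁻¹ = dg c⁻¹ :=
  inv_eq_of_mul_eq_one_right (by rw [dg_mul, mul_inv_cancel, dg_one])

theorem dg_sw (v : Fˣ) : (uu (v : F) * ll (-((v⁻¹ : Fˣ) : F)) * uu (v : F) : SL2) = dg v * sw := by
  ext i j; fin_cases i <;> fin_cases j <;> simp [sw_coe, dg_coe, Matrix.mul_apply, Fin.sum_univ_two]

theorem dg_sw' (v : Fˣ) : (ll (-(v : F)) * uu ((v⁻¹ : Fˣ) : F) * ll (-(v : F)) : SL2) = dg v⁻¹ * sw := by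
  ext i j; fin_cases i <;> fin_cases j <;> simp [sw_coe, dg_coe, Matrix.mul_apply, Fin.sum_univ_two]

variable {N : ℕ} {S : ℕ → Matrix.SpecialLinearGroup (Fin 2) F →* G} {m : ℕ → F → G}

/-- the group of monomial elements -/
def nGroup (N : ℕ) (S : ℕ → Matrix.SpecialLinearGroup (Fin 2) F →* G) (m : ℕ → F → G) : Subgroup G :=
  Subgroup.closure ({g | ∃ j : Fin (N + 1), g = S j sw} ∪ {g | ∃ (j : Fin (N + 1)) (c : Fˣ), g = S j (dg c)} ∪
    {g | ∃ k : Fin N, g = qN S m k})

theorem sw_mem (j : Fin (N + 1)) : S j sw ∈ nGroup N S m := Subgroup.subset_closure (Or.inl (Or.inl ⟨j, rfl⟩))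

theorem dg_mem (j : Fin (N + 1)) (c : Fˣ) : S j (dg c) ∈ nGroup N S m :=
  Subgroup.subset_closure (Or.inl (Or.inr ⟨j, c, rfl⟩))

theorem qN_mem (k : Fin N) : qN S m k ∈ nGroup N S m := Subgroup.subset_closure (Or.inr ⟨k, rfl⟩)

/-- `g` permutes the root groups -/
def Perms (R : CRels G (N + 1) F) (g : G) : Prop :=
  ∃ π : Equiv.Perm (Ax (N + 1)), (∀ a, π (du a) = du (π a)) ∧
    ∀ a b, b ≠ du a → ∀ t, ∃ c : F, MulAut.conj g (R.x a b t) = R.x (π a) (π b) c

theorem Perms.mul {R : CRels G (N + 1) F} {g h : G} (hg : Perms R g) (hh : Perms R h) : Perms R (g * h) := by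
  obtain ⟨π, hπ, eg⟩ := hg
  obtain ⟨ρ, hρ, eh⟩ := hh
  refine ⟨π * ρ, fun a => by simp [Equiv.Perm.mul_apply, hπ, hρ], fun a b hab t => ?_⟩
  obtain ⟨c, hc⟩ := eh a b hab t
  obtain ⟨c', hc'⟩ := eg (ρ a) (ρ b) (fun e => hab (ρ.injective (by rw [hρ]; exact e))) c
  exact ⟨c', by rw [← conj_conj, hc, hc']; rfl⟩

/-- the exchange of two axes -/
noncomputable def qT (N : ℕ) (S : ℕ → Matrix.SpecialLinearGroup (Fin 2) F →* G) (m : ℕ → F → G)
    (a b : Fin (N + 1)) : G := by
  classical exact if h : a ≠ b ∧ Edge (S a) (S b) (pP S m a b) then h.2.q else 1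

/-- products of exchanges of the first `k` axes, in normal form -/
def NF (N : ℕ) (S : ℕ → Matrix.SpecialLinearGroup (Fin 2) F →* G) (m : ℕ → F → G) : ℕ → G → Prop
  | 0, g => g = 1
  | k + 1, g => ∃ i j : Fin (N + 1), (i : ℕ) = k ∧ (j : ℕ) ≤ k ∧ ∃ γ, NF N S m k γ ∧ g = qT N S m i j * γ

section Main

variable (M : Amalg (N + 1) S m)
include M

theorem qT_eq {a b : Fin (N + 1)} (h : a ≠ b) : qT N S m a b = (M.edge_all a b h).q := by
  rw [qT, dif_pos ⟨h, M.edge_all a b h⟩]

theorem qT_self (a : Fin (N + 1)) : qT N S m a a = 1 := by simp [qT]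

theorem qT_moves (a b : Fin (N + 1)) : Moves S m (qT N S m a b) (Equiv.swap a b) := by
  by_cases h : a = b
  · subst h
    rw [qT_self M, Equiv.swap_self]
    exact moves_one
  · rw [qT_eq M h]; exact M.edge_q_moves a b h

theorem qT_conj {g : G} {π : Equiv.Perm (Fin (N + 1))} (hg : Moves S m g π) (a b : Fin (N + 1)) :
    MulAut.conj g (qT N S m a b) = qT N S m (π a) (π b) := by
  by_cases h : a = b
  · subst h; simp [qT_self M]
  · rw [qT_eq M h, qT_eq M (π.injective.ne h), ← MulEquiv.coe_toMonoidHom, Edge.map_q]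
    exact Edge.q_congr _ _ (MonoidHom.ext fun y => hg.1 a y) (MonoidHom.ext fun y => hg.1 b y)
      (funext fun t => hg.2 a b h t)

theorem qT_symm (a b : Fin (N + 1)) : qT N S m a b = qT N S m b a := by
  by_cases h : a = b
  · rw [h]
  · rw [qT_eq M h, qT_eq M (Ne.symm h), ← Edge.q_symm]
    exact Edge.q_congr _ _ rfl rfl (funext fun t => by rw [pP_symm])

theorem qT_sq (a b : Fin (N + 1)) : qT N S m a b * qT N S m a b = 1 := by
  by_cases h : a = b
  · subst h; simp [qT_self M]
  · rw [qT_eq M h]; exact (M.edge_all a b h).q_sq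

theorem qT_succ (k : Fin N) : qT N S m k.castSucc k.succ = qN S m k := by
  rw [qT_eq M (Fin.castSucc_lt_succ).ne, M.qN_eq (show (k : ℕ) + 1 < N + 1 by omega)]
  exact Edge.q_congr _ _ rfl rfl (funext fun t => by simp [pP_succ])

theorem nf_one : ∀ k, k ≤ N + 1 → NF N S m k 1
  | 0, _ => rfl
  | k + 1, h => ⟨⟨k, by omega⟩, ⟨k, by omega⟩, rfl, le_rfl, 1, nf_one k (by omega), by rw [qT_self M, one_mul]⟩

theorem nf_step : ∀ k, k ≤ N + 1 → ∀ a b : Fin (N + 1), (a : ℕ) < k → (b : ℕ) < k → ∀ g, NF N S m k g →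
    NF N S m k (qT N S m a b * g) := by
  intro k
  induction k with
  | zero => intro _ a b ha; omega
  | succ k ih =>
    intro hk a b ha hb g hg
    obtain ⟨i, j, hi, hj, γ, hγ, rfl⟩ := hg
    by_cases hab : a = b
    · subst hab; rw [qT_self M, one_mul]; exact ⟨i, j, hi, hj, γ, hγ, rfl⟩
    have body : ∀ a b : Fin (N + 1), a ≠ b → (a : ℕ) < k + 1 → (b : ℕ) < k + 1 → b ≠ i →
        NF N S m (k + 1) (qT N S m a b * (qT N S m i j * γ)) := by
      intro a b hab ha hb hbi
      have hbk : (b : ℕ) < k := by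
        have : (b : ℕ) ≠ i := fun e => hbi (Fin.ext e)
        omega
      by_cases hai : a = i
      · subst hai
        by_cases hjb : j = b
        · subst hjb
          exact ⟨a, a, hi, by omega, γ, hγ, by rw [← mul_assoc, qT_sq M, qT_self M]⟩
        by_cases hja : j = a
        · subst hja
          exact ⟨j, b, hi, by omega, γ, hγ, by rw [qT_self M, one_mul]⟩
        have hjk : (j : ℕ) < k := by
          have : (j : ℕ) ≠ a := fun e => hja (Fin.ext e)
          omega
        have h := qT_conj M (qT_moves M a j) a b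
        rw [Equiv.swap_apply_left, Equiv.swap_apply_of_ne_of_ne (Ne.symm hab) (Ne.symm hjb), MulAut.conj_apply,
          inv_eq_of_mul_eq_one_right (qT_sq M a j)] at h
        refine ⟨a, j, hi, hj, qT N S m j b * γ, ih (by omega) j b hjk hbk γ hγ, ?_⟩
        rw [← h]
        calc qT N S m a b * (qT N S m a j * γ)
            = (qT N S m a j * qT N S m a j) * qT N S m a b * (qT N S m a j * γ) := by rw [qT_sq M, one_mul]
          _ = _ := by simp only [mul_assoc]
      · have hak : (a : ℕ) < k := by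
          have : (a : ℕ) ≠ i := fun e => hai (Fin.ext e)
          omega
        have h := qT_conj M (qT_moves M a b) i j
        rw [MulAut.conj_apply, Equiv.swap_apply_of_ne_of_ne (Ne.symm hai) (Ne.symm hbi), mul_inv_eq_iff_eq_mul] at h
        refine ⟨i, Equiv.swap a b j, hi, ?_, qT N S m a b * γ, ih (by omega) a b hak hbk γ hγ, ?_⟩
        · rw [Equiv.swap_apply_def]; split_ifs <;> omega
        · rw [← mul_assoc, h, mul_assoc]
    by_cases hbi : b = i
    · subst hbi
      rw [qT_symm M a b]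
      exact body b a (Ne.symm hab) hb ha hab
    · exact body a b hab ha hb hbi

variable (φ : G →* Matrix (Ax (N + 1)) (Ax (N + 1)) F) (Φ : IsModel S m φ)
include Φ

theorem phi_qT (a b : Fin (N + 1)) : φ (qT N S m a b) = mono (swapAx a b) (fun _ => (1 : F)) := by
  by_cases h : a = b
  · subst h
    rw [qT_self M, map_one]
    ext r c
    simp [mono, swapAx, Matrix.one_apply]
  · rw [qT_eq M h, Edge.q, map_mul, map_mul, map_mul, phi_x_of φ M Φ h _ (phi_pP φ M Φ a b h),
      phi_x_of φ M Φ h _ (phi_pP φ M Φ a b h), Φ.hS]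
    exact q_matrix h

theorem nf_perm : ∀ k, k ≤ N + 1 → ∀ g, NF N S m k g → ∃ π : Equiv.Perm (Fin (N + 1)),
    φ g = mono (Equiv.prodCongr π (Equiv.refl Bool)) (fun _ => (1 : F)) ∧
      (∀ i : Fin (N + 1), k ≤ (i : ℕ) → π i = i) ∧ (π = 1 → g = 1) := by
  intro k
  induction k with
  | zero =>
    intro _ g hg
    refine ⟨1, ?_, fun i _ => rfl, fun _ => hg⟩
    rw [hg, map_one]
    ext r c
    simp [mono, Matrix.one_apply]
  | succ k ih =>
    intro hk g hg
    obtain ⟨i, j, hi, hj, γ, hγ, rfl⟩ := hg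
    obtain ⟨π, e1, e2, e3⟩ := ih (by omega) γ hγ
    refine ⟨Equiv.swap i j * π, ?_, fun l hl => ?_, fun h => ?_⟩
    · rw [map_mul, phi_qT M φ Φ, e1]
      ext ⟨r, s⟩ ⟨c, u⟩
      rw [Matrix.mul_apply, Finset.sum_eq_single (π c, u)]
      · simp [mono, swapAx, Equiv.Perm.mul_apply]
      · intro y _ hy; simp [mono, hy]
      · intro h; exact absurd (Finset.mem_univ _) h
    · rw [Equiv.Perm.mul_apply, e2 l (by omega), Equiv.swap_apply_of_ne_of_ne]
      · exact fun e => by subst e; omega
      · exact fun e => by subst e; omega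
    · have hji : j = i := by
        have := congrArg (fun f : Equiv.Perm (Fin (N + 1)) => f i) h
        simpa [Equiv.Perm.mul_apply, e2 i hi.ge] using this
      subst hji
      rw [Equiv.swap_self] at h
      rw [qT_self M, one_mul]
      exact e3 (by rw [← h]; rfl)

theorem phi_eq_block (h : Pairwise fun i j : Fin (N + 1) => ∀ x y, Commute (S i x) (S j y))
    (y : Fin (N + 1) → SL2) (r c : Ax (N + 1)) :
    φ (MonoidHom.noncommPiCoprod (fun i : Fin (N + 1) => S i) h y) r c =
      if r.1 = c.1 then (y r.1).1 (fz r.2) (fz c.2) else 0 := by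
  classical
  let D : (Fin (N + 1) → SL2) →* Matrix (Ax (N + 1)) (Ax (N + 1)) F :=
    { toFun := fun y => Matrix.of fun r c => if r.1 = c.1 then (y r.1).1 (fz r.2) (fz c.2) else 0
      map_one' := by
        ext ⟨i, s⟩ ⟨j, u⟩
        by_cases hij : i = j
        · subst hij; cases s <;> cases u <;> simp [fz]
        · simp [hij, Matrix.one_apply]
      map_mul' := fun y z => by
        ext ⟨i, s⟩ ⟨j, u⟩
        rw [Matrix.mul_apply]
        by_cases hij : i = j
        · subst hij
          rw [Fintype.sum_prod_type, Finset.sum_eq_single i]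
          · simp [Fintype.sum_bool, Matrix.mul_apply, Fin.sum_univ_two]
          · intro x _ hx; simp [Ne.symm hx]
          · intro hx; exact absurd (Finset.mem_univ _) hx
        · rw [Finset.sum_eq_zero]
          · simp [hij]
          · rintro ⟨x, w⟩ _
            by_cases hx : i = x
            · subst hx; simp [hij]
            · simp [hx] }
  have e : φ.comp (MonoidHom.noncommPiCoprod (fun i : Fin (N + 1) => S i) h) = D := by
    refine MonoidHom.pi_ext fun i x => ?_
    rw [MonoidHom.comp_apply, MonoidHom.noncommPiCoprod_mulSingle, Φ.hS]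
    ext ⟨a, s⟩ ⟨b, u⟩
    show emb i x (a, s) (b, u) = if a = b then ((Pi.mulSingle i x : Fin (N + 1) → SL2) a).1 (fz s) (fz u) else 0
    by_cases ha : a = i
    · subst ha
      by_cases hb : b = a
      · subst hb; simp [emb]
      · simp [emb, hb, Ne.symm hb]
    · by_cases hab : a = b
      · subst hab; cases s <;> cases u <;> simp [emb, ha, Matrix.one_apply]
      · simp [emb, ha, hab]
  exact congrFun (congrFun (DFunLike.congr_fun e y) r) c

theorem rep_injective {g : G}
    (hgenG : Subgroup.closure ({g | ∃ (j : Fin (N + 1)) (y : SL2), g = S j y} ∪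
      {g | ∃ (k : Fin N) (t : F), g = m k t}) = ⊤)
    (hg : φ g = 1) : g = 1 := by
  classical
  obtain ⟨R, hR⟩ := M.exists_cRels
  have hφ : ∀ a b, b ≠ du a → ∀ t, φ (R.x a b t) = T a b t := fun a b h t => phi_root φ M Φ R hR a b h t
  have hRm : ∀ (a : Ax (N + 1)) t, R.x a a t = lr (S a.1) a.2 t := fun a t => (hR a t).1
  have hRe : ∀ (a b : Ax (N + 1)) (h : a.1 ≠ b.1) t, R.x a b t = (M.edge_all a.1 b.1 h).x a.2 b.2 t :=
    fun a b h t => (hR a t).2 b h
  have cSS : ∀ (i j : Fin (N + 1)), i ≠ j → ∀ x y, Commute (S i x) (S j y) := fun i j hij x y =>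
    M.comm i j i.isLt j.isLt (fun e => hij (Fin.ext e)) x y
  -- local generators permute the root groups
  have good_local : ∀ (j : Fin (N + 1)) (y : SL2) (σ : Equiv.Perm Bool), (∀ s, σ (!s) = !σ s) →
      (∀ s t, ∃ c, MulAut.conj (S j y) (lr (S j) s t) = lr (S j) (σ s) c) →
      (∀ (i : Fin (N + 1)) (h : j ≠ i) s r t, ∃ c, MulAut.conj (S j y) ((M.edge_all j i h).x s r t) =
        (M.edge_all j i h).x (σ s) r c) → Perms R (S j y) := by
    intro j y σ hσ hlong hshort
    let π : Equiv.Perm (Ax (N + 1)) :=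
      { toFun := fun a => if a.1 = j then (a.1, σ a.2) else a
        invFun := fun a => if a.1 = j then (a.1, σ.symm a.2) else a
        left_inv := fun a => by by_cases h : a.1 = j <;> simp [h, Prod.ext_iff]
        right_inv := fun a => by by_cases h : a.1 = j <;> simp [h, Prod.ext_iff] }
    have hin : ∀ a : Ax (N + 1), a.1 = j → π a = (a.1, σ a.2) := fun a h => if_pos h
    have hout : ∀ a : Ax (N + 1), a.1 ≠ j → π a = a := fun a h => if_neg h
    refine ⟨π, fun a => ?_, fun a b hab t => ?_⟩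
    · by_cases h : a.1 = j
      · rw [hin _ h, hin _ (show (du a).1 = j from h)]
        simp [du, hσ]
      · rw [hout _ h, hout _ (show (du a).1 ≠ j from h)]
    by_cases haxis : a.1 = b.1
    · obtain rfl := CRels.eq_of_axis haxis hab
      rw [hRm]
      by_cases hj : b.1 = j
      · obtain ⟨c, hc⟩ := hlong b.2 t
        rw [hin _ hj]
        refine ⟨c, ?_⟩
        rw [hRm, hj]; exact hc
      · refine ⟨t, ?_⟩
        rw [hout _ hj, hRm, conj_of_commute]
        cases b.2 <;> exact cSS j b.1 (Ne.symm hj) y _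
    have short : ∀ a b : Ax (N + 1), a.1 = j → a.1 ≠ b.1 → ∀ t, ∃ c,
        MulAut.conj (S j y) (R.x a b t) = R.x (π a) (π b) c := by
      rintro ⟨i, s⟩ b rfl hne t
      obtain ⟨c, hc⟩ := hshort b.1 hne s b.2 t
      refine ⟨c, ?_⟩
      rw [hin _ rfl, hout _ (Ne.symm hne), hRe _ _ hne, hc, hRe (i, σ s) b hne]
    by_cases ha : a.1 = j
    · exact short a b ha haxis t
    by_cases hb : b.1 = j
    · obtain ⟨c, hc⟩ := short b a hb (Ne.symm haxis) t
      exact ⟨c, by rw [R.symm a b, hc, R.symm (π b)]⟩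
    refine ⟨t, ?_⟩
    rw [hout _ ha, hout _ hb, hRe _ _ haxis, conj_of_commute]
    exact (M.edge_all _ _ haxis).commute_x (fun z => cSS j a.1 (Ne.symm ha) y z) (fun z => cSS j b.1 (Ne.symm hb) y z)
      (fun w => M.far_all a.1 b.1 j haxis (Ne.symm ha) (Ne.symm hb) y w) _ _ _
  have good_sw : ∀ j : Fin (N + 1), Perms R (S j sw) := fun j =>
    good_local j sw (Equiv.swap true false) (by intro s; cases s <;> rfl)
      (fun s t => ⟨t, by rw [sw_lr]; cases s <;> rfl⟩)
      (fun i h s r t => ⟨-(eps s) * t, by rw [(M.edge_all j i h).wA_x]; cases s <;> rfl⟩)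
  have good_dg : ∀ (j : Fin (N + 1)) (c : Fˣ), Perms R (S j (dg c)) := fun j c =>
    good_local j (dg c) (Equiv.refl Bool) (fun s => rfl)
      (fun s t => by
        refine ⟨if s then (c : F) ^ 2 * t else ((c⁻¹ : Fˣ) : F) ^ 2 * t, ?_⟩
        rw [MulAut.conj_apply]
        cases s <;> simp only [lr, Equiv.refl_apply, Bool.false_eq_true, if_false, if_true]
        · rw [← map_mul, dg_ll, map_mul, mul_inv_cancel_right]; congr 2; ring
        · rw [← map_mul, dg_uu, map_mul, mul_inv_cancel_right])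
      (fun i h s r t => ⟨_, (M.edge_all j i h).tor_x c s r t⟩)
  have good_q : ∀ k : Fin N, Perms R (qN S m k) := by
    intro k
    have hmv := M.moves_q k
    refine ⟨swapAx k.castSucc k.succ, fun a => rfl, fun a b hab t => ⟨t, ?_⟩⟩
    by_cases haxis : a.1 = b.1
    · obtain rfl := CRels.eq_of_axis haxis hab
      rw [hRm, hRm]
      show _ = lr (S (Equiv.swap k.castSucc k.succ b.1 : Fin (N + 1))) b.2 t
      cases b.2 <;> simp [lr, ← hmv.1]
    · have h' : (swapAx k.castSucc k.succ a).1 ≠ (swapAx k.castSucc k.succ b).1 :=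
        (Equiv.swap k.castSucc k.succ).injective.ne haxis
      rw [hRe _ _ haxis, hRe _ _ h', ← MulEquiv.coe_toMonoidHom, Edge.map_x]
      exact Edge.x_congr _ _ (MonoidHom.ext fun y => hmv.1 a.1 y) (MonoidHom.ext fun y => hmv.1 b.1 y)
        (funext fun u => hmv.2 a.1 b.1 haxis u) _ _ _
  have moves : ∀ x ∈ nGroup N S m, Perms R x := by
    intro x hx
    induction hx using Subgroup.closure_induction_left with
    | one => exact ⟨1, fun a => rfl, fun a b hab t => ⟨t, by simp⟩⟩
    | mul_left x hx y _ ih =>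
      rcases hx with (⟨j, rfl⟩ | ⟨j, c, rfl⟩) | ⟨k, rfl⟩
      exacts [(good_sw j).mul ih, (good_dg j c).mul ih, (good_q k).mul ih]
    | inv_mul_cancel x hx y _ ih =>
      rcases hx with (⟨j, rfl⟩ | ⟨j, c, rfl⟩) | ⟨k, rfl⟩
      · rw [← map_inv, sw_inv, map_mul, mul_assoc]
        exact (good_sw j).mul ((good_dg j _).mul ih)
      · rw [← map_inv, dg_inv]
        exact (good_dg j _).mul ih
      · rw [inv_eq_of_mul_eq_one_right (M.qN_sq (show (k : ℕ) + 1 < N + 1 by omega))]
        exact (good_q k).mul ih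
  -- the simple roots
  have simple : ∀ p q : Ax (N + 1), q ≠ du p → ht p q = 2 →
      (p = (Fin.last N, true) ∧ q = (Fin.last N, true)) ∨
        ∃ k : Fin N, Same (p, q) ((k.castSucc, true), (k.succ, false)) := by
    rintro ⟨i, s⟩ ⟨j, r⟩ hpq h2
    have := i.isLt
    have := j.isLt
    cases s <;> cases r <;> simp [ht, wt] at h2
    · omega
    · exact Or.inr ⟨⟨j, by omega⟩, Or.inr (by simp [Prod.ext_iff, Fin.ext_iff]; omega)⟩
    · exact Or.inr ⟨⟨i, by omega⟩, Or.inl (by simp [Prod.ext_iff, Fin.ext_iff]; omega)⟩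
    · left; simp [Fin.ext_iff]; omega
  have Wsymm : ∀ (p q : Ax (N + 1)) v, R.W p q v = R.W q p v := fun p q v => by
    simp only [CRels.W, R.symm q p, R.symm (du q) (du p), mul_comm (eps q.2) (eps p.2)]
  let Ek : ∀ k : Fin N, Edge (S (k.castSucc : Fin (N + 1))) (S (k.succ : Fin (N + 1))) (pP S m k.castSucc k.succ) :=
    fun k => M.edge_all k.castSucc k.succ (Fin.castSucc_lt_succ).ne
  have eq' : ∀ k : Fin N, (Ek k).q = qN S m k := fun k => by
    rw [← qT_succ M k, qT_eq M (Fin.castSucc_lt_succ).ne]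
  have hax : ∀ (k : Fin N) (s r : Bool), ((k.castSucc, s) : Ax (N + 1)).1 ≠ ((k.succ, r) : Ax (N + 1)).1 :=
    fun k _ _ => (Fin.castSucc_lt_succ).ne
  have Wshort : ∀ (k : Fin N) (v : Fˣ), R.W (k.castSucc, true) (k.succ, false) v =
      MulAut.conj (S k.castSucc (dg (-v))) ((S k.succ (dg (-1)))⁻¹ * qN S m k) := by
    intro k v
    rw [← eq' k]
    show _ = MulAut.conj _ ((S (k.succ : Fin (N + 1)) (dg (-1)))⁻¹ * (S (k.succ : Fin (N + 1)) (dg (-1)) *
      ((Ek k).x true false (-1) * (Ek k).x false true 1 * (Ek k).x true false (-1))))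
    rw [inv_mul_cancel_left, map_mul, map_mul, (Ek k).tor_x, (Ek k).tor_x]
    simp only [CRels.W, du, Bool.not_true, Bool.not_false]
    rw [hRe _ _ (hax k true false), hRe _ _ (hax k false true)]
    simp [Ek, inv_neg]
  have hNmem : ∀ p q, q ≠ du p → ht p q = 2 → ∀ v : F, v ≠ 0 →
      R.W p q v ∈ nGroup N S m ∧ R.W (du p) (du q) v ∈ nGroup N S m := by
    intro p q hpq h2 v hv
    have shortCase : ∀ (k : Fin N) (v : F), v ≠ 0 → R.W (k.castSucc, true) (k.succ, false) v ∈ nGroup N S m ∧
        R.W (du (k.castSucc, true)) (du (k.succ, false)) v ∈ nGroup N S m := by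
      intro k v hv
      have h1 : ∀ v : F, v ≠ 0 → R.W (k.castSucc, true) (k.succ, false) v ∈ nGroup N S m := fun v hv => by
        rw [show v = ((Units.mk0 v hv : Fˣ) : F) from rfl, Wshort, MulAut.conj_apply]
        exact mul_mem (mul_mem (dg_mem _ _) (mul_mem (inv_mem (dg_mem _ _)) (qN_mem k))) (inv_mem (dg_mem _ _))
      refine ⟨h1 v hv, ?_⟩
      have e : R.W (du (k.castSucc, true)) (du (k.succ, false)) v =
          MulAut.conj (S k.castSucc sw * S k.succ sw) (R.W (k.castSucc, true) (k.succ, false) (-v)) := by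
        simp only [CRels.W, du, Bool.not_true, Bool.not_false, map_mul, MulAut.mul_apply]
        rw [hRe _ _ (hax k true false), hRe _ _ (hax k false true), hRe _ _ (hax k true false),
          hRe _ _ (hax k false true)]
        simp only [Edge.wB_x, Edge.wA_x, Bool.not_true, Bool.not_false, eps_true, eps_false]
        simp [inv_neg]
      rw [e, MulAut.conj_apply]
      exact mul_mem (mul_mem (mul_mem (sw_mem _) (sw_mem _)) (h1 _ (neg_ne_zero.2 hv)))
        (inv_mem (mul_mem (sw_mem _) (sw_mem _)))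
    rcases simple p q hpq h2 with ⟨rfl, rfl⟩ | ⟨k, hk | hk⟩
    · constructor
      · have e : R.W (Fin.last N, true) (Fin.last N, true) v =
            S (Fin.last N : Fin (N + 1)) (uu v * ll (-v⁻¹) * uu v) := by
          simp only [CRels.W, hRm, du, lr, Bool.not_true, Bool.false_eq_true, if_false, if_true, map_mul,
            eps_true, one_mul]
        rw [e, show (uu v * ll (-v⁻¹) * uu v : SL2) = dg (Units.mk0 v hv) * sw from by
          simpa using dg_sw (Units.mk0 v hv), map_mul]
        exact mul_mem (dg_mem _ _) (sw_mem _)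
      · have e : R.W (du (Fin.last N, true)) (du (Fin.last N, true)) v =
            S (Fin.last N : Fin (N + 1)) (ll (-v) * uu v⁻¹ * ll (-v)) := by
          simp only [CRels.W, hRm, du, lr, Bool.not_true, Bool.not_false, Bool.false_eq_true, if_false, if_true,
            map_mul, eps_false, neg_mul_neg, one_mul]
        rw [e, show (ll (-v) * uu v⁻¹ * ll (-v) : SL2) = dg (Units.mk0 v hv)⁻¹ * sw from by
          simpa using dg_sw' (Units.mk0 v hv), map_mul]
        exact mul_mem (dg_mem _ _) (sw_mem _)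
    · simp only [Prod.mk.injEq] at hk
      obtain ⟨rfl, rfl⟩ := hk
      exact shortCase k v hv
    · simp only [Prod.mk.injEq] at hk
      obtain ⟨rfl, rfl⟩ := hk
      rw [Wsymm, Wsymm (du _)]
      exact shortCase k v hv
  have hNflip : ∀ p q, q ≠ du p → ht p q = 2 → ∀ v : F, v ≠ 0 → ∀ s, ∃ c : F,
      R.W p q v * R.x (du p) (du q) s * (R.W p q v)⁻¹ = R.x p q c := by
    intro p q hpq h2 v hv s
    have shortCase : ∀ (k : Fin N), ∃ c : F,
        R.W (k.castSucc, true) (k.succ, false) v * R.x (du (k.castSucc, true)) (du (k.succ, false)) s *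
          (R.W (k.castSucc, true) (k.succ, false) v)⁻¹ = R.x (k.castSucc, true) (k.succ, false) c := by
      intro k
      rw [← MulAut.conj_apply, show v = ((Units.mk0 v hv : Fˣ) : F) from rfl, Wshort, ← map_inv, ← eq' k]
      simp only [du, Bool.not_true, Bool.not_false]
      rw [hRe _ _ (hax k false true)]
      simp only [hRe _ _ (hax k true false)]
      set a := S (k.castSucc : Fin (N + 1)) (dg (-Units.mk0 v hv))
      have ha : a⁻¹ = S (k.castSucc : Fin (N + 1)) (dg (-Units.mk0 v hv)⁻¹) := by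
        simp only [a]; rw [← map_inv, dg_inv]
      have hb : S (k.succ : Fin (N + 1)) (dg (-1 : Fˣ))⁻¹ = S (k.succ : Fin (N + 1)) (dg (-1 : Fˣ)) := by
        rw [dg_inv]; simp [inv_neg]
      rw [MulAut.conj_apply a, hb, ha]
      have hB : ∀ t, MulAut.conj (S (k.succ : Fin (N + 1)) (dg (-1))) ((Ek k).x true false t) =
          (Ek k).x true false (-t) := by
        intro t
        have h := (Ek k).symm.tor_x (-1) false true t
        rw [(Ek k).x_symm, (Ek k).x_symm] at h
        rw [h]
        simp [inv_neg]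
      apply Exists.intro
      rw [map_mul, map_mul, map_mul, MulAut.mul_apply, MulAut.mul_apply, MulAut.mul_apply, (Ek k).tor_x, (Ek k).q_x, hB]
      exact (Ek k).tor_x _ _ _ _
    rcases simple p q hpq h2 with ⟨rfl, rfl⟩ | ⟨k, hk | hk⟩
    · refine ⟨v ^ 2 * s, ?_⟩
      simp only [CRels.W, hRm, du, lr, Bool.not_true, Bool.false_eq_true, if_false, if_true, eps_true, one_mul,
        ← map_mul, ← map_inv]
      congr 1
      ext i j
      fin_cases i <;> fin_cases j <;> simp [Matrix.mul_apply, Fin.sum_univ_two, Matrix.adjugate_fin_two] <;>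
        field_simp <;> ring_nf
    · simp only [Prod.mk.injEq] at hk
      obtain ⟨rfl, rfl⟩ := hk
      exact shortCase k
    · simp only [Prod.mk.injEq] at hk
      obtain ⟨rfl, rfl⟩ := hk
      rw [Wsymm, R.symm (du _) (du _)]
      obtain ⟨c, hc⟩ := shortCase k
      exact ⟨c, by rw [hc, R.symm]⟩
  have hN : R.NData (nGroup N S m) := by
    refine ⟨hNmem, hNflip, fun x hx a b hab => ?_⟩
    obtain ⟨π, hπ, e⟩ := moves x hx
    refine ⟨π a, π b, fun h => hab (π.injective (by rw [hπ]; exact h)), fun t => ?_⟩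
    obtain ⟨c, hc⟩ := e a b hab t
    obtain ⟨c', hc'⟩ := e (du a) (du b) (CRels.root_du hab) t
    rw [MulAut.conj_apply] at hc hc'
    exact ⟨c, c', hc, by rw [hc', hπ, hπ]⟩
  -- monomial elements that are unitriangular
  have hpair : Pairwise fun i j : Fin (N + 1) => ∀ x y, Commute (S i x) (S j y) := fun i j hij => cSS i j hij
  let f := MonoidHom.noncommPiCoprod (fun i : Fin (N + 1) => S i) hpair
  have fS : ∀ (j : Fin (N + 1)) y, S j y = f (Pi.mulSingle j y) := fun j y =>
    (MonoidHom.noncommPiCoprod_mulSingle (hcomm := hpair) (fun i : Fin (N + 1) => S i) j y).symm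
  have hdecomp : ∀ x ∈ nGroup N S m, ∃ y γ, NF N S m (N + 1) γ ∧ x = f y * γ := by
    have hq : ∀ (k : Fin N) y γ, NF N S m (N + 1) γ → ∃ y' γ', NF N S m (N + 1) γ' ∧
        qN S m k * (f y * γ) = f y' * γ' := by
      intro k y γ hγ
      refine ⟨fun i => y (Equiv.swap k.castSucc k.succ i), qN S m k * γ,
        by rw [← qT_succ M k]; exact nf_step M (N + 1) le_rfl _ _ (by omega) (by omega) γ hγ, ?_⟩
      have e : (MulAut.conj (qN S m k)).toMonoidHom.comp f = f.comp
          { toFun := fun y i => y (Equiv.swap k.castSucc k.succ i), map_one' := rfl, map_mul' := fun _ _ => rfl } := by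
        refine MonoidHom.pi_ext fun i x => ?_
        simp only [MonoidHom.comp_apply, MulEquiv.coe_toMonoidHom, MonoidHom.coe_mk, OneHom.coe_mk]
        rw [← fS, (M.moves_q k).1, fS]
        congr 1
        funext l
        show _ = (Pi.mulSingle i x : Fin (N + 1) → SL2) (Equiv.swap k.castSucc k.succ l)
        by_cases hl : l = Equiv.swap k.castSucc k.succ i
        · subst hl; simp
        · rw [Pi.mulSingle_eq_of_ne hl, Pi.mulSingle_eq_of_ne]
          exact fun e => hl (by rw [← e, Equiv.swap_apply_self])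
      have := DFunLike.congr_fun e y
      simp only [MonoidHom.comp_apply, MulEquiv.coe_toMonoidHom, MulAut.conj_apply] at this
      rw [← mul_assoc, mul_inv_eq_iff_eq_mul.1 this, mul_assoc]
      rfl
    intro x hx
    induction hx using Subgroup.closure_induction_left with
    | one => exact ⟨1, 1, nf_one M _ le_rfl, by simp⟩
    | mul_left x hx y _ ih =>
      obtain ⟨z, γ, hγ, rfl⟩ := ih
      rcases hx with (⟨j, rfl⟩ | ⟨j, c, rfl⟩) | ⟨k, rfl⟩
      · exact ⟨Pi.mulSingle j sw * z, γ, hγ, by rw [map_mul, ← fS, mul_assoc]⟩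
      · exact ⟨Pi.mulSingle j (dg c) * z, γ, hγ, by rw [map_mul, ← fS, mul_assoc]⟩
      · exact hq k z γ hγ
    | inv_mul_cancel x hx y _ ih =>
      obtain ⟨z, γ, hγ, rfl⟩ := ih
      rcases hx with (⟨j, rfl⟩ | ⟨j, c, rfl⟩) | ⟨k, rfl⟩
      · exact ⟨Pi.mulSingle j sw⁻¹ * z, γ, hγ, by rw [map_mul, ← fS, mul_assoc, map_inv]⟩
      · exact ⟨Pi.mulSingle j (dg c)⁻¹ * z, γ, hγ, by rw [map_mul, ← fS, mul_assoc, map_inv]⟩
      · rw [inv_eq_of_mul_eq_one_right (M.qN_sq (show (k : ℕ) + 1 < N + 1 by omega))]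
        exact hq k z γ hγ
  have hNU : ∀ x ∈ nGroup N S m, Band 1 (φ x) → x ∈ R.U (Pos (N + 1)) := by
    intro x hx hb
    obtain ⟨y, γ, hγ, rfl⟩ := hdecomp x hx
    obtain ⟨π, eπ, -, hπ1⟩ := nf_perm M φ Φ (N + 1) le_rfl γ hγ
    have entry : ∀ r c : Ax (N + 1), φ (f y * γ) r c =
        if r.1 = π c.1 then (y r.1).1 (fz r.2) (fz c.2) else 0 := by
      rintro ⟨r, u⟩ ⟨c, w⟩
      rw [map_mul, eπ, Matrix.mul_apply, Finset.sum_eq_single (π c, w)]
      · rw [phi_eq_block M φ Φ]
        simp [mono]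
      · intro z _ hz; simp [mono, hz]
      · intro h; exact absurd (Finset.mem_univ _) h
    have hπ : π = 1 := Equiv.ext fun i => by
      by_contra hne
      have h := entry (i, true) (i, true)
      rw [hb _ _ (by simp [CRels.pgap]), if_pos rfl] at h
      split_ifs at h with e
      · exact hne (by simpa using e.symm)
      · exact one_ne_zero h
    rw [hπ1 hπ, mul_one]
    subst hπ
    have hy : ∀ i, ∃ t, y i = uu t := fun i => by
      refine ⟨(y i).1 0 1, ?_⟩
      have hlow : (y i).1 1 0 = 0 := by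
        have h := entry (i, false) (i, true)
        rw [hb _ _ (by have := i.isLt; simp [CRels.pgap, wt]; omega)] at h
        simpa using h.symm
      have h00 : (y i).1 0 0 = 1 := by
        have h := entry (i, true) (i, true)
        rw [hb _ _ (by simp [CRels.pgap])] at h
        simpa using h.symm
      have h11 : (y i).1 1 1 = 1 := by
        have h := entry (i, false) (i, false)
        rw [hb _ _ (by simp [CRels.pgap])] at h
        simpa using h.symm
      ext a b
      fin_cases a <;> fin_cases b <;> simp [hlow, h00, h11]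
    show MonoidHom.noncommPiCoprod _ hpair y ∈ _
    rw [MonoidHom.noncommPiCoprod_apply]
    refine Subgroup.noncommProd_mem _ _ fun i _ => ?_
    obtain ⟨t, ht'⟩ := hy i
    rw [ht', show S i (uu t) = R.x (i, true) (i, true) t by rw [hRm]; simp [lr]]
    exact R.mem_U (show 0 < ht (i, true) (i, true) by have := i.isLt; simp [ht, wt]; omega) (by simp [du]) t
  -- generation by simple root elements
  have hgen : Subgroup.closure {g | ∃ a b t, b ≠ du a ∧ (ht a b = 2 ∨ ht a b = -2) ∧ g = R.x a b t} = ⊤ := by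
    set H0 := Subgroup.closure {g | ∃ a b t, b ≠ du a ∧ (ht a b = 2 ∨ ht a b = -2) ∧ g = R.x a b t}
    have mem : ∀ a b t, b ≠ du a → (ht a b = 2 ∨ ht a b = -2) → R.x a b t ∈ H0 := fun a b t h h' =>
      Subgroup.subset_closure ⟨a, b, t, h, h', rfl⟩
    have memE : ∀ (k : Fin N) (t : F),
        (Ek k).x true false t ∈ H0 ∧ (Ek k).x false true t ∈ H0 := fun k t => by
      have hr : ∀ s r : Bool, ((k.succ, r) : Ax (N + 1)) ≠ du (k.castSucc, s) := fun s r =>
        CRels.root_of_axis (hax k s r)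
      constructor
      · have h := mem (k.castSucc, true) (k.succ, false) t (hr _ _)
          (Or.inl (by simp [ht, wt]; omega))
        rwa [hRe _ _ (hax k true false)] at h
      · have h := mem (k.castSucc, false) (k.succ, true) t (hr _ _)
          (Or.inr (by simp [ht, wt]; omega))
        rwa [hRe _ _ (hax k false true)] at h
    have hSall : ∀ d (j : Fin (N + 1)), (j : ℕ) + d = N → ∀ y, S j y ∈ H0 := by
      intro d
      induction d with
      | zero =>
        intro j hj y
        obtain rfl : j = Fin.last N := Fin.ext (by simp at hj ⊢; omega)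
        have e : H0.comap (S (Fin.last N : Fin (N + 1))) = ⊤ := closure_uu_ll _
          (fun t => by
            rw [Subgroup.mem_comap]
            have h := mem (Fin.last N, true) (Fin.last N, true) t (by simp [du]) (Or.inl (by simp [ht, wt]))
            simpa [hRm, lr] using h)
          (fun t => by
            rw [Subgroup.mem_comap]
            have h := mem (Fin.last N, false) (Fin.last N, false) (-t) (by simp [du]) (Or.inr (by simp [ht, wt]))
            simpa [hRm, lr] using h)
        exact Subgroup.mem_comap.1 (e.symm ▸ Subgroup.mem_top y)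
      | succ d ih =>
        intro j hj y
        let k : Fin N := ⟨j, by omega⟩
        show S (k.castSucc : Fin (N + 1)) y ∈ H0
        have hk := ih k.succ (by simp [k] at hj ⊢; omega)
        have hq : (Ek k).q ∈ H0 :=
          mul_mem (hk _) (mul_mem (mul_mem (memE k _).1 (memE k _).2) (memE k _).1)
        rw [← (Ek k).q_B y, MulAut.conj_apply]
        exact mul_mem (mul_mem hq (hk _)) (inv_mem hq)
    rw [eq_top_iff, ← hgenG, Subgroup.closure_le]
    rintro _ (⟨j, y, rfl⟩ | ⟨k, t, rfl⟩)
    · exact hSall (N - j) j (by have := j.isLt; omega) y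
    · have e : m k t = MulAut.conj (S (k.succ : Fin (N + 1)) sw) ((Ek k).x true false t) := by
        rw [(Ek k).wB_x]
        simp [Edge.x, pP_succ]
      rw [SetLike.mem_coe, e, MulAut.conj_apply]
      exact mul_mem (mul_mem (hSall (N - (k + 1)) k.succ (by have := k.isLt; simp) _) (memE k t).1)
        (inv_mem (hSall (N - (k + 1)) k.succ (by have := k.isLt; simp) _))
  exact R.rep_injective φ hφ hN hNU hgen hg

end Main

end Cfsg.Agent.Recog.CT.Sp
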