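import Cfsg.Agent.Recog.CT.Sp.SpMembers
import Cfsg.Agent.Recog.CT.Sp.SpWeyl

/-!
The symplectic group as the universal completion of its amalgam.
-/

set_option autoImplicit false
set_option linter.unusedSectionVars false

namespace Cfsg.Agent.Recog.CT.Sp

open Matrix
open scoped commutatorElement

variable {F : Type*} [Field F] {N : ℕ}

local notation "SL2" => Matrix.SpecialLinearGroup (Fin 2) F
local notation "Spn" => (Matrix.symplecticGroup (Fin (N + 1)) F)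

theorem lift_commute {G : Type*} [Group G] {W : Subgroup Spn} (ι : W →* G)
    {x y : Spn} (hx : x ∈ W) (hy : y ∈ W) (h : Commute x y) : Commute (ι ⟨x, hx⟩) (ι ⟨y, hy⟩) :=
  Commute.map (show Commute (⟨x, hx⟩ : W) ⟨y, hy⟩ from Subtype.ext h) ι

theorem lift_side {G : Type*} [Group G] {W : Subgroup Spn} (ι : W →* G) {A B : SL2 →* G} {m : F → G}
    {A0 B0 : SL2 →* Spn} {m0 : F → Spn} (hA : ∀ y, A0 y ∈ W) (hB : ∀ t, B0 (uu t) ∈ W) (hm : ∀ t, m0 t ∈ W)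
    (eA : ∀ y, ι ⟨A0 y, hA y⟩ = A y) (eB : ∀ t, ι ⟨B0 (uu t), hB t⟩ = B (uu t))
    (em : ∀ t, ι ⟨m0 t, hm t⟩ = m t) (S : Side A0 B0 m0) : Side A B m := by
  let a : SL2 → W := fun y => ⟨A0 y, hA y⟩
  let b : F → W := fun t => ⟨B0 (uu t), hB t⟩
  let c : F → W := fun t => ⟨m0 t, hm t⟩
  refine ⟨fun t u => ?_, fun s u => ?_, fun t u => ?_, fun x u => ?_⟩
  · rw [← eA, ← em]; exact lift_commute ι _ _ (S.ml t u)
  · have h : a (ll (-s)) * c u * (a (ll (-s)))⁻¹ = c u * MulAut.conj (a sw) (c (s * u)) * b (s * u ^ 2) :=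
      Subtype.ext (by simpa [a, b, c, MulAut.conj_apply] using S.formula s u)
    have h' := congrArg ι h
    simp only [map_mul, map_inv, map_conj, a, b, c, eA, eB, em] at h'
    exact h'
  · have h : ⁅c t, MulAut.conj (a sw) (c (-u))⁆ = b (2 * t * u) :=
      Subtype.ext (by simpa [a, b, c, MulAut.conj_apply, commutatorElement_def] using S.selfc t u)
    have h' := congrArg ι h
    simp only [map_commutatorElement, map_conj, a, b, c, eA, eB, em] at h'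
    exact h'
  · have h : MulAut.conj (a (dg x)) (c u) = c ((x : F) * u) :=
      Subtype.ext (by simpa [a, c, MulAut.conj_apply] using S.tor x u)
    have h' := congrArg ι h
    simp only [map_conj, a, c, eA, em] at h'
    exact h'

set_option maxHeartbeats 1600000 in
theorem completion_injective (hF : ∃ a : F, a ≠ 0 ∧ a ≠ 1) (Sg Mg : Fin (N + 1) → Subgroup Spn)
    (hS : ∀ j, Sg j = Subgroup.closure (SSet j))
    (hM : ∀ k : Fin N, Mg k.castSucc = Subgroup.closure (MSet k.castSucc k.succ))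
    {G : Type*} [Group G] (σ : ∀ j, Sg j →* G) (μ : ∀ i, Mg i →* G)
    (hSS : ∀ j l : Fin (N + 1), j ≠ l → ∃ Ψ : ↥(Sg j ⊔ Sg l) →* G,
      (∀ g (hg : g ∈ Sg j), Ψ ⟨g, Subgroup.mem_sup_left hg⟩ = σ j ⟨g, hg⟩) ∧
        (∀ g (hg : g ∈ Sg l), Ψ ⟨g, Subgroup.mem_sup_right hg⟩ = σ l ⟨g, hg⟩))
    (hMM : ∀ k k' : Fin N, k ≠ k' → ∃ Ψ : ↥(Mg k.castSucc ⊔ Mg k'.castSucc) →* G,
      (∀ g (hg : g ∈ Mg k.castSucc), Ψ ⟨g, Subgroup.mem_sup_left hg⟩ = μ k.castSucc ⟨g, hg⟩) ∧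
        (∀ g (hg : g ∈ Mg k'.castSucc), Ψ ⟨g, Subgroup.mem_sup_right hg⟩ = μ k'.castSucc ⟨g, hg⟩))
    (hMS : ∀ (k : Fin N) (j : Fin (N + 1)), ∃ Ψ : ↥(Mg k.castSucc ⊔ Sg j) →* G,
      (∀ g (hg : g ∈ Mg k.castSucc), Ψ ⟨g, Subgroup.mem_sup_left hg⟩ = μ k.castSucc ⟨g, hg⟩) ∧
        (∀ g (hg : g ∈ Sg j), Ψ ⟨g, Subgroup.mem_sup_right hg⟩ = σ j ⟨g, hg⟩))
    (π : G →* Spn) (hπσ : ∀ j g, π (σ j g) = g.1) (hπμ : ∀ (k : Fin N) g, π (μ k.castSucc g) = g.1)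
    (hgen : Subgroup.closure ({x | ∃ j g, σ j g = x} ∪ {x | ∃ (k : Fin N) (g : Mg k.castSucc), μ k.castSucc g = x}) = ⊤) :
    Function.Injective π := by
  classical
  have hsa : ∀ j y, sa j y ∈ Sg j := fun j y => by rw [hS]; exact Subgroup.subset_closure (sa_mem j y)
  have hmx : ∀ (k : Fin N) t, mx k.castSucc k.succ t ∈ Mg k.castSucc := fun k t => by
    rw [hM]; exact Subgroup.subset_closure (mx_mem _ _ t)
  have huu : ∀ (k : Fin N) j, (j = k.castSucc ∨ j = k.succ) → ∀ t, sa j (uu t) ∈ Mg k.castSucc := fun k j h t => by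
    rw [hM]; exact Subgroup.subset_closure (sa_uu_mem h t)
  have agree : ∀ (k : Fin N) j g (h1 : g ∈ Mg k.castSucc) (h2 : g ∈ Sg j), μ k.castSucc ⟨g, h1⟩ = σ j ⟨g, h2⟩ := by
    intro k j g h1 h2
    obtain ⟨Ψ, e1, e2⟩ := hMS k j
    rw [← e1 g h1, ← e2 g h2]
  let S' : ℕ → SL2 →* G := fun j => if h : j < N + 1 then (σ ⟨j, h⟩).comp ((sa ⟨j, h⟩).codRestrict _ (hsa _)) else 1
  let m' : ℕ → F → G := fun i t => if h : i < N then μ (Fin.castSucc ⟨i, h⟩) ⟨_, hmx ⟨i, h⟩ t⟩ else 1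
  have eS : ∀ (j : Fin (N + 1)) y, S' j y = σ j ⟨sa j y, hsa j y⟩ := fun j y => by
    simp only [S', dif_pos j.isLt]; rfl
  have em : ∀ (k : Fin N) t, m' k t = μ k.castSucc ⟨_, hmx k t⟩ := fun k t => by
    simp only [m', dif_pos k.isLt]
  have hside : ∀ (k : Fin N) (a b : Fin (N + 1)), (a = k.castSucc ∧ b = k.succ ∨ a = k.succ ∧ b = k.castSucc) →
      Side (S' a) (S' b) (m' k) := by
    intro k a b hab
    obtain ⟨Ψ, e1, e2⟩ := hMS k a
    have hb : b = k.castSucc ∨ b = k.succ := by tauto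
    refine lift_side Ψ (A0 := sa a) (B0 := sa b) (m0 := mx k.castSucc k.succ)
      (fun y => Subgroup.mem_sup_right (hsa a y)) (fun t => Subgroup.mem_sup_left (huu k b hb t))
      (fun t => Subgroup.mem_sup_left (hmx k t)) (fun y => by rw [e2 _ (hsa a y), eS])
      (fun t => by rw [e1 _ (huu k b hb t), eS, agree k b]) (fun t => by rw [e1 _ (hmx k t), em]) ?_
    rcases hab with ⟨rfl, rfl⟩ | ⟨rfl, rfl⟩
    · exact side (Fin.castSucc_lt_succ).ne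
    · rw [show (mx k.castSucc k.succ : F → Spn) = mx k.succ k.castSucc from funext (mx_symm _ _)]
      exact side (Fin.castSucc_lt_succ).ne'
  have hcomm : ∀ j l : Fin (N + 1), j ≠ l → ∀ x y, Commute (S' j x) (S' l y) := fun j l h x y => by
    obtain ⟨Ψ, e1, e2⟩ := hSS j l h
    rw [eS, eS, ← e1, ← e2]
    exact lift_commute Ψ _ _ (sa_comm h x y)
  have M : Amalg (N + 1) S' m' := by
    refine ⟨fun j l hj hl h x y => hcomm ⟨j, hj⟩ ⟨l, hl⟩ (fun e => h (congrArg Fin.val e)) x y,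
      fun i hi => ?_, fun i j hi hj h1 h2 g t => ?_, fun i k hi hk t u => ?_, ?_⟩
    · let k : Fin N := ⟨i, by omega⟩
      refine ⟨fun t u => ?_, fun x y => hcomm k.castSucc k.succ (Fin.castSucc_lt_succ).ne x y,
        hside k k.castSucc k.succ (Or.inl ⟨rfl, rfl⟩), hside k k.succ k.castSucc (Or.inr ⟨rfl, rfl⟩)⟩
      show m' k t * m' k u = m' k (t + u)
      rw [em, em, em, ← map_mul]
      exact congrArg _ (Subtype.ext (mx_add _ _ t u))
    · let k : Fin N := ⟨i, by omega⟩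
      obtain ⟨Ψ, e1, e2⟩ := hMS k ⟨j, hj⟩
      show Commute (S' (⟨j, hj⟩ : Fin (N + 1)) g) (m' k t)
      rw [eS, em, ← e1, ← e2]
      refine lift_commute Ψ _ _ (sa_mx_comm (Fin.castSucc_lt_succ).ne ?_ ?_ g t) <;>
        exact Fin.ne_of_val_ne (by simpa [k])
    · let a : Fin N := ⟨i, by omega⟩
      let b : Fin N := ⟨k, by omega⟩
      show Commute (m' a t) (m' b u)
      rw [em, em]
      by_cases hab : a = b
      · rw [← hab]
        exact Commute.map (show Commute (⟨_, hmx a t⟩ : Mg a.castSucc) ⟨_, hmx a u⟩ from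
          Subtype.ext (mx_comm _ _ _ _ t u)) _
      · obtain ⟨Ψ, e1, e2⟩ := hMM a b hab
        rw [← e1, ← e2]
        exact lift_commute Ψ _ _ (mx_comm _ _ _ _ t u)
    · obtain ⟨a, ha0, ha1⟩ := hF
      exact ⟨Units.mk0 a ha0, fun e => ha1 (congrArg Units.val e)⟩
  have Φ : IsModel S' m' (toAx.comp π) := by
    refine ⟨fun j y => ?_, fun k t => ?_⟩
    · rw [MonoidHom.comp_apply, eS, hπσ, toAx_sa]
    · rw [MonoidHom.comp_apply, em, hπμ, toAx_mx (Fin.castSucc_lt_succ).ne]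
  have hgenG : Subgroup.closure ({g | ∃ (j : Fin (N + 1)) (y : SL2), g = S' j y} ∪
      {g | ∃ (k : Fin N) (t : F), g = m' k t}) = ⊤ := by
    set L := Subgroup.closure ({g | ∃ (j : Fin (N + 1)) (y : SL2), g = S' j y} ∪
      {g | ∃ (k : Fin N) (t : F), g = m' k t})
    have hSL : ∀ j y, σ j ⟨sa j y, hsa j y⟩ ∈ L := fun j y =>
      Subgroup.subset_closure (Or.inl ⟨j, y, (eS j y).symm⟩)
    have h1 : ∀ j, Sg j ≤ (L.comap (σ j)).map (Sg j).subtype := by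
      intro j g hg
      have : Subgroup.closure (SSet (F := F) j) ≤ (L.comap (σ j)).map (Sg j).subtype := by
        rw [Subgroup.closure_le]
        intro g hg
        obtain ⟨y, rfl⟩ := mem_SSet hg
        exact ⟨⟨_, hsa j y⟩, hSL j y, rfl⟩
      rw [hS] at hg
      exact this hg
    have h2 : ∀ k : Fin N, Mg k.castSucc ≤ (L.comap (μ k.castSucc)).map (Mg k.castSucc).subtype := by
      intro k g hg
      have : Subgroup.closure (MSet (F := F) k.castSucc k.succ) ≤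
          (L.comap (μ k.castSucc)).map (Mg k.castSucc).subtype := by
        rw [Subgroup.closure_le]
        intro g hg
        obtain ⟨x, y, z, rfl⟩ := mem_MSet (Fin.castSucc_lt_succ).ne hg
        refine ⟨⟨_, huu k _ (Or.inl rfl) x⟩ * ⟨_, huu k _ (Or.inr rfl) y⟩ * ⟨_, hmx k z⟩, ?_, rfl⟩
        rw [SetLike.mem_coe, Subgroup.mem_comap, map_mul, map_mul, agree k k.castSucc _ _ (hsa _ _),
          agree k k.succ _ _ (hsa _ _)]
        exact mul_mem (mul_mem (hSL _ _) (hSL _ _)) (Subgroup.subset_closure (Or.inr ⟨k, z, (em k z).symm⟩))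
      rw [hM] at hg
      exact this hg
    rw [eq_top_iff, ← hgen, Subgroup.closure_le]
    rintro _ (⟨j, g, rfl⟩ | ⟨k, g, rfl⟩)
    · obtain ⟨g', hg', e⟩ := h1 j g.2
      rw [show g = g' from Subtype.ext e.symm]
      exact hg'
    · obtain ⟨g', hg', e⟩ := h2 k g.2
      rw [show g = g' from Subtype.ext e.symm]
      exact hg'
  refine (injective_iff_map_eq_one π).2 fun g hg => ?_
  exact rep_injective M (toAx.comp π) Φ hgenG (by rw [MonoidHom.comp_apply, hg, map_one])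

theorem sup_lift {X : Type*} [Group X] {A B : Subgroup Spn} (f : ↥(A ⊔ B) →* X) (K : Subgroup X)
    (hA : ∀ g (hg : g ∈ A), f ⟨g, Subgroup.mem_sup_left hg⟩ ∈ K)
    (hB : ∀ g (hg : g ∈ B), f ⟨g, Subgroup.mem_sup_right hg⟩ ∈ K) (g : ↥(A ⊔ B)) : f g ∈ K := by
  have h : A ⊔ B ≤ (K.comap f).map (A ⊔ B).subtype :=
    sup_le (fun x hx => ⟨⟨x, Subgroup.mem_sup_left hx⟩, hA x hx, rfl⟩)
      (fun x hx => ⟨⟨x, Subgroup.mem_sup_right hx⟩, hB x hx, rfl⟩)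
  obtain ⟨g', hg', e⟩ := h g.2
  rw [show g = g' from Subtype.ext e.symm]
  exact hg'

theorem universal_completion (hF : ∃ a : F, a ≠ 0 ∧ a ≠ 1) (Sg Mg : Fin (N + 1) → Subgroup Spn)
    (hS : ∀ j, Sg j = Subgroup.closure (SSet j))
    (hM : ∀ k : Fin N, Mg k.castSucc = Subgroup.closure (MSet k.castSucc k.succ))
    {H : Type*} [Group H] (σ : ∀ j, Sg j →* H) (μ : ∀ i, Mg i →* H)
    (hSS : ∀ j l : Fin (N + 1), j ≠ l → ∃ Ψ : ↥(Sg j ⊔ Sg l) →* H,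
      (∀ g (hg : g ∈ Sg j), Ψ ⟨g, Subgroup.mem_sup_left hg⟩ = σ j ⟨g, hg⟩) ∧
        (∀ g (hg : g ∈ Sg l), Ψ ⟨g, Subgroup.mem_sup_right hg⟩ = σ l ⟨g, hg⟩))
    (hMM : ∀ k k' : Fin N, k ≠ k' → ∃ Ψ : ↥(Mg k.castSucc ⊔ Mg k'.castSucc) →* H,
      (∀ g (hg : g ∈ Mg k.castSucc), Ψ ⟨g, Subgroup.mem_sup_left hg⟩ = μ k.castSucc ⟨g, hg⟩) ∧
        (∀ g (hg : g ∈ Mg k'.castSucc), Ψ ⟨g, Subgroup.mem_sup_right hg⟩ = μ k'.castSucc ⟨g, hg⟩))
    (hMS : ∀ (k : Fin N) (j : Fin (N + 1)), ∃ Ψ : ↥(Mg k.castSucc ⊔ Sg j) →* H,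
      (∀ g (hg : g ∈ Mg k.castSucc), Ψ ⟨g, Subgroup.mem_sup_left hg⟩ = μ k.castSucc ⟨g, hg⟩) ∧
        (∀ g (hg : g ∈ Sg j), Ψ ⟨g, Subgroup.mem_sup_right hg⟩ = σ j ⟨g, hg⟩)) :
    ∃! Φ : Spn →* H, (∀ j g (hg : g ∈ Sg j), Φ g = σ j ⟨g, hg⟩) ∧
      ∀ (k : Fin N) g (hg : g ∈ Mg k.castSucc), Φ g = μ k.castSucc ⟨g, hg⟩ := by
  classical
  let σp : ∀ j, Sg j →* H × Spn := fun j => (σ j).prod (Sg j).subtype
  let μp : ∀ i, Mg i →* H × Spn := fun i => (μ i).prod (Mg i).subtype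
  let K : Subgroup (H × Spn) :=
    Subgroup.closure ({x | ∃ j g, σp j g = x} ∪ {x | ∃ (k : Fin N) (g : Mg k.castSucc), μp k.castSucc g = x})
  have hσK : ∀ j g, σp j g ∈ K := fun j g => Subgroup.subset_closure (Or.inl ⟨j, g, rfl⟩)
  have hμK : ∀ (k : Fin N) (g : Mg k.castSucc), μp k.castSucc g ∈ K := fun k g =>
    Subgroup.subset_closure (Or.inr ⟨k, g, rfl⟩)
  let σK : ∀ j, Sg j →* K := fun j => (σp j).codRestrict K (hσK j)
  let μK : ∀ i, Mg i →* K := fun i =>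
    if h : ∀ g, μp i g ∈ K then (μp i).codRestrict K h else 1
  have eμ : ∀ (k : Fin N) g, ((μK k.castSucc g : K) : H × Spn) = μp k.castSucc g := fun k g => by
    simp only [μK, dif_pos (hμK k)]; rfl
  let π : K →* Spn := (MonoidHom.snd H Spn).comp K.subtype
  have hgenK : Subgroup.closure ({x | ∃ j g, σK j g = x} ∪
      {x | ∃ (k : Fin N) (g : Mg k.castSucc), μK k.castSucc g = x}) = ⊤ := by
    refine Subgroup.map_injective K.subtype_injective ?_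
    rw [MonoidHom.map_closure, ← MonoidHom.range_eq_map, Subgroup.range_subtype]
    refine congrArg Subgroup.closure ?_
    ext x
    constructor
    · rintro ⟨_, ⟨j, g, rfl⟩ | ⟨k, g, rfl⟩, rfl⟩
      · exact Or.inl ⟨j, g, rfl⟩
      · exact Or.inr ⟨k, g, (eμ k g).symm⟩
    · rintro (⟨j, g, rfl⟩ | ⟨k, g, rfl⟩)
      · exact ⟨σK j g, Or.inl ⟨j, g, rfl⟩, rfl⟩
      · exact ⟨μK k.castSucc g, Or.inr ⟨k, g, rfl⟩, eμ k g⟩
  have hSS' : ∀ j l : Fin (N + 1), j ≠ l → ∃ Ψ : ↥(Sg j ⊔ Sg l) →* K,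
      (∀ g (hg : g ∈ Sg j), Ψ ⟨g, Subgroup.mem_sup_left hg⟩ = σK j ⟨g, hg⟩) ∧
        (∀ g (hg : g ∈ Sg l), Ψ ⟨g, Subgroup.mem_sup_right hg⟩ = σK l ⟨g, hg⟩) := by
    intro j l h
    obtain ⟨Ψ, e1, e2⟩ := hSS j l h
    have p1 : ∀ g (hg : g ∈ Sg j), Ψ.prod (Sg j ⊔ Sg l).subtype ⟨g, Subgroup.mem_sup_left hg⟩ = σp j ⟨g, hg⟩ :=
      fun g hg => Prod.ext (e1 g hg) rfl
    have p2 : ∀ g (hg : g ∈ Sg l), Ψ.prod (Sg j ⊔ Sg l).subtype ⟨g, Subgroup.mem_sup_right hg⟩ = σp l ⟨g, hg⟩ :=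
      fun g hg => Prod.ext (e2 g hg) rfl
    exact ⟨(Ψ.prod (Sg j ⊔ Sg l).subtype).codRestrict K
      (sup_lift _ K (fun g hg => p1 g hg ▸ hσK j _) (fun g hg => p2 g hg ▸ hσK l _)),
      fun g hg => Subtype.ext (p1 g hg), fun g hg => Subtype.ext (p2 g hg)⟩
  have hMM' : ∀ k k' : Fin N, k ≠ k' → ∃ Ψ : ↥(Mg k.castSucc ⊔ Mg k'.castSucc) →* K,
      (∀ g (hg : g ∈ Mg k.castSucc), Ψ ⟨g, Subgroup.mem_sup_left hg⟩ = μK k.castSucc ⟨g, hg⟩) ∧
        (∀ g (hg : g ∈ Mg k'.castSucc), Ψ ⟨g, Subgroup.mem_sup_right hg⟩ = μK k'.castSucc ⟨g, hg⟩) := by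
    intro k k' h
    obtain ⟨Ψ, e1, e2⟩ := hMM k k' h
    have p1 : ∀ g (hg : g ∈ Mg k.castSucc),
        Ψ.prod (Mg k.castSucc ⊔ Mg k'.castSucc).subtype ⟨g, Subgroup.mem_sup_left hg⟩ = μp k.castSucc ⟨g, hg⟩ :=
      fun g hg => Prod.ext (e1 g hg) rfl
    have p2 : ∀ g (hg : g ∈ Mg k'.castSucc),
        Ψ.prod (Mg k.castSucc ⊔ Mg k'.castSucc).subtype ⟨g, Subgroup.mem_sup_right hg⟩ = μp k'.castSucc ⟨g, hg⟩ :=
      fun g hg => Prod.ext (e2 g hg) rfl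
    exact ⟨(Ψ.prod (Mg k.castSucc ⊔ Mg k'.castSucc).subtype).codRestrict K
      (sup_lift _ K (fun g hg => p1 g hg ▸ hμK k _) (fun g hg => p2 g hg ▸ hμK k' _)),
      fun g hg => Subtype.ext ((p1 g hg).trans (eμ k _).symm),
      fun g hg => Subtype.ext ((p2 g hg).trans (eμ k' _).symm)⟩
  have hMS' : ∀ (k : Fin N) (j : Fin (N + 1)), ∃ Ψ : ↥(Mg k.castSucc ⊔ Sg j) →* K,
      (∀ g (hg : g ∈ Mg k.castSucc), Ψ ⟨g, Subgroup.mem_sup_left hg⟩ = μK k.castSucc ⟨g, hg⟩) ∧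
        (∀ g (hg : g ∈ Sg j), Ψ ⟨g, Subgroup.mem_sup_right hg⟩ = σK j ⟨g, hg⟩) := by
    intro k j
    obtain ⟨Ψ, e1, e2⟩ := hMS k j
    have p1 : ∀ g (hg : g ∈ Mg k.castSucc),
        Ψ.prod (Mg k.castSucc ⊔ Sg j).subtype ⟨g, Subgroup.mem_sup_left hg⟩ = μp k.castSucc ⟨g, hg⟩ :=
      fun g hg => Prod.ext (e1 g hg) rfl
    have p2 : ∀ g (hg : g ∈ Sg j),
        Ψ.prod (Mg k.castSucc ⊔ Sg j).subtype ⟨g, Subgroup.mem_sup_right hg⟩ = σp j ⟨g, hg⟩ :=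
      fun g hg => Prod.ext (e2 g hg) rfl
    exact ⟨(Ψ.prod (Mg k.castSucc ⊔ Sg j).subtype).codRestrict K
      (sup_lift _ K (fun g hg => p1 g hg ▸ hμK k _) (fun g hg => p2 g hg ▸ hσK j _)),
      fun g hg => Subtype.ext ((p1 g hg).trans (eμ k _).symm), fun g hg => Subtype.ext (p2 g hg)⟩
  have hπμ : ∀ (k : Fin N) g, π (μK k.castSucc g) = g.1 := fun k g => congrArg Prod.snd (eμ k g)
  have inj : Function.Injective π :=
    completion_injective hF Sg Mg hS hM σK μK hSS' hMM' hMS' π (fun j g => rfl) hπμ hgenK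
  have hsa : ∀ j y, sa j y ∈ Sg j := fun j y => by rw [hS]; exact Subgroup.subset_closure (sa_mem j y)
  have hmx : ∀ (k : Fin N) t, mx k.castSucc k.succ t ∈ Mg k.castSucc := fun k t => by
    rw [hM]; exact Subgroup.subset_closure (mx_mem _ _ t)
  have surj : Function.Surjective π := MonoidHom.range_eq_top.1
    (gen_top (fun j y => ⟨σK j ⟨_, hsa j y⟩, rfl⟩) (fun k t => ⟨μK k.castSucc ⟨_, hmx k t⟩, hπμ k _⟩))
  let e : K ≃* Spn := MulEquiv.ofBijective π ⟨inj, surj⟩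
  refine ⟨((MonoidHom.fst H Spn).comp K.subtype).comp e.symm.toMonoidHom, ⟨fun j g hg => ?_, fun k g hg => ?_⟩, ?_⟩
  · have h : e.symm g = σK j ⟨g, hg⟩ := e.symm_apply_eq.2 rfl
    show ((e.symm g : K) : H × Spn).1 = _
    rw [h]; rfl
  · have h : e.symm g = μK k.castSucc ⟨g, hg⟩ := e.symm_apply_eq.2 (hπμ k ⟨g, hg⟩).symm
    show ((e.symm g : K) : H × Spn).1 = _
    rw [h, eμ]; rfl
  · intro Φ' hΦ'
    refine MonoidHom.ext fun g => ?_
    have h : MonoidHom.eqLocus Φ' (((MonoidHom.fst H Spn).comp K.subtype).comp e.symm.toMonoidHom) = ⊤ := by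
      refine gen_top (fun j y => ?_) (fun k t => ?_)
      · show Φ' (sa j y) = _
        rw [hΦ'.1 j _ (hsa j y)]
        have h : e.symm (sa j y) = σK j ⟨_, hsa j y⟩ := e.symm_apply_eq.2 rfl
        show _ = ((e.symm (sa j y) : K) : H × Spn).1
        rw [h]; rfl
      · show Φ' (mx k.castSucc k.succ t) = _
        rw [hΦ'.2 k _ (hmx k t)]
        have h : e.symm (mx k.castSucc k.succ t) = μK k.castSucc ⟨_, hmx k t⟩ :=
          e.symm_apply_eq.2 (hπμ k ⟨mx k.castSucc k.succ t, hmx k t⟩).symm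
        show _ = ((e.symm (mx k.castSucc k.succ t) : K) : H × Spn).1
        rw [h, eμ]; rfl
    exact (h.symm ▸ Subgroup.mem_top g : g ∈ MonoidHom.eqLocus Φ'
      (((MonoidHom.fst H Spn).comp K.subtype).comp e.symm.toMonoidHom))

end Cfsg.Agent.Recog.CT.Sp
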