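import Cfsg.Agent.Recog.CT.Sp.SpElems

/-!
The subgroups fixing basis vectors, and generation of the symplectic group by them.
-/

set_option autoImplicit false
set_option linter.unusedSectionVars false
set_option linter.unusedSimpArgs false

namespace Cfsg.Agent.Recog.CT.Sp

open Matrix
open Cfsg.Agent.KnownB.Proj.Symp (sp_B sp_mul_mulVec sp_ext)

variable {F : Type*} [Field F] {n : ℕ}

local notation "SL2" => Matrix.SpecialLinearGroup (Fin 2) F
local notation "Spn" => (Matrix.symplecticGroup (Fin n) F)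
local notation "Vn" => (Fin n ⊕ Fin n → F)

/-- the elements fixing the basis vectors of the other planes -/
def SSet (j : Fin n) : Set Spn :=
  {A | ∀ k : Fin n, k ≠ j →
    A.1 *ᵥ (Pi.single (Sum.inl k) (1 : F)) = Pi.single (Sum.inl k) 1 ∧
      A.1 *ᵥ (Pi.single (Sum.inr k) (1 : F)) = Pi.single (Sum.inr k) 1}

/-- the elements fixing the basis vectors except two of the second half -/
def MSet (a b : Fin n) : Set Spn :=
  {A | (∀ k : Fin n, A.1 *ᵥ (Pi.single (Sum.inl k) (1 : F)) = Pi.single (Sum.inl k) 1) ∧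
    ∀ k : Fin n, k ≠ a → k ≠ b → A.1 *ᵥ (Pi.single (Sum.inr k) (1 : F)) = Pi.single (Sum.inr k) 1}

theorem form_inl (k : Fin n) (v : Vn) : Cfsg.sympForm n F (Pi.single (Sum.inl k) 1) v = -v (Sum.inr k) := by
  rw [Forms.sympForm_eq, Finset.sum_eq_single k]
  · simp
  · intro x _ hx; simp [hx]
  · intro hx; exact absurd (Finset.mem_univ _) hx

theorem form_inr (k : Fin n) (v : Vn) : Cfsg.sympForm n F (Pi.single (Sum.inr k) 1) v = v (Sum.inl k) := by
  rw [Forms.sympForm_eq, Finset.sum_eq_single k]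
  · simp
  · intro x _ hx; simp [hx]
  · intro hx; exact absurd (Finset.mem_univ _) hx

theorem col_eq (g : Spn) (c r : Fin n ⊕ Fin n) : (g.1 *ᵥ Pi.single c (1 : F)) r = g.1 r c := by simp

theorem sa_mem (j : Fin n) (y : SL2) : sa j y ∈ SSet (F := F) j := by
  intro k hk
  constructor <;> funext r <;> rw [col_eq] <;>
    show blk (Pi.mulSingle j y) _ _ = _ <;> rcases r with r | r <;>
    by_cases hr : r = k <;> simp_all [blk]

theorem sa_uu (j : Fin n) (t : F) : sa j (uu t) = upB (Matrix.single j j t) (by simp) := by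
  apply Subtype.ext
  show blk (Pi.mulSingle j (uu t)) = Matrix.fromBlocks 1 (Matrix.single j j t) 0 1
  ext (r | r) (c | c) <;> by_cases hr : r = c <;> by_cases hj : r = j <;>
    simp_all [blk, Matrix.single_apply, Matrix.one_apply] <;> grind

theorem upB_mem {B : Matrix (Fin n) (Fin n) F} (h : Bᵀ = B) {a b : Fin n}
    (hB : ∀ r k, k ≠ a → k ≠ b → B r k = 0) : upB B h ∈ MSet a b := by
  refine ⟨fun k => funext fun r => ?_, fun k ha hb => funext fun r => ?_⟩ <;> rw [col_eq] <;>
    show Matrix.fromBlocks 1 B 0 1 _ _ = _ <;> rcases r with r | r <;>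
    by_cases hr : r = k <;> simp_all [Matrix.one_apply]

theorem sa_uu_mem {a b j : Fin n} (h : j = a ∨ j = b) (t : F) : sa j (uu t) ∈ MSet (F := F) a b := by
  rw [sa_uu]
  refine upB_mem _ fun r k ha hb => ?_
  have : j ≠ k := by rcases h with rfl | rfl <;> tauto
  simp [Matrix.single_apply, this]

theorem mx_mem (a b : Fin n) (t : F) : mx a b t ∈ MSet (F := F) a b := by
  refine upB_mem _ fun r k ha hb => ?_
  simp [Matrix.single_apply, Ne.symm ha, Ne.symm hb]

theorem mem_SSet {j : Fin n} {g : Spn} (hg : g ∈ SSet j) : ∃ y, g = sa j y := by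
  have hl : ∀ k, k ≠ j → ∀ r, g.1 r (Sum.inl k) = (Pi.single (Sum.inl k) (1 : F) : Vn) r := fun k hk r => by
    rw [← col_eq, (hg k hk).1]
  have hr : ∀ k, k ≠ j → ∀ r, g.1 r (Sum.inr k) = (Pi.single (Sum.inr k) (1 : F) : Vn) r := fun k hk r => by
    rw [← col_eq, (hg k hk).2]
  have rl : ∀ k, k ≠ j → ∀ c, g.1 (Sum.inl k) c = (Pi.single c (1 : F) : Vn) (Sum.inl k) := fun k hk c => by
    have := sp_B g (Pi.single (Sum.inr k) 1) (Pi.single c 1)
    rw [(hg k hk).2, form_inr, form_inr, col_eq] at this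
    exact this
  have rr : ∀ k, k ≠ j → ∀ c, g.1 (Sum.inr k) c = (Pi.single c (1 : F) : Vn) (Sum.inr k) := fun k hk c => by
    have := sp_B g (Pi.single (Sum.inl k) 1) (Pi.single c 1)
    rw [(hg k hk).1, form_inl, form_inl, col_eq, neg_inj] at this
    exact this
  have hdet : g.1 (Sum.inl j) (Sum.inl j) * g.1 (Sum.inr j) (Sum.inr j) -
      g.1 (Sum.inl j) (Sum.inr j) * g.1 (Sum.inr j) (Sum.inl j) = 1 := by
    have := sp_B g (Pi.single (Sum.inl j) 1) (Pi.single (Sum.inr j) 1)
    rw [form_inl, Pi.single_eq_same, Forms.sympForm_eq, Finset.sum_eq_single j] at this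
    · rw [col_eq, col_eq, col_eq, col_eq] at this
      linear_combination -this
    · intro x _ hx
      rw [col_eq, col_eq, col_eq, col_eq, rl x hx, rr x hx, rl x hx, rr x hx]
      simp [hx]
    · intro hx; exact absurd (Finset.mem_univ _) hx
  obtain ⟨y, hy⟩ : ∃ y : SL2, y.1 = !![g.1 (Sum.inl j) (Sum.inl j), g.1 (Sum.inl j) (Sum.inr j);
      g.1 (Sum.inr j) (Sum.inl j), g.1 (Sum.inr j) (Sum.inr j)] :=
    ⟨⟨_, by rw [Matrix.det_fin_two]; simpa using hdet⟩, rfl⟩
  refine ⟨y, ?_⟩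
  apply Subtype.ext
  ext r c
  show _ = blk (Pi.mulSingle j y) r c
  rcases r with r | r
  · by_cases hrj : r = j
    · subst hrj
      rcases c with c | c <;> by_cases hcj : c = r
      · subst hcj; simp [blk, hy]
      · rw [hl c hcj]; simp [blk, hcj, Ne.symm hcj]
      · subst hcj; simp [blk, hy]
      · rw [hr c hcj]; simp [blk, hcj, Ne.symm hcj]
    · rw [rl r hrj]
      rcases c with c | c <;> by_cases h : r = c
      · subst h; simp [blk, hy, hrj]
      · simp [blk, h]
      · subst h; simp [blk, hy, hrj]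
      · simp [blk, h]
  · by_cases hrj : r = j
    · subst hrj
      rcases c with c | c <;> by_cases hcj : c = r
      · subst hcj; simp [blk, hy]
      · rw [hl c hcj]; simp [blk, hcj, Ne.symm hcj]
      · subst hcj; simp [blk, hy]
      · rw [hr c hcj]; simp [blk, hcj, Ne.symm hcj]
    · rw [rr r hrj]
      rcases c with c | c <;> by_cases h : r = c
      · subst h; simp [blk, hy, hrj]
      · simp [blk, h]
      · subst h; simp [blk, hy, hrj]
      · simp [blk, h]

theorem mem_MSet {a b : Fin n} (hab : a ≠ b) {g : Spn} (hg : g ∈ MSet a b) :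
    ∃ x y z, g = sa a (uu x) * sa b (uu y) * mx a b z := by
  obtain ⟨he, hf⟩ := hg
  have c1 : ∀ r k, g.1 r (Sum.inl k) = (Pi.single (Sum.inl k) (1 : F) : Vn) r := fun r k => by rw [← col_eq, he k]
  have c2 : ∀ r k, k ≠ a → k ≠ b → g.1 r (Sum.inr k) = (Pi.single (Sum.inr k) (1 : F) : Vn) r :=
    fun r k ha hb => by rw [← col_eq, hf k ha hb]
  have c3 : ∀ k l, g.1 (Sum.inr k) (Sum.inr l) = (Pi.single (Sum.inr l) (1 : F) : Vn) (Sum.inr k) := fun k l => by
    have := sp_B g (Pi.single (Sum.inl k) 1) (Pi.single (Sum.inr l) 1)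
    rw [he, form_inl, form_inl, col_eq, neg_inj] at this
    exact this
  have c4 : ∀ k l, g.1 (Sum.inl k) (Sum.inr l) = g.1 (Sum.inl l) (Sum.inr k) := fun k l => by
    have := sp_B g (Pi.single (Sum.inr k) 1) (Pi.single (Sum.inr l) 1)
    rw [form_inr, Forms.sympForm_eq] at this
    simp only [col_eq, c3, Finset.sum_sub_distrib] at this
    simp [Pi.single_apply] at this
    linear_combination this
  refine ⟨g.1 (Sum.inl a) (Sum.inr a), g.1 (Sum.inl b) (Sum.inr b), g.1 (Sum.inl a) (Sum.inr b), ?_⟩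
  rw [sa_uu, sa_uu, mx, upB_mul, upB_mul]
  apply Subtype.ext
  show g.1 = Matrix.fromBlocks 1 _ 0 1
  ext (r | r) (c | c)
  · rw [c1]; simp [Matrix.one_apply, Pi.single_apply]
  · simp only [Matrix.fromBlocks_apply₁₂, Matrix.add_apply, Matrix.single_apply]
    by_cases hra : r = a
    · subst hra
      by_cases hca : c = r
      · subst hca; simp [hab, Ne.symm hab]
      by_cases hcb : c = b
      · subst hcb; simp [hab, Ne.symm hab]
      · rw [c2 _ c hca hcb]; simp [Ne.symm hca, Ne.symm hcb, hab, Ne.symm hab]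
    by_cases hrb : r = b
    · subst hrb
      by_cases hca : c = a
      · subst hca; rw [c4]; simp [hab, Ne.symm hab]
      by_cases hcb : c = r
      · subst hcb; simp [hab, Ne.symm hab]
      · rw [c2 _ c hca hcb]; simp [Ne.symm hca, Ne.symm hcb, hab, Ne.symm hab]
    · rw [c4, c2 _ r hra hrb]; simp [Ne.symm hra, Ne.symm hrb]
  · rw [c1]; simp
  · rw [c3]; simp [Matrix.one_apply, Pi.single_apply]

theorem sa_mulVec_inl (j : Fin n) (y : SL2) (v : Vn) (k : Fin n) :
    ((sa j y).1 *ᵥ v) (Sum.inl k) =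
      if k = j then y.1 0 0 * v (Sum.inl j) + y.1 0 1 * v (Sum.inr j) else v (Sum.inl k) := by
  show (blk (Pi.mulSingle j y) *ᵥ v) _ = _
  rw [blk, Matrix.fromBlocks_mulVec]
  by_cases h : k = j
  · subst h; simp [Matrix.mulVec_diagonal]
  · simp [Matrix.mulVec_diagonal, h]

theorem sa_mulVec_inr (j : Fin n) (y : SL2) (v : Vn) (k : Fin n) :
    ((sa j y).1 *ᵥ v) (Sum.inr k) =
      if k = j then y.1 1 0 * v (Sum.inl j) + y.1 1 1 * v (Sum.inr j) else v (Sum.inr k) := by
  show (blk (Pi.mulSingle j y) *ᵥ v) _ = _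
  rw [blk, Matrix.fromBlocks_mulVec]
  by_cases h : k = j
  · subst h; simp [Matrix.mulVec_diagonal]
  · simp [Matrix.mulVec_diagonal, h]

theorem mx_mulVec_inl {a b : Fin n} (hab : a ≠ b) (t : F) (v : Vn) (k : Fin n) :
    ((mx a b t).1 *ᵥ v) (Sum.inl k) =
      v (Sum.inl k) + (if k = a then t * v (Sum.inr b) else if k = b then t * v (Sum.inr a) else 0) := by
  show (Matrix.fromBlocks 1 (Matrix.single a b t + Matrix.single b a t) 0 1 *ᵥ v) _ = _
  rw [Matrix.fromBlocks_mulVec]
  by_cases h : k = a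
  · subst h; simp [Matrix.add_mulVec, Matrix.single_mulVec, Function.update, hab]
  by_cases h' : k = b
  · subst h'; simp [Matrix.add_mulVec, Matrix.single_mulVec, Function.update, h]
  · simp [Matrix.add_mulVec, Matrix.single_mulVec, Function.update, h, h']

theorem mx_mulVec_inr (a b : Fin n) (t : F) (v : Vn) (k : Fin n) :
    ((mx a b t).1 *ᵥ v) (Sum.inr k) = v (Sum.inr k) := by
  show (Matrix.fromBlocks 1 _ 0 1 *ᵥ v) _ = _
  rw [Matrix.fromBlocks_mulVec]
  simp

theorem exists_to_f {a b : F} (h : a ≠ 0 ∨ b ≠ 0) :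
    ∃ y : SL2, y.1 0 0 * a + y.1 0 1 * b = 0 ∧ y.1 1 0 * a + y.1 1 1 * b = 1 := by
  by_cases hb : b = 0
  · have ha : a ≠ 0 := by tauto
    exact ⟨⟨!![0, -a; a⁻¹, 0], by simp [Matrix.det_fin_two, ha]⟩, by simp [hb], by simp [hb, ha]⟩
  · exact ⟨⟨!![b, -a; 0, b⁻¹], by simp [Matrix.det_fin_two, hb]⟩, by simp; ring, by simp [hb]⟩

theorem exists_to_e {a b : F} (h : a ≠ 0 ∨ b ≠ 0) :
    ∃ y : SL2, y.1 0 0 * a + y.1 0 1 * b = 1 ∧ y.1 1 0 * a + y.1 1 1 * b = 0 := by
  obtain ⟨y, e1, e2⟩ := exists_to_f h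
  refine ⟨sw * y, ?_, ?_⟩
  · simp [Matrix.mul_apply, Fin.sum_univ_two, sw_coe]; linear_combination e2
  · simp [Matrix.mul_apply, Fin.sum_univ_two, sw_coe]; linear_combination -e1

/-- generation by the planes and the short root elements of neighbours -/
theorem gen_top {N : ℕ} {L : Subgroup (Matrix.symplecticGroup (Fin (N + 1)) F)}
    (hS : ∀ j y, sa j y ∈ L) (hm : ∀ (k : Fin N) t, mx k.castSucc k.succ t ∈ L) : L = ⊤ := by
  classical
  let v0 : Fin (N + 1) ⊕ Fin (N + 1) → F := Pi.single (Sum.inr 0) 1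
  let P : (Fin (N + 1) ⊕ Fin (N + 1) → F) → Prop := fun v => ∃ g ∈ L, g.1 *ᵥ v = v0
  have step : ∀ g ∈ L, ∀ v, P (g.1 *ᵥ v) → P v := fun g hg v ⟨g', hg', e⟩ =>
    ⟨g' * g, mul_mem hg' hg, by rw [sp_mul_mulVec, e]⟩
  have orbit : ∀ k, ∀ v : Fin (N + 1) ⊕ Fin (N + 1) → F, v ≠ 0 →
      (∀ l : Fin (N + 1), k < (l : ℕ) → v (Sum.inl l) = 0 ∧ v (Sum.inr l) = 0) → P v := by
    intro k
    induction k with
    | zero =>
      intro v hv hz
      have hz' : ∀ l : Fin (N + 1), l ≠ 0 → v (Sum.inl l) = 0 ∧ v (Sum.inr l) = 0 := fun l hl =>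
        hz l (Nat.pos_of_ne_zero fun e => hl (Fin.ext e))
      have h0 : v (Sum.inl 0) ≠ 0 ∨ v (Sum.inr 0) ≠ 0 := by
        by_contra h
        push Not at h
        exact hv (funext fun x => by
          rcases x with x | x <;> by_cases hx : x = 0
          exacts [hx ▸ h.1, (hz' x hx).1, hx ▸ h.2, (hz' x hx).2])
      obtain ⟨y, e1, e2⟩ := exists_to_f h0
      refine ⟨sa 0 y, hS 0 y, funext fun x => ?_⟩
      rcases x with x | x
      · rw [sa_mulVec_inl]
        by_cases hx : x = 0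
        · simp [hx, e1, v0]
        · simp [hx, (hz' x hx).1, v0]
      · rw [sa_mulVec_inr]
        by_cases hx : x = 0
        · simp [hx, e2, v0]
        · simp [hx, (hz' x hx).2, v0]
    | succ k ih =>
      intro v hv hz
      by_cases hk : k < N
      swap
      · exact ih v hv fun l hl => absurd l.isLt (by omega)
      set b : Fin (N + 1) := ⟨k + 1, by omega⟩ with hb
      set a : Fin (N + 1) := ⟨k, by omega⟩ with ha
      have hab : a ≠ b := Fin.ne_of_val_ne (by simp [a, b])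
      have hmL : ∀ t, mx a b t ∈ L := fun t => hm ⟨k, hk⟩ t
      have full : ∀ v : Fin (N + 1) ⊕ Fin (N + 1) → F,
          (∀ l : Fin (N + 1), k + 1 < (l : ℕ) → v (Sum.inl l) = 0 ∧ v (Sum.inr l) = 0) →
          (v (Sum.inl a) ≠ 0 ∨ v (Sum.inr a) ≠ 0) → (v (Sum.inl b) ≠ 0 ∨ v (Sum.inr b) ≠ 0) → P v := by
        intro v hz ha' hb'
        obtain ⟨ya, a1, a2⟩ := exists_to_f ha'
        obtain ⟨yb, b1, b2⟩ := exists_to_e hb'
        apply step _ (hS a ya)
        apply step _ (hS b yb)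
        apply step _ (hmL (-1))
        apply ih
        · intro e
          have := congrFun e (Sum.inr a)
          simp [-Matrix.mulVec_mulVec, mx_mulVec_inr, sa_mulVec_inr, hab, a2] at this
        · intro l hl
          have hla : l ≠ a := Fin.ne_of_val_ne (by simp [a]; omega)
          by_cases hlb : l = b
          · subst hlb
            simp [-Matrix.mulVec_mulVec, mx_mulVec_inl hab, mx_mulVec_inr, sa_mulVec_inl, sa_mulVec_inr, hab, Ne.symm hab, a2, b1, b2]
          · have h := hz l (by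
              have : (l : ℕ) ≠ k + 1 := fun e => hlb (Fin.ext e)
              omega)
            simp [-Matrix.mulVec_mulVec, mx_mulVec_inl hab, mx_mulVec_inr, sa_mulVec_inl, sa_mulVec_inr, hla, hlb, h.1, h.2]
      by_cases hb0 : v (Sum.inl b) = 0 ∧ v (Sum.inr b) = 0
      · refine ih v hv fun l hl => ?_
        by_cases hlb : l = b
        · subst hlb; exact hb0
        · exact hz l (by
            have : (l : ℕ) ≠ k + 1 := fun e => hlb (Fin.ext e)
            omega)
      have hb' : v (Sum.inl b) ≠ 0 ∨ v (Sum.inr b) ≠ 0 := by tauto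
      by_cases ha0 : v (Sum.inl a) = 0 ∧ v (Sum.inr a) = 0
      swap
      · exact full v hz (by tauto) hb'
      obtain ⟨y, e1, e2⟩ := exists_to_f hb'
      apply step _ (hS b y)
      apply step _ (hmL 1)
      apply full
      · intro l hl
        have hla : l ≠ a := Fin.ne_of_val_ne (by simp [a]; omega)
        have hlb : l ≠ b := Fin.ne_of_val_ne (by simp [b]; omega)
        simp [-Matrix.mulVec_mulVec, mx_mulVec_inl hab, mx_mulVec_inr, sa_mulVec_inl, sa_mulVec_inr, hla, hlb, (hz l hl).1, (hz l hl).2]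
      · left; simp [-Matrix.mulVec_mulVec, mx_mulVec_inl hab, sa_mulVec_inl, sa_mulVec_inr, hab, Ne.symm hab, ha0.1, e2]
      · right; simp [-Matrix.mulVec_mulVec, mx_mulVec_inr, sa_mulVec_inr, e2]
  rw [eq_top_iff, ← Forms.symplectic_transvection_closure, Subgroup.closure_le]
  rintro A ⟨w, c, hA⟩
  have eA : A = KnownB.Proj.Symp.T w c := Subtype.ext hA
  rw [eA, SetLike.mem_coe]
  by_cases hw : w = 0
  · rw [hw, show KnownB.Proj.Symp.T (0 : Fin (N + 1) ⊕ Fin (N + 1) → F) c = 1 from sp_ext fun x => by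
      rw [KnownB.Proj.Symp.T_mulVec, smul_zero, add_zero, KnownB.Proj.Symp.sp_one_mulVec]]
    exact one_mem _
  obtain ⟨g, hg, e⟩ := orbit N w hw fun l hl => absurd l.isLt (by omega)
  have h0 : KnownB.Proj.Symp.T v0 c ∈ SSet (F := F) (0 : Fin (N + 1)) := fun k hk => by
    constructor <;> rw [KnownB.Proj.Symp.T_mulVec] <;> simp only [form_inl, form_inr] <;> simp [v0, hk]
  obtain ⟨y, hy⟩ := mem_SSet h0
  have ec : g * KnownB.Proj.Symp.T w c * g⁻¹ = sa 0 y := by rw [KnownB.Proj.Symp.T_conj, e, hy]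
  rw [show KnownB.Proj.Symp.T w c = g⁻¹ * sa 0 y * g by rw [← ec]; group]
  exact mul_mem (mul_mem (inv_mem hg) (hS 0 y)) hg

end Cfsg.Agent.Recog.CT.Sp
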