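import Cfsg.Agent.Recog.CT.Sp.CBruhat

/-!
The matrix model of type C and the injectivity of the representation of an amalgam.
-/

set_option autoImplicit false
set_option linter.unusedSectionVars false
set_option linter.unusedSimpArgs false

namespace Cfsg.Agent.Recog.CT.Sp

open Matrix
open scoped commutatorElement
open CRels (T T_off T_self Band band_mul Pos)

variable {F : Type*} [Field F] {G : Type*} [Group G]

local notation "SL2" => Matrix.SpecialLinearGroup (Fin 2) F

/-- the row of a sign in the plane -/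
def fz (s : Bool) : Fin 2 := if s then 0 else 1

@[simp] theorem fz_true : fz true = 0 := rfl
@[simp] theorem fz_false : fz false = 1 := rfl

variable {n : ℕ}

/-- a monomial matrix -/
def mono (π : Equiv.Perm (Ax n)) (d : Ax n → F) : Matrix (Ax n) (Ax n) F :=
  Matrix.of fun r c => if r = π c then d c else 0

theorem mono_mul_single (π : Equiv.Perm (Ax n)) (d : Ax n → F) (a b : Ax n) (t : F) :
    mono π d * Matrix.single a b t = Matrix.single (π a) b (d a * t) := by
  ext r c
  by_cases hc : c = b
  · subst hc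
    rw [Matrix.mul_single_apply_same]
    by_cases hr : r = π a
    · subst hr; simp [mono]
    · simp [mono, hr, Ne.symm hr, Matrix.single_apply]
  · rw [Matrix.mul_single_apply_of_ne _ _ _ _ _ hc]
    simp [Matrix.single_apply, Ne.symm hc]

theorem single_mul_mono (π : Equiv.Perm (Ax n)) (d : Ax n → F) (a b : Ax n) (t : F) :
    Matrix.single a (π b) t * mono π d = Matrix.single a b (t * d b) := by
  ext r c
  by_cases hr : r = a
  · subst hr
    rw [Matrix.single_mul_apply_same]
    by_cases hc : c = b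
    · subst hc; simp [mono]
    · simp [mono, Ne.symm hc, Matrix.single_apply, π.injective.ne (Ne.symm hc)]
  · rw [Matrix.single_mul_apply_of_ne _ _ _ _ _ hr]
    simp [Matrix.single_apply, Ne.symm hr]

theorem mono_T (π : Equiv.Perm (Ax n)) (d : Ax n → F) (hdu : ∀ a, π (du a) = du (π a))
    (hε : ∀ a, eps (F := F) (π a).2 * (d a * d (du a)) = eps a.2) (a b : Ax n) (t : F) :
    mono π d * T a b t = T (π a) (π b) (d a * d b * t) * mono π d := by
  have key : ∀ x y : Ax n, ∀ s : F, mono π d * Matrix.single x (du y) (eps y.2 * s) =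
      Matrix.single (π x) (du (π y)) (eps (π y).2 * (d x * d y * s)) * mono π d := by
    intro x y s
    rw [mono_mul_single, ← hdu, single_mul_mono, ← hε y]
    congr 1; ring
  by_cases hab : a = b
  · subst hab
    simp only [T, if_true, Matrix.mul_add, Matrix.add_mul, Matrix.mul_one, Matrix.one_mul, key]
  · simp only [T, if_neg hab, if_neg (π.injective.ne hab), Matrix.mul_add, Matrix.add_mul, Matrix.mul_one,
      Matrix.one_mul, key]
    rw [mul_comm (d b) (d a)]

/-- the block of one axis -/
def emb (j : Fin n) (y : Matrix.SpecialLinearGroup (Fin 2) F) : Matrix (Ax n) (Ax n) F :=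
  Matrix.of fun r c => if r.1 = j ∧ c.1 = j then y.1 (fz r.2) (fz c.2) else if r = c then 1 else 0

theorem emb_sw (j : Fin n) : emb j (sw : SL2) =
    mono (Equiv.swap ((j, true) : Ax n) (j, false)) (fun a => if a = (j, true) then -1 else 1) := by
  ext ⟨i, s⟩ ⟨k, r⟩
  by_cases hi : i = j <;> by_cases hk : k = j
  · subst hi hk
    cases s <;> cases r <;> simp [emb, mono, sw_coe, Equiv.swap_apply_def]
  · subst hi
    simp [emb, mono, hk, Equiv.swap_apply_def, Ne.symm hk]
  · subst hk
    cases s <;> cases r <;> simp [emb, mono, hi, Equiv.swap_apply_def]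
  · by_cases hik : i = k
    · subst hik; simp [emb, mono, hi, Equiv.swap_apply_def]
    · simp [emb, mono, hi, hk, hik, Equiv.swap_apply_def]

theorem emb_dg (j : Fin n) (c : Fˣ) : emb j (dg c) =
    mono (1 : Equiv.Perm (Ax n))
      (fun a => if a.1 = j then (if a.2 then (c : F) else ((c⁻¹ : Fˣ) : F)) else 1) := by
  ext ⟨i, s⟩ ⟨k, r⟩
  by_cases hik : i = k
  · subst hik
    by_cases hi : i = j
    · subst hi; cases s <;> cases r <;> simp [emb, mono, dg_coe]
    · simp [emb, mono, hi]
  · simp [emb, mono, hik]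
    rintro rfl rfl
    exact absurd rfl hik

theorem T_mulVec (a b : Ax n) (t : F) (v : Ax n → F) :
    T a b t *ᵥ v = if a = b then v + Pi.single a (eps a.2 * t * v (du a))
      else v + Pi.single a (eps b.2 * t * v (du b)) + Pi.single b (eps a.2 * t * v (du a)) := by
  by_cases hab : a = b
  · subst hab
    simp [T, Matrix.add_mulVec, Matrix.single_mulVec, ← Pi.single_smul, Function.update_eq_iff, Pi.single]
  · simp [T, hab, Matrix.add_mulVec, Matrix.single_mulVec, Pi.single]

/-- exchanging two axes -/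
def swapAx (i j : Fin n) : Equiv.Perm (Ax n) := Equiv.prodCongr (Equiv.swap i j) (Equiv.refl Bool)

theorem q_matrix {i j : Fin n} (h : i ≠ j) :
    emb j (dg (-1 : Fˣ)) * (T (i, true) (j, false) (-1) * T (i, false) (j, true) 1 * T (i, true) (j, false) (-1)) =
      mono (swapAx i j) (fun _ => (1 : F)) := by
  rw [emb_dg]
  refine Matrix.ext_of_mulVec_single fun a => ?_
  generalize (Pi.single a 1 : Ax n → F) = v
  have hm : ∀ (π : Equiv.Perm (Ax n)) (d : Ax n → F) (w : Ax n → F) (x : Ax n),
      (mono π d *ᵥ w) x = d (π.symm x) * w (π.symm x) := by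
    intro π d w x
    simp only [mono, Matrix.mulVec, dotProduct, Matrix.of_apply]
    rw [Finset.sum_eq_single (π.symm x)]
    · simp
    · intro y _ hy
      rw [if_neg (fun e => hy (by rw [e, Equiv.symm_apply_apply])), zero_mul]
    · intro hx; exact absurd (Finset.mem_univ _) hx
  rw [← Matrix.mulVec_mulVec, ← Matrix.mulVec_mulVec, ← Matrix.mulVec_mulVec]
  funext ⟨k, s⟩
  rw [hm, hm]
  simp only [swapAx, Equiv.prodCongr_symm, Equiv.symm_swap, Equiv.refl_symm, Equiv.prodCongr_apply, Prod.map,
    Equiv.refl_apply, Equiv.Perm.one_symm, Equiv.Perm.one_apply, T_mulVec, Prod.mk.injEq, h, false_and, if_false,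
    Pi.add_apply, Pi.single_apply, du, Bool.not_true, Bool.not_false, eps_true, eps_false, Units.val_neg,
    Units.val_one, inv_neg, inv_one]
  by_cases hk : k = i
  · subst hk
    cases s <;> simp [h, Ne.symm h]
  by_cases hk' : k = j
  · subst hk'
    cases s <;> simp [h, Ne.symm h]
  simp [hk, hk', Equiv.swap_apply_of_ne_of_ne]

section Model

variable {N : ℕ} {S : ℕ → Matrix.SpecialLinearGroup (Fin 2) F →* G} {m : ℕ → F → G}
  (φ : G →* Matrix (Ax (N + 1)) (Ax (N + 1)) F)

/-- the representation is the natural one -/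
structure IsModel (S : ℕ → Matrix.SpecialLinearGroup (Fin 2) F →* G) (m : ℕ → F → G)
    (φ : G →* Matrix (Ax (N + 1)) (Ax (N + 1)) F) : Prop where
  hS : ∀ (j : Fin (N + 1)) y, φ (S j y) = emb j y
  hm : ∀ (k : Fin N) t, φ (m k t) = T (k.castSucc, true) (k.succ, true) t

theorem phi_conj {g : G} {M : Matrix (Ax (N + 1)) (Ax (N + 1)) F} {y : G} (h : φ g * φ y = M * φ g) :
    φ (MulAut.conj g y) = M := by
  rw [MulAut.conj_apply, map_mul, map_mul, h, mul_assoc, ← map_mul, mul_inv_cancel, map_one, mul_one]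

variable (M : Amalg (N + 1) S m) (Φ : IsModel S m φ)
include M Φ

theorem phi_x_of {i j : Fin (N + 1)} (hij : i ≠ j) {P : F → G} (E : Edge (S i) (S j) P)
    (hP : ∀ t, φ (P t) = T (i, true) (j, true) t) (s r : Bool) (t : F) :
    φ (E.x s r t) = T (i, s) (j, r) t := by
  have hε : ∀ (l : Fin (N + 1)) (a : Ax (N + 1)),
      eps (F := F) (Equiv.swap ((l, true) : Ax (N + 1)) (l, false) a).2 *
        ((if a = (l, true) then -1 else 1) * (if du a = (l, true) then -1 else 1)) = eps a.2 := by
    rintro l ⟨k, u⟩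
    by_cases hk : k = l
    · subst hk; cases u <;> simp [du, Equiv.swap_apply_def]
    · simp [du, hk, Equiv.swap_apply_def]
  have hdu : ∀ (l : Fin (N + 1)) (a : Ax (N + 1)), Equiv.swap ((l, true) : Ax (N + 1)) (l, false) (du a) =
      du (Equiv.swap ((l, true) : Ax (N + 1)) (l, false) a) := by
    rintro l ⟨k, u⟩
    by_cases hk : k = l
    · subst hk; cases u <;> simp [du, Equiv.swap_apply_def]
    · simp [du, hk, Equiv.swap_apply_def]
  have hB : ∀ t, φ (MulAut.conj (S j sw) (P t)) = T (i, true) (j, false) (-t) := fun t => by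
    refine phi_conj φ ?_
    rw [Φ.hS, hP, emb_sw, mono_T _ _ (hdu j) (hε j)]
    simp [hij, Equiv.swap_apply_def]
  have hA : ∀ r' t, φ (MulAut.conj (S i sw) (E.x true r' t)) = T (i, false) (j, r') (-t) := fun r' t => by
    refine phi_conj φ ?_
    have e : φ (E.x true r' t) = T (i, true) (j, r') t := by
      cases r'
      · simp only [Edge.x, if_true, one_mul, Bool.false_eq_true, if_false, eps_true, eps_false]
        rw [hB]; simp
      · rw [E.x_tt, hP]
    rw [Φ.hS, e, emb_sw, mono_T _ _ (hdu i) (hε i)]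
    simp [Ne.symm hij, Equiv.swap_apply_def]
  cases s
  · have h := hA r (-t)
    rw [E.wA_x] at h
    simpa using h
  · cases r
    · simp only [Edge.x, if_true, one_mul, Bool.false_eq_true, if_false, eps_true, eps_false]
      rw [hB]; simp
    · rw [E.x_tt, hP]

theorem phi_qN (k : Fin N) : φ (qN S m k) = mono (swapAx k.castSucc k.succ) (fun _ => (1 : F)) := by
  have E : Edge (S (k.castSucc : Fin (N + 1))) (S (k.succ : Fin (N + 1))) (m k) := by
    simpa using M.edge k (by omega)
  have hq : qN S m k = E.q := by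
    rw [M.qN_eq (show (k : ℕ) + 1 < N + 1 by omega)]
  rw [hq, Edge.q, map_mul, map_mul, map_mul, phi_x_of φ M Φ (Fin.castSucc_lt_succ).ne E (Φ.hm k),
    phi_x_of φ M Φ (Fin.castSucc_lt_succ).ne E (Φ.hm k), Φ.hS]
  exact q_matrix (Fin.castSucc_lt_succ).ne

theorem phi_pP (i j : Fin (N + 1)) (hij : i ≠ j) (t : F) : φ (pP S m i j t) = T (i, true) (j, true) t := by
  have main : ∀ d (i j : Fin (N + 1)), (j : ℕ) = i + d + 1 → ∀ t, φ (qQ S m i d t) = T (i, true) (j, true) t := by
    intro d
    induction d with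
    | zero =>
      intro i j hj t
      have hi : (i : ℕ) < N := by have := j.isLt; omega
      have e1 : i = (⟨i, hi⟩ : Fin N).castSucc := rfl
      have e2 : j = (⟨i, hi⟩ : Fin N).succ := Fin.ext (by simp; omega)
      rw [e2]
      exact Φ.hm ⟨i, hi⟩ t
    | succ d ih =>
      intro i j hj t
      have hk : (i : ℕ) + d + 1 < N := by have := j.isLt; omega
      let k : Fin N := ⟨i + d + 1, hk⟩
      show φ (MulAut.conj (qN S m k) (qQ S m i d t)) = _
      refine phi_conj φ ?_
      rw [phi_qN φ M Φ k, ih i k.castSucc (by simp [k]) t, mono_T _ _ (fun a => rfl) (fun a => by simp [swapAx])]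
      have e1 : Equiv.swap k.castSucc k.succ i = i :=
        Equiv.swap_apply_of_ne_of_ne (Fin.ne_of_val_ne (by simp [k]; omega)) (Fin.ne_of_val_ne (by simp [k]; omega))
      have e2 : j = k.succ := Fin.ext (by simp [k]; omega)
      subst e2
      simp [swapAx, e1]
  have hv : (i : ℕ) ≠ j := fun h => hij (Fin.ext h)
  rcases Nat.lt_or_ge (i : ℕ) j with h | h
  · rw [pP, if_pos h]; exact main _ i j (by omega) t
  · rw [pP, if_neg (by omega), main _ j i (by omega) t]
    have hne : ((j, true) : Ax (N + 1)) ≠ (i, true) := by simp [Ne.symm hij]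
    simp only [T, if_neg hne, if_neg (Ne.symm hne)]
    abel

theorem phi_root (R : CRels G (N + 1) F)
    (hR : ∀ (a : Ax (N + 1)) t, R.x a a t = lr (S a.1) a.2 t ∧
      ∀ b : Ax (N + 1), ∀ h : a.1 ≠ b.1, R.x a b t = (M.edge_all a.1 b.1 h).x a.2 b.2 t)
    (a b : Ax (N + 1)) (hab : b ≠ du a) (t : F) : φ (R.x a b t) = T a b t := by
  by_cases h : a.1 = b.1
  · obtain rfl := CRels.eq_of_axis h hab
    rw [(hR b t).1]
    obtain ⟨i, s⟩ := b
    have key : ∀ y : Matrix.SpecialLinearGroup (Fin 2) F,
        y.1 (fz s) (fz s) = 1 → y.1 (fz s) (fz (!s)) = eps s * t → y.1 (fz (!s)) (fz s) = 0 →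
        y.1 (fz (!s)) (fz (!s)) = 1 → emb i y = T (i, s) (i, s) t := by
      intro y h1 h2 h3 h4
      ext ⟨k, u⟩ ⟨l, w⟩
      by_cases hk : k = i
      · subst hk
        by_cases hl : l = k
        · subst hl
          cases s <;> cases u <;> cases w <;> simp_all [emb, T, du, Matrix.one_apply, Matrix.single_apply]
        · simp [emb, T, du, Matrix.one_apply, Matrix.single_apply, hl, Ne.symm hl]
      · simp [emb, T, du, Matrix.one_apply, Matrix.single_apply, hk, Ne.symm hk]
    cases s
    · simp only [lr, Bool.false_eq_true, if_false]; rw [Φ.hS]; apply key <;> simp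
    · simp only [lr, if_true]; rw [Φ.hS]; apply key <;> simp
  · rw [(hR a t).2 b h]
    exact phi_x_of φ M Φ h _ (phi_pP φ M Φ a.1 b.1 h) a.2 b.2 t

end Model

end Cfsg.Agent.Recog.CT.Sp
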