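import Cfsg.Agent.Recog.CT.Sp.Triple
import Mathlib.GroupTheory.Perm.Sign

/-!
From the amalgam along a chain to root elements for all pairs: the relations of type C.
-/

set_option autoImplicit false

namespace Cfsg.Agent.Recog.CT.Sp

open scoped commutatorElement

variable {F : Type*} [Field F] {G : Type*} [Group G]

local notation "SL2" => Matrix.SpecialLinearGroup (Fin 2) F

section Map

variable {A B : Matrix.SpecialLinearGroup (Fin 2) F →* G} {m : F → G} {H : Type*} [Group H]

theorem map_conj (f : G →* H) (a b : G) : f (MulAut.conj a b) = MulAut.conj (f a) (f b) := by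
  simp [MulAut.conj_apply]

theorem Side.map (S : Side A B m) (f : G →* H) : Side (f.comp A) (f.comp B) (fun t => f (m t)) := by
  refine ⟨fun t u => (S.ml t u).map f, fun s u => ?_, fun t u => ?_, fun c u => ?_⟩
  · have h := congrArg f (S.formula s u)
    simp only [map_mul, map_inv, map_conj] at h
    exact h
  · have h := congrArg f (S.selfc t u)
    simp only [map_commutatorElement, map_conj] at h
    exact h
  · have h := congrArg f (S.tor c u)
    simp only [map_conj] at h
    exact h

theorem Edge.map (E : Edge A B m) (f : G →* H) : Edge (f.comp A) (f.comp B) (fun t => f (m t)) :=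
  ⟨fun t u => by rw [← map_mul, E.add], fun x y => (E.comm x y).map f, E.sa.map f, E.sb.map f⟩

theorem Edge.map_x (E : Edge A B m) (f : G →* H) (s r : Bool) (t : F) : f (E.x s r t) = (E.map f).x s r t := by
  simp only [Edge.x, map_conj, map_mul, MonoidHom.comp_apply]
  cases s <;> cases r <;> simp

theorem Edge.map_q (E : Edge A B m) (f : G →* H) : f E.q = (E.map f).q := by
  simp only [Edge.q, map_mul, E.map_x f, MonoidHom.comp_apply]

theorem Edge.q_congr {A' B' : Matrix.SpecialLinearGroup (Fin 2) F →* G} {m' : F → G} (E : Edge A B m)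
    (E' : Edge A' B' m') (ha : A = A') (hb : B = B') (hm : m = m') : E.q = E'.q := by
  subst ha hb hm; rfl

theorem Edge.x_congr {A' B' : Matrix.SpecialLinearGroup (Fin 2) F →* G} {m' : F → G} (E : Edge A B m)
    (E' : Edge A' B' m') (ha : A = A') (hb : B = B') (hm : m = m') (s r : Bool) (t : F) :
    E.x s r t = E'.x s r t := by
  subst ha hb hm; rfl

theorem Edge.congr {A' B' : Matrix.SpecialLinearGroup (Fin 2) F →* G} {m' : F → G} (E : Edge A B m)
    (ha : A = A') (hb : B = B') (hm : m = m') : Edge A' B' m' := by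
  subst ha hb hm; exact E

theorem Edge.commute_x (E : Edge A B m) {g : G} (ha : ∀ y, Commute g (A y)) (hb : ∀ y, Commute g (B y))
    (hm : ∀ t, Commute g (m t)) (s r : Bool) (t : F) : Commute g (E.x s r t) := by
  have h1 : Commute g ((if s then 1 else A sw) * (if r then 1 else B sw)) := by
    refine Commute.mul_right ?_ ?_
    · cases s <;> simp [ha]
    · cases r <;> simp [hb]
  rw [Edge.x, MulAut.conj_apply]
  exact (h1.mul_right (hm _)).mul_right h1.inv_right

theorem Edge.commute_q (E : Edge A B m) {g : G} (ha : ∀ y, Commute g (A y)) (hb : ∀ y, Commute g (B y))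
    (hm : ∀ t, Commute g (m t)) : Commute g E.q :=
  (hb _).mul_right (((E.commute_x ha hb hm _ _ _).mul_right (E.commute_x ha hb hm _ _ _)).mul_right
    (E.commute_x ha hb hm _ _ _))

theorem conj_of_commute {g h : G} (c : Commute g h) : MulAut.conj g h = h := by
  rw [MulAut.conj_apply, c.eq, mul_inv_cancel_right]

theorem conj_conj (g h y : G) : MulAut.conj g (MulAut.conj h y) = MulAut.conj (g * h) y := by
  rw [map_mul, MulAut.mul_apply]

end Map

/-- the data along a chain of length `n` -/
structure Amalg (n : ℕ) (S : ℕ → SL2 →* G) (m : ℕ → F → G) : Prop where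
  comm : ∀ j l, j < n → l < n → j ≠ l → ∀ x y, Commute (S j x) (S l y)
  edge : ∀ i, i + 1 < n → Edge (S i) (S (i + 1)) (m i)
  far : ∀ i j, i + 1 < n → j < n → j ≠ i → j ≠ i + 1 → ∀ g t, Commute (S j g) (m i t)
  mm : ∀ i k, i + 1 < n → k + 1 < n → ∀ t u, Commute (m i t) (m k u)
  room : ∃ k : Fˣ, k ≠ 1

section

open Classical in
/-- the exchange of two neighbours -/
noncomputable def qN (S : ℕ → SL2 →* G) (m : ℕ → F → G) (k : ℕ) : G :=
  if h : Edge (S k) (S (k + 1)) (m k) then h.q else 1

/-- short elements at a distance -/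
noncomputable def qQ (S : ℕ → SL2 →* G) (m : ℕ → F → G) (i : ℕ) : ℕ → F → G
  | 0 => m i
  | d + 1 => fun t => MulAut.conj (qN S m (i + d + 1)) (qQ S m i d t)

/-- short elements for all pairs -/
noncomputable def pP (S : ℕ → SL2 →* G) (m : ℕ → F → G) (i j : ℕ) : F → G :=
  if i < j then qQ S m i (j - i - 1) else qQ S m j (i - j - 1)

end

theorem pP_symm (S : ℕ → SL2 →* G) (m : ℕ → F → G) (i j : ℕ) : pP S m i j = pP S m j i := by
  rcases lt_trichotomy i j with h | rfl | h
  · rw [pP, pP, if_pos h, if_neg (by omega)]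
  · rfl
  · rw [pP, pP, if_neg (by omega), if_pos h]

theorem pP_succ (S : ℕ → SL2 →* G) (m : ℕ → F → G) (i : ℕ) : pP S m i (i + 1) = m i := by
  simp [pP, qQ]

namespace Amalg

variable {n : ℕ} {S : ℕ → Matrix.SpecialLinearGroup (Fin 2) F →* G} {m : ℕ → F → G} (M : Amalg n S m)
include M

theorem qN_eq {k : ℕ} (hk : k + 1 < n) : qN S m k = (M.edge k hk).q := by
  rw [qN, dif_pos (M.edge k hk)]

theorem qN_sq {k : ℕ} (hk : k + 1 < n) : qN S m k * qN S m k = 1 := by
  rw [M.qN_eq hk]; exact (M.edge k hk).q_sq

theorem q_S {k : ℕ} (hk : k + 1 < n) {l : ℕ} (hl : l < n) (y : SL2) :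
    MulAut.conj (qN S m k) (S l y) = S (Equiv.swap k (k + 1) l) y := by
  rw [M.qN_eq hk]
  by_cases h1 : l = k
  · subst h1; rw [Equiv.swap_apply_left]; exact (M.edge l hk).q_A y
  by_cases h2 : l = k + 1
  · subst h2; rw [Equiv.swap_apply_right]; exact (M.edge k hk).q_B y
  rw [Equiv.swap_apply_of_ne_of_ne h1 h2, conj_of_commute]
  exact ((M.edge k hk).commute_q (fun z => M.comm l k hl (by omega) h1 y z) (fun z => M.comm l (k + 1) hl hk h2 y z)
    (fun t => M.far k l hk hl h1 h2 y t)).symm

theorem q_m_far {k i : ℕ} (hk : k + 1 < n) (hi : i + 1 < n) (h : i + 2 ≤ k ∨ k + 2 ≤ i) (t : F) :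
    MulAut.conj (qN S m k) (m i t) = m i t := by
  rw [M.qN_eq hk, conj_of_commute]
  exact ((M.edge k hk).commute_q (fun z => (M.far i k hi (by omega) (by omega) (by omega) z t).symm)
    (fun z => (M.far i (k + 1) hi hk (by omega) (by omega) z t).symm) (fun u => M.mm i k hi hk t u)).symm

theorem chain {i : ℕ} (hi : i + 2 < n) : Chain3 (S i) (S (i + 1)) (S (i + 2)) (m i) (m (i + 1)) :=
  ⟨M.edge i (by omega), M.edge (i + 1) hi, fun x y => M.comm i (i + 2) (by omega) hi (by omega) x y,
    fun g t => M.far (i + 1) i hi (by omega) (by omega) (by omega) g t,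
    fun g t => M.far i (i + 2) (by omega) hi (by omega) (by omega) g t,
    fun t u => M.mm i (i + 1) (by omega) hi t u, M.room⟩

theorem braid_m {i : ℕ} (hi : i + 2 < n) (t : F) :
    MulAut.conj (qN S m i) (m (i + 1) t) = MulAut.conj (qN S m (i + 1)) (m i t) := by
  rw [M.qN_eq (show i + 1 < n by omega), M.qN_eq (show i + 1 + 1 < n by omega)]
  exact ((M.chain hi).braid t).symm

theorem braid {i : ℕ} (hi : i + 2 < n) :
    qN S m i * qN S m (i + 1) * qN S m i = qN S m (i + 1) * qN S m i * qN S m (i + 1) := by
  have h1 : i + 1 < n := by omega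
  have h2 : i + 1 + 1 < n := by omega
  have e1 : MulAut.conj (qN S m i) (qN S m (i + 1)) = MulAut.conj (qN S m (i + 1)) (qN S m i) := by
    conv_lhs => arg 2; rw [M.qN_eq h2]
    conv_rhs => arg 2; rw [M.qN_eq h1]
    rw [← MulEquiv.coe_toMonoidHom, Edge.map_q, ← MulEquiv.coe_toMonoidHom, Edge.map_q]
    refine Edge.q_congr _ _ (MonoidHom.ext fun y => ?_) (MonoidHom.ext fun y => ?_) (funext fun t => M.braid_m hi t)
    · show MulAut.conj _ (S (i + 1) y) = MulAut.conj _ (S i y)
      rw [M.q_S h1 (by omega), M.q_S h2 (by omega), Equiv.swap_apply_right,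
        Equiv.swap_apply_of_ne_of_ne (by omega) (by omega)]
    · show MulAut.conj _ (S (i + 1 + 1) y) = MulAut.conj _ (S (i + 1) y)
      rw [M.q_S h1 (by omega), M.q_S h2 (by omega), Equiv.swap_apply_left,
        Equiv.swap_apply_of_ne_of_ne (by omega) (by omega)]
  have a1 : (qN S m i)⁻¹ = qN S m i := inv_eq_of_mul_eq_one_right (M.qN_sq h1)
  have a2 : (qN S m (i + 1))⁻¹ = qN S m (i + 1) := inv_eq_of_mul_eq_one_right (M.qN_sq h2)
  rwa [MulAut.conj_apply, MulAut.conj_apply, a1, a2] at e1

theorem q_cancel {k : ℕ} (hk : k + 1 < n) (y : G) : MulAut.conj (qN S m k) (MulAut.conj (qN S m k) y) = y := by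
  rw [conj_conj, M.qN_sq hk, map_one, MulAut.one_apply]

theorem q_qQ : ∀ d i k, i + d + 1 < n → k + 1 < n → ∀ t,
    MulAut.conj (qN S m k) (qQ S m i d t) = pP S m (Equiv.swap k (k + 1) i) (Equiv.swap k (k + 1) (i + d + 1)) t := by
  intro d
  induction d with
  | zero =>
    intro i k hi hk t
    show MulAut.conj _ (m i t) = pP S m _ (Equiv.swap k (k + 1) (i + 1)) t
    by_cases h : i + 2 ≤ k ∨ k + 2 ≤ i
    · rw [M.q_m_far hk hi h, Equiv.swap_apply_of_ne_of_ne (by omega) (by omega),
        Equiv.swap_apply_of_ne_of_ne (by omega) (by omega), pP_succ]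
    obtain rfl | rfl | rfl : k = i ∨ k = i + 1 ∨ i = k + 1 := by omega
    · rw [Equiv.swap_apply_left, Equiv.swap_apply_right, pP_symm, pP_succ, M.qN_eq hk, ← (M.edge k hk).x_tt,
        (M.edge k hk).q_x]
    · rw [Equiv.swap_apply_of_ne_of_ne (by omega) (by omega), Equiv.swap_apply_left, pP, if_pos (by omega),
        show i + 1 + 1 - i - 1 = 0 + 1 by omega]
      rfl
    · rw [Equiv.swap_apply_right, Equiv.swap_apply_of_ne_of_ne (by omega) (by omega), pP, if_pos (by omega),
        show k + 1 + 1 - k - 1 = 0 + 1 by omega, M.braid_m (by omega)]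
      rfl
  | succ d ih =>
    intro i k hi hk t
    have hj : i + d + 1 + 1 < n := by omega
    show MulAut.conj _ (MulAut.conj (qN S m (i + d + 1)) (qQ S m i d t)) = _
    set j := i + d + 1 with hjdef
    have hlong : i + (d + 1) + 1 = j + 1 := by omega
    rw [hlong]
    have hdef : ∀ a b t, a < b → MulAut.conj (qN S m b) (pP S m a b t) = pP S m a (b + 1) t := by
      intro a b t hab
      rw [pP, pP, if_pos hab, if_pos (by omega), show b + 1 - a - 1 = (b - a - 1) + 1 by omega]
      show _ = MulAut.conj (qN S m (a + (b - a - 1) + 1)) _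
      rw [show a + (b - a - 1) + 1 = b by omega]
    by_cases hkj : k = j
    · subst hkj
      rw [M.q_cancel hk, Equiv.swap_apply_of_ne_of_ne (by omega) (by omega), Equiv.swap_apply_right, pP,
        if_pos (by omega), show j - i - 1 = d by omega]
    by_cases hk1 : k = j + 1
    · subst hk1
      rw [Equiv.swap_apply_of_ne_of_ne (by omega) (by omega), Equiv.swap_apply_left, ← hdef i (j + 1) t (by omega),
        ← hdef i j t (by omega), pP, if_pos (by omega), show j - i - 1 = d by omega]
    by_cases hk2 : k + 1 = j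
    · have br := M.braid (i := k) (by omega)
      rw [hk2] at br
      by_cases hik : i = k
      · subst hik
        obtain rfl : d = 0 := by omega
        rw [Equiv.swap_apply_left, Equiv.swap_apply_of_ne_of_ne (by omega) (by omega), ← hk2]
        show MulAut.conj (qN S m i) (MulAut.conj (qN S m (i + 1)) (m i t)) = _
        rw [← M.braid_m (by omega), M.q_cancel (by omega), pP_succ]
      · obtain ⟨d', rfl⟩ : ∃ d', d = d' + 1 := ⟨d - 1, by omega⟩
        rw [Equiv.swap_apply_of_ne_of_ne (by omega) (by omega), Equiv.swap_apply_of_ne_of_ne (by omega) (by omega)]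
        show MulAut.conj (qN S m k) (MulAut.conj (qN S m j) (MulAut.conj (qN S m (i + d' + 1)) (qQ S m i d' t))) = _
        have hq : i + d' + 1 = k := by omega
        have hbase := ih i j (by omega) hj t
        rw [hq, conj_conj, conj_conj, br, ← conj_conj, ← conj_conj]
        have hfix : MulAut.conj (qN S m j) (qQ S m i d' t) = qQ S m i d' t := by
          have h2 : ∀ e, i + e + 1 < j → MulAut.conj (qN S m j) (qQ S m i e t) = qQ S m i e t := by
            intro e
            induction e with
            | zero => intro he; exact M.q_m_far hj (by omega) (Or.inl (by omega)) t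
            | succ e ihe =>
              intro he
              show MulAut.conj (qN S m j) (MulAut.conj (qN S m (i + e + 1)) (qQ S m i e t)) = _
              have hc : qN S m j * qN S m (i + e + 1) = qN S m (i + e + 1) * qN S m j := by
                have e1 : MulAut.conj (qN S m j) (qN S m (i + e + 1)) = qN S m (i + e + 1) := by
                  conv_lhs => arg 2; rw [M.qN_eq (show i + e + 1 + 1 < n by omega)]
                  rw [← MulEquiv.coe_toMonoidHom, Edge.map_q, M.qN_eq (show i + e + 1 + 1 < n by omega)]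
                  refine Edge.q_congr _ _ (MonoidHom.ext fun y => ?_) (MonoidHom.ext fun y => ?_)
                    (funext fun u => M.q_m_far hj (by omega) (Or.inl (by omega)) u)
                  · show MulAut.conj _ (S _ y) = _
                    rw [M.q_S hj (by omega), Equiv.swap_apply_of_ne_of_ne (by omega) (by omega)]
                  · show MulAut.conj _ (S _ y) = _
                    rw [M.q_S hj (by omega), Equiv.swap_apply_of_ne_of_ne (by omega) (by omega)]
                rw [MulAut.conj_apply, mul_inv_eq_iff_eq_mul] at e1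
                exact e1
              rw [conj_conj, hc, ← conj_conj, ihe (by omega)]
              rfl
          exact h2 d' (by omega)
        rw [hfix, show MulAut.conj (qN S m k) (qQ S m i d' t) = qQ S m i (d' + 1) t by rw [← hq]; rfl]
        rw [pP, if_pos (by omega), show j + 1 - i - 1 = (d' + 1) + 1 by omega]
        show _ = MulAut.conj (qN S m (i + (d' + 1) + 1)) (qQ S m i (d' + 1) t)
        rw [show i + (d' + 1) + 1 = j by omega]
    -- the remaining exchanges commute with the last one
    have hc : qN S m k * qN S m j = qN S m j * qN S m k := by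
      have e1 : MulAut.conj (qN S m k) (qN S m j) = qN S m j := by
        conv_lhs => arg 2; rw [M.qN_eq hj]
        rw [← MulEquiv.coe_toMonoidHom, Edge.map_q, M.qN_eq hj]
        refine Edge.q_congr _ _ (MonoidHom.ext fun y => ?_) (MonoidHom.ext fun y => ?_)
          (funext fun u => M.q_m_far hk hj (by omega) u)
        · show MulAut.conj _ (S _ y) = _
          rw [M.q_S hk (by omega), Equiv.swap_apply_of_ne_of_ne (by omega) (by omega)]
        · show MulAut.conj _ (S _ y) = _
          rw [M.q_S hk hj, Equiv.swap_apply_of_ne_of_ne (by omega) (by omega)]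
      rw [MulAut.conj_apply, mul_inv_eq_iff_eq_mul] at e1
      exact e1
    rw [conj_conj, hc, ← conj_conj, ih i k (by omega) hk, Equiv.swap_apply_of_ne_of_ne (a := k) (b := k + 1) (x := j)
      (by omega) (by omega), Equiv.swap_apply_of_ne_of_ne (a := k) (b := k + 1) (x := j + 1) (by omega) (by omega)]
    refine hdef _ j t ?_
    rw [Equiv.swap_apply_def]
    split_ifs <;> omega

theorem q_pP {k : ℕ} (hk : k + 1 < n) {i j : ℕ} (hi : i < n) (hj : j < n) (hij : i ≠ j) (t : F) :
    MulAut.conj (qN S m k) (pP S m i j t) = pP S m (Equiv.swap k (k + 1) i) (Equiv.swap k (k + 1) j) t := by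
  rcases Nat.lt_or_ge i j with h | h
  · rw [pP, if_pos h, M.q_qQ (j - i - 1) i k (by omega) hk, show i + (j - i - 1) + 1 = j by omega]
  · rw [pP, if_neg (by omega), M.q_qQ (i - j - 1) j k (by omega) hk, show j + (i - j - 1) + 1 = i by omega,
      pP_symm]

end Amalg

end Cfsg.Agent.Recog.CT.Sp
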