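import Cfsg.Agent.Recog.CT.Sp.Pair

/-!
Three copies of SL(2, F) joined in a chain: the new short root elements.
-/

set_option autoImplicit false

namespace Cfsg.Agent.Recog.CT.Sp

open scoped commutatorElement

variable {F : Type*} [Field F] {G : Type*} [Group G]

local notation "SL2" => Matrix.SpecialLinearGroup (Fin 2) F

theorem comm_mul_right_eq {a b c : G} (h : Commute a c) : ⁅a, b * c⁆ = ⁅a, b⁆ := by
  simp only [commutatorElement_def, _root_.mul_inv_rev]
  calc a * (b * c) * a⁻¹ * (c⁻¹ * b⁻¹) = a * b * (c * a⁻¹) * c⁻¹ * b⁻¹ := by group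
    _ = a * b * (a⁻¹ * c) * c⁻¹ * b⁻¹ := by rw [h.inv_left.eq]
    _ = _ := by group

theorem comm_mul_left_eq {a b c : G} (h : Commute c b) : ⁅a * c, b⁆ = ⁅a, b⁆ := by
  simp only [commutatorElement_def, _root_.mul_inv_rev]
  calc a * c * b * (c⁻¹ * a⁻¹) * b⁻¹ = a * (c * b) * c⁻¹ * a⁻¹ * b⁻¹ := by group
    _ = a * (b * c) * c⁻¹ * a⁻¹ * b⁻¹ := by rw [h.eq]
    _ = _ := by group

/-- the data of a chain of three -/
structure Chain3 (A B C : SL2 →* G) (m m' : F → G) : Prop where
  e1 : Edge A B m
  e2 : Edge B C m'
  ac : ∀ x y, Commute (A x) (C y)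
  am : ∀ g t, Commute (A g) (m' t)
  cm : ∀ g t, Commute (C g) (m t)
  mm : ∀ t u, Commute (m t) (m' u)
  room : ∃ k : Fˣ, k ≠ 1

namespace Chain3

variable {A B C : Matrix.SpecialLinearGroup (Fin 2) F →* G} {m m' : F → G} (T : Chain3 A B C m m')
include T

theorem symm : Chain3 C B A m' m :=
  ⟨T.e2.symm, T.e1.symm, fun x y => (T.ac y x).symm, T.cm, T.am, fun t u => (T.mm u t).symm, T.room⟩

theorem a_y (g : SL2) (r q : Bool) (u : F) : Commute (A g) (T.e2.x r q u) := by
  have h1 : Commute (A g) ((if r then 1 else B sw) * (if q then 1 else C sw)) := by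
    refine Commute.mul_right ?_ ?_
    · cases r <;> simp [T.e1.comm g sw]
    · cases q <;> simp [T.ac g sw]
  rw [Edge.x, MulAut.conj_apply]
  exact (h1.mul_right (T.am g _)).mul_right h1.inv_right

theorem c_x (g : SL2) (s r : Bool) (t : F) : Commute (C g) (T.e1.x s r t) := by
  rw [← T.e1.x_symm]
  exact T.symm.a_y g r s t

theorem wA_y (r q : Bool) (u : F) : MulAut.conj (A sw) (T.e2.x r q u) = T.e2.x r q u := by
  rw [MulAut.conj_apply, (T.a_y sw r q u).eq, mul_inv_cancel_right]

theorem wC_x (s r : Bool) (t : F) : MulAut.conj (C sw) (T.e1.x s r t) = T.e1.x s r t := by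
  rw [MulAut.conj_apply, (T.c_x sw s r t).eq, mul_inv_cancel_right]

theorem lr_y (s r q : Bool) (t u : F) : Commute (lr A s t) (T.e2.x r q u) := by
  cases s <;> exact T.a_y _ r q u

theorem lr_x (s r q : Bool) (t u : F) : Commute (lr C q u) (T.e1.x s r t) := by
  cases q <;> exact T.c_x _ s r t

/-- short elements with the same middle letter -/
theorem par (s r q : Bool) (t u : F) : Commute (T.e1.x s r t) (T.e2.x r q u) := by
  have h0 : ∀ t u, Commute (T.e1.x true true t) (T.e2.x true true u) := fun t u => by
    rw [T.e1.x_tt, T.e2.x_tt]; exact T.mm t u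
  have h1 : ∀ r t u, Commute (T.e1.x true r t) (T.e2.x r true u) := by
    intro r t u
    cases r
    · have h := (h0 (-t) (-u)).map (MulAut.conj (B sw)).toMonoidHom
      simp only [MulEquiv.coe_toMonoidHom, T.e1.wB_x, T.e2.wA_x] at h
      simpa using h
    · exact h0 t u
  have h2 : ∀ r q t u, Commute (T.e1.x true r t) (T.e2.x r q u) := by
    intro r q t u
    cases q
    · have h := (h1 r t (-u)).map (MulAut.conj (C sw)).toMonoidHom
      simp only [MulEquiv.coe_toMonoidHom, T.e2.wB_x, T.wC_x] at h
      simpa using h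
    · exact h1 r t u
  cases s
  · have h := (h2 r q (-t) u).map (MulAut.conj (A sw)).toMonoidHom
    simp only [MulEquiv.coe_toMonoidHom, T.e1.wA_x, T.wA_y] at h
    simpa using h
  · exact h2 r q t u

/-- the new short root element -/
def z (_T : Chain3 A B C m m') (s q : Bool) (p : F) : G := ⁅_T.e1.x s true p, _T.e2.x false q 1⁆

theorem middle_fix (g : SL2) (s q : Bool) (t u : F) :
    Commute (B g) ⁅T.e1.x s true t, T.e2.x false q u⁆ := by
  set Z := ⁅T.e1.x s true t, T.e2.x false q u⁆ with hZ
  have h : (Subgroup.centralizer ({Z} : Set G)).comap B = ⊤ := by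
    refine closure_uu_ll _ (fun v => ?_) (fun v => ?_) <;>
      rw [Subgroup.mem_comap, Subgroup.mem_centralizer_iff] <;> intro y hy <;>
      rw [Set.mem_singleton_iff] at hy <;> subst hy
    · have e : MulAut.conj (lr B true v) Z = Z := by
        have hX : MulAut.conj (lr B true v) (T.e1.x s true t) = T.e1.x s true t := by
          rw [MulAut.conj_apply, ← T.e1.x_symm, (T.e1.symm.ml' true s v t).eq, mul_inv_cancel_right]
        have hY := T.e2.formula' false q v u
        rw [Bool.not_false] at hY
        rw [hZ, map_commutatorElement, hX, hY, comm_mul_right_eq ((T.lr_x s true q _ _).symm),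
          comm_mul_right_eq (T.par s true q _ _)]
      rw [MulAut.conj_apply, mul_inv_eq_iff_eq_mul] at e
      exact e.symm
    · have e : MulAut.conj (lr B false (-v)) Z = Z := by
        have hY : MulAut.conj (lr B false (-v)) (T.e2.x false q u) = T.e2.x false q u := by
          rw [MulAut.conj_apply, (T.e2.ml' false q (-v) u).eq, mul_inv_cancel_right]
        have hX := T.e1.symm.formula' true s (-v) t
        rw [Bool.not_true, T.e1.x_symm, T.e1.x_symm] at hX
        rw [hZ, map_commutatorElement, hX, hY, comm_mul_left_eq (T.lr_y s false q _ _),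
          comm_mul_left_eq (T.par s false q _ _)]
      rw [MulAut.conj_apply, mul_inv_eq_iff_eq_mul] at e
      simpa [lr] using e.symm
  have hm : g ∈ (Subgroup.centralizer ({Z} : Set G)).comap B := h ▸ Subgroup.mem_top g
  exact ((Subgroup.mem_centralizer_iff.1 (Subgroup.mem_comap.1 hm)) Z rfl).symm

theorem fix_conj (g : SL2) (s q : Bool) (t u : F) :
    MulAut.conj (B g) ⁅T.e1.x s true t, T.e2.x false q u⁆ = ⁅T.e1.x s true t, T.e2.x false q u⁆ := by
  rw [MulAut.conj_apply, (T.middle_fix g s q t u).eq, mul_inv_cancel_right]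

theorem z_scale (s q : Bool) (t u : F) : ⁅T.e1.x s true t, T.e2.x false q u⁆ = T.z s q (t * u) := by
  by_cases hu : u = 0
  · subst hu; rw [z, mul_zero, T.e1.x_zero, T.e2.x_zero, commutatorElement_one_left, commutatorElement_one_right]
  have h := T.fix_conj (dg (Units.mk0 u hu)) s q t u
  rw [map_commutatorElement, T.e2.tor_x, ← T.e1.x_symm, T.e1.symm.tor_x] at h
  simp only [T.e1.x_symm] at h
  rw [← h, z]
  simp [mul_comm t u, inv_mul_cancel₀ hu]

theorem z_fix (g : SL2) (s q : Bool) (p : F) : Commute (B g) (T.z s q p) := T.middle_fix g s q p 1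

theorem z_wB (s q : Bool) (p : F) : MulAut.conj (B sw) (T.z s q p) = T.z s q p := by
  rw [MulAut.conj_apply, (T.z_fix sw s q p).eq, mul_inv_cancel_right]

theorem z_zero (s q : Bool) : T.z s q 0 = 1 := by
  rw [z, T.e1.x_zero, commutatorElement_one_left]

/-- the short elements at both ends commute with the new ones -/
theorem z_x (s r q : Bool) (t p : F) : Commute (T.e1.x s r t) (T.z s q p) := by
  have e : ∀ t, MulAut.conj (T.e1.x s true t) (T.z s q p) = T.z s q (t + p) * (T.z s q t)⁻¹ := by
    intro t
    simp only [z, commutatorElement_def, MulAut.conj_apply, ← T.e1.x_add]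
    group
  obtain ⟨k, hk⟩ := T.room
  have e2 : ∀ t, MulAut.conj (T.e1.x s true ((k : F) * t)) (T.z s q p) =
      MulAut.conj (T.e1.x s true t) (T.z s q p) := by
    intro t
    have h := congrArg (MulAut.conj (B (dg k))) (e t)
    rw [MulAut.conj_apply (T.e1.x s true t), map_mul, map_mul, map_mul, map_inv, map_inv, ← T.e1.x_symm,
      T.e1.symm.tor_x, T.e1.x_symm, z, z, z, T.fix_conj, T.fix_conj, T.fix_conj] at h
    rw [e t, MulAut.conj_apply, z, z, z]
    simpa using h
  have h1 : ∀ t, Commute (T.e1.x s true t) (T.z s q p) := by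
    intro t
    have hk' : (k : F) - 1 ≠ 0 := sub_ne_zero.2 fun h => hk (Units.ext h)
    have h := e2 (t / ((k : F) - 1))
    rw [show (k : F) * (t / ((k : F) - 1)) = t / ((k : F) - 1) + t by field_simp; ring, ← T.e1.x_add, map_mul,
      MulAut.mul_apply, EmbeddingLike.apply_eq_iff_eq, MulAut.conj_apply, mul_inv_eq_iff_eq_mul] at h
    exact h
  cases r
  · have h := (h1 (-t)).map (MulAut.conj (B sw)).toMonoidHom
    simp only [MulEquiv.coe_toMonoidHom, T.e1.wB_x, T.z_wB] at h
    simpa using h
  · exact h1 t

theorem z_add (s q : Bool) (p p' : F) : T.z s q p * T.z s q p' = T.z s q (p + p') := by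
  have h := (T.z_x s true q p p').eq
  calc T.z s q p * T.z s q p' = (T.e1.x s true p * T.z s q p' * (T.e1.x s true p)⁻¹) * T.z s q p := by
        rw [h, mul_inv_cancel_right]
        show T.z s q p * T.z s q p' = T.z s q p' * T.z s q p
        refine (?_ : Commute (T.z s q p) (T.z s q p')).eq
        have hy : Commute (T.e2.x false q 1) (T.z s q p') := by
          have e : ∀ u, MulAut.conj (T.e2.x false q u) (T.z s q p') = (T.z s q (p' * u))⁻¹ * T.z s q (p' * (u + 1)) := by
            intro u
            rw [← T.z_scale, ← T.z_scale, z, MulAut.conj_apply]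
            simp only [commutatorElement_def, ← T.e2.x_add]
            group
          obtain ⟨k, hk⟩ := T.room
          have hk' : ((k⁻¹ : Fˣ) : F) - 1 ≠ 0 := sub_ne_zero.2 fun h => hk (by
            have h' : k⁻¹ = 1 := Units.ext h
            exact inv_eq_one.1 h')
          set u := 1 / (((k⁻¹ : Fˣ) : F) - 1) with hu
          have h2 := congrArg (MulAut.conj (B (dg k))) (e u)
          rw [MulAut.conj_apply (T.e2.x false q u), map_mul, map_mul, map_mul, map_inv, map_inv, T.e2.tor_x] at h2
          simp only [z, T.fix_conj, Bool.false_eq_true, if_false] at h2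
          have h3 : MulAut.conj (T.e2.x false q (((k⁻¹ : Fˣ) : F) * u)) (T.z s q p') =
              MulAut.conj (T.e2.x false q u) (T.z s q p') := by
            rw [e u, MulAut.conj_apply]
            exact h2
          rw [show ((k⁻¹ : Fˣ) : F) * u = u + 1 by rw [hu]; field_simp; ring, ← T.e2.x_add, map_mul,
            MulAut.mul_apply, EmbeddingLike.apply_eq_iff_eq, MulAut.conj_apply, mul_inv_eq_iff_eq_mul] at h3
          exact h3
        have hc : Commute (T.e1.x s true p) (T.z s q p') := T.z_x s true q p p'
        exact ((hc.mul_left hy).mul_left hc.inv_left).mul_left hy.inv_left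
    _ = _ := by
      simp only [z, commutatorElement_def, ← T.e1.x_add]
      group

theorem z_inv (s q : Bool) (p : F) : (T.z s q p)⁻¹ = T.z s q (-p) :=
  inv_eq_of_mul_eq_one_right (by rw [T.z_add, add_neg_cancel, T.z_zero])

theorem z_swap (s q : Bool) (t u : F) : ⁅T.e1.x s false t, T.e2.x true q u⁆ = T.z s q (-(t * u)) := by
  have h := congrArg (MulAut.conj (B sw)) (T.z_scale s q (-t) u)
  rw [map_commutatorElement, T.e1.wB_x, T.e2.wA_x, T.z_wB] at h
  simpa using h

theorem z_symm (s q : Bool) (p : F) : T.symm.z q s p = T.z s q p := by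
  show ⁅T.e2.symm.x q true p, T.e1.symm.x false s 1⁆ = _
  rw [T.e2.x_symm, T.e1.x_symm, ← commutatorElement_inv, T.z_swap, T.z_inv, one_mul, neg_neg]

theorem z_y (s r q : Bool) (u p : F) : Commute (T.e2.x r q u) (T.z s q p) := by
  rw [← T.z_symm, ← T.e2.x_symm]
  exact T.symm.z_x q r s u p

theorem z_lrA (s q : Bool) (v p : F) : Commute (lr A s v) (T.z s q p) := by
  have h1 := T.e1.ml' s true v p
  have h2 := T.lr_y s false q v 1
  exact ((h1.mul_right h2).mul_right h1.inv_right).mul_right h2.inv_right

/-- a short element against a new one with the opposite end -/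
theorem y_z (u r : F) : ⁅T.e2.x false true u, T.z true false r⁆ = T.e1.x true false (u * r) := by
  set X := fun v => T.e1.x true false v with hX
  set Y := fun v => T.e2.x false true v with hY
  set L := lr C false 1
  have key : ∀ u p, u ≠ 0 → MulAut.conj L (T.z true true p) =
      T.z true true p * MulAut.conj (Y u) (T.z true false (-p) * (X (p * u) * lr A true (p ^ 2))) := by
    intro u p hu
    obtain ⟨t, rfl⟩ : ∃ t, p = t * u := ⟨p / u, by field_simp⟩
    have hYc := T.e2.symm.formula' true false 1 u
    rw [Bool.not_true, T.e2.x_symm, T.e2.x_symm] at hYc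
    have hXc : MulAut.conj L (T.e1.x true true t) = T.e1.x true true t := by
      rw [MulAut.conj_apply, (T.lr_x true true false t 1).eq, mul_inv_cancel_right]
    rw [← T.z_scale, map_commutatorElement, hXc, hYc]
    simp only [eps_true, neg_one_mul, one_mul]
    have hb : ⁅T.e1.x true true t, lr B false (u ^ 2)⁆ = X (t * u * u) * lr A true ((t * u) ^ 2) := by
      have h := T.e1.symm.formula' true true (u ^ 2) (-t)
      rw [Bool.not_true, T.e1.x_symm, T.e1.x_symm, MulAut.conj_apply] at h
      calc ⁅T.e1.x true true t, lr B false (u ^ 2)⁆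
          = T.e1.x true true t * (lr B false (u ^ 2) * T.e1.x true true (-t) * (lr B false (u ^ 2))⁻¹) := by
            rw [commutatorElement_def, T.e1.x_inv]; group
        _ = _ := by
          rw [h, ← mul_assoc, ← mul_assoc, T.e1.x_add, add_neg_cancel, T.e1.x_zero, one_mul, hX]
          simp only [eps_true]
          congr 2 <;> ring
    have cX : Commute (T.e2.x false false (-u)) (X (t * u * u) * lr A true ((t * u) ^ 2)) :=
      ((T.par true false false _ _).symm).mul_right (T.lr_y true false false _ _).symm
    calc ⁅T.e1.x true true t, T.e2.x false true u * T.e2.x false false (-u) * lr B false (u ^ 2)⁆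
        = ⁅T.e1.x true true t, T.e2.x false true u⁆ * MulAut.conj (T.e2.x false true u)
            (⁅T.e1.x true true t, T.e2.x false false (-u)⁆ * MulAut.conj (T.e2.x false false (-u))
              ⁅T.e1.x true true t, lr B false (u ^ 2)⁆) := by
          simp only [commutatorElement_def, MulAut.conj_apply, _root_.mul_inv_rev]; group
      _ = _ := by
          rw [hb, MulAut.conj_apply (T.e2.x false false (-u)), cX.eq, mul_inv_cancel_right, T.z_scale, T.z_scale]
          simp [hY]
  obtain ⟨W, hW⟩ : ∃ W, ∀ u, u ≠ 0 → ⁅Y u, T.z true false r⁆ = W * X (u * r) := by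
    refine ⟨(T.z true true (-r))⁻¹ * MulAut.conj L (T.z true true (-r)) * (lr A true ((-r) ^ 2))⁻¹ *
      (T.z true false r)⁻¹, fun u hu => ?_⟩
    have h := key u (-r) hu
    rw [neg_neg, map_mul] at h
    have hfix : MulAut.conj (Y u) (X (-r * u) * lr A true ((-r) ^ 2)) = X (-r * u) * lr A true ((-r) ^ 2) := by
      rw [MulAut.conj_apply, (((T.par true false true _ _).symm).mul_right (T.lr_y true false true _ _).symm).eq,
        mul_inv_cancel_right]
    rw [hfix] at h
    have hz : MulAut.conj (Y u) (T.z true false r) = ⁅Y u, T.z true false r⁆ * T.z true false r := by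
      rw [commutatorElement_def, MulAut.conj_apply]; group
    rw [hz] at h
    have c1 : Commute (X (-r * u)) (T.z true false r) := T.z_x true false false _ _
    rw [h]
    calc ⁅Y u, T.z true false r⁆
        = ⁅Y u, T.z true false r⁆ * (T.z true false r * X (-r * u)) * (T.z true false r)⁻¹ * X (u * r) := by
          rw [← c1.eq, hX]
          simp only [mul_assoc, mul_inv_cancel_left]
          rw [T.e1.x_add, show -r * u + u * r = 0 by ring, T.e1.x_zero, mul_one]
      _ = _ := by group
  obtain ⟨k, hk⟩ := T.room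
  have hk' : (k : F) - 1 ≠ 0 := sub_ne_zero.2 fun h => hk (Units.ext h)
  have add : ∀ a b, ⁅Y (a + b), T.z true false r⁆ =
      MulAut.conj (Y a) ⁅Y b, T.z true false r⁆ * ⁅Y a, T.z true false r⁆ := by
    intro a b
    simp only [hY, commutatorElement_def, MulAut.conj_apply, ← T.e2.x_add]; group
  have h1 := add 1 ((k : F) - 1)
  rw [hW _ one_ne_zero, hW _ hk', hW _ (by simpa using k.ne_zero), map_mul] at h1
  have hYX : ∀ a v, MulAut.conj (Y a) (X v) = X v := fun a v => by
    rw [MulAut.conj_apply, (T.par true false true v a).symm.eq, mul_inv_cancel_right]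
  rw [hYX] at h1
  have hcX : ∀ v, Commute W (X v) := by
    intro v
    have e := hW 1 one_ne_zero
    have hc : Commute ⁅Y 1, T.z true false r⁆ (X v) := by
      have p1 : Commute (Y 1) (X v) := (T.par true false true v 1).symm
      have p2 : Commute (T.z true false r) (X v) := (T.z_x true false false v r).symm
      exact ((p1.mul_left p2).mul_left p1.inv_left).mul_left p2.inv_left
    rw [e] at hc
    have hx : Commute (X (1 * r)) (X v) := by
      show _ * _ = _ * _
      simp only [hX, T.e1.x_add, add_comm]
    simpa using hc.mul_left hx.inv_left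
  have hW1 : W = 1 := by
    have e : MulAut.conj (Y 1) W * (X (((k : F) - 1) * r) * W * X (1 * r)) = W * X ((1 + ((k : F) - 1)) * r) := by
      rw [h1]; group
    rw [← (hcX _).eq, mul_assoc W, show X (((k : F) - 1) * r) * X (1 * r) = X ((1 + ((k : F) - 1)) * r) by
      simp only [hX, T.e1.x_add]; congr 1; ring] at e
    exact (map_eq_one_iff _ (MulEquiv.injective _)).1 (mul_eq_right.1 e)
  by_cases hu : u = 0
  · subst hu; simp [T.e2.x_zero, T.e1.x_zero]
  · have := hW u hu
    rw [hW1, one_mul] at this
    exact this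

theorem q_m (t : F) : MulAut.conj T.e2.q (m t) = T.z true true t := by
  have k0 : ∀ v r, ⁅T.e2.x true false v, T.z true true r⁆ = T.e1.x true true (-(v * r)) := by
    intro v r
    have h1 : MulAut.conj (C sw) (T.z true false r) = T.z true true r := by
      rw [z, map_commutatorElement, T.wC_x, T.e2.wB_x, T.z_scale]
      simp
    have h := congrArg (MulAut.conj (B sw * C sw)) (T.y_z (-v) r)
    rw [map_commutatorElement, map_mul, MulAut.mul_apply, MulAut.mul_apply, MulAut.mul_apply, h1, T.z_wB,
      T.e2.wB_x, T.e2.wA_x, T.wC_x, T.e1.wB_x] at h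
    simpa [mul_comm v r] using h
  have e1 : MulAut.conj (T.e2.x true false (-1)) (T.e1.x true true t) = T.e1.x true true t := by
    rw [MulAut.conj_apply, (T.par true true false _ _).symm.eq, mul_inv_cancel_right]
  have e2 : MulAut.conj (T.e2.x false true 1) (T.e1.x true true t) = T.z true true (-t) * T.e1.x true true t := by
    rw [← T.z_inv, z, MulAut.conj_apply, commutatorElement_def]; group
  have e3 : MulAut.conj (T.e2.x true false (-1)) (T.z true true (-t) * T.e1.x true true t) = T.z true true (-t) := by
    rw [map_mul, e1, show MulAut.conj (T.e2.x true false (-1)) (T.z true true (-t)) =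
      ⁅T.e2.x true false (-1), T.z true true (-t)⁆ * T.z true true (-t) by
        rw [MulAut.conj_apply, commutatorElement_def]; group, k0, mul_assoc,
      (T.z_x true true true t (-t)).symm.eq, ← mul_assoc, T.e1.x_add]
    simp [T.e1.x_zero]
  have e4 : MulAut.conj (C (dg (-1))) (T.z true true (-t)) = T.z true true t := by
    rw [z, map_commutatorElement, MulAut.conj_apply (C (dg (-1))) (T.e1.x true true (-t)), (T.c_x _ true true _).eq,
      mul_inv_cancel_right, ← T.e2.x_symm, T.e2.symm.tor_x, T.e2.x_symm, T.z_scale]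
    congr 1
    simp
  rw [Edge.q, map_mul, map_mul, map_mul, MulAut.mul_apply, MulAut.mul_apply, MulAut.mul_apply, ← T.e1.x_tt, e1, e2, e3,
    e4]

end Chain3

theorem Edge.q_symm {A B : Matrix.SpecialLinearGroup (Fin 2) F →* G} {m : F → G} (E : Edge A B m) :
    E.symm.q = E.q := by
  have h : MulAut.conj E.q (B (dg (-1)) * (E.x true false (-1) * E.x false true 1 * E.x true false (-1))) =
      A (dg (-1)) * (E.x false true (-1) * E.x true false 1 * E.x false true (-1)) := by
    simp only [map_mul, E.q_B, E.q_x]
  rw [show MulAut.conj E.q (B (dg (-1)) * (E.x true false (-1) * E.x false true 1 * E.x true false (-1))) = E.q from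
    mul_inv_cancel_right E.q E.q] at h
  rw [h, Edge.q]
  simp only [E.x_symm]

theorem Chain3.braid {A B C : Matrix.SpecialLinearGroup (Fin 2) F →* G} {m m' : F → G} (T : Chain3 A B C m m')
    (t : F) : MulAut.conj T.e2.q (m t) = MulAut.conj T.e1.q (m' t) := by
  rw [T.q_m, ← Edge.q_symm T.e1, ← T.z_symm]
  exact (T.symm.q_m t).symm

end Cfsg.Agent.Recog.CT.Sp
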